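import Cfsg.Agent.MinD.Ch5
import Cfsg.Agent.Chev.GoodE8

/-! Table facts and arithmetic for the minimal degree of `E₈(q)`. -/

set_option autoImplicit false

namespace Cfsg.Agent.MinD

open Cfsg.Lie Cfsg.Agent.Chev

theorem e8_chk : ChkB certE8 chevE8 239 120 161 27
    (fun r => decide (0 < htC certE8 chevE8 r)) [0, 0, 1, 0, 1, 2, 0, 1, 2, 3, 0, 1, 2, 3, 4, 0, 1, 2, 3, 4, 5, 0, 1, 2, 3, 4, 5, 2, 3, 4, 5, 6, 4, 5, 6, 7, 6, 7, 8, 8, 9, 10, 0, 1, 2, 3, 4, 5, 6, 3, 4, 5, 6, 7, 5, 6, 7, 8, 7, 8, 9, 9, 10, 11, 6, 7, 8, 9, 8, 9, 10, 10, 11, 12, 9, 10, 11, 11, 12, 13, 12, 13, 14, 15, 10, 11, 12, 12, 13, 14, 13, 14, 15, 16, 14, 15, 16, 17, 18, 15, 16, 17, 18, 19, 20, 21, 16, 17, 18, 19, 20, 21, 22, 22, 23, 24, 25, 26, 27, 28] := by decide +kernel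

theorem e8_small : ∀ q < 51, 2 ≤ q → ∀ j < 9, 1 ≤ j →
    ¬ (q * (q ^ 12 + 1) * (q ^ 10 + 1) * (q ^ 6 + 1) - j ∣ q ^ 120 * ((q ^ 2 - 1) * ((q ^ 8 - 1) * ((q ^ 12 - 1) *
      ((q ^ 14 - 1) * ((q ^ 18 - 1) * ((q ^ 20 - 1) * ((q ^ 24 - 1) * ((q ^ 30 - 1) * 1))))))))) := by
  decide +kernel

theorem e8_arith {q k : ℕ} (hq : IsPrimePow q) (h1 : q * (q ^ 12 + 1) * (q ^ 10 + 1) * (q ^ 6 + 1) ≤ k + 8)
    (h : k ∣ q ^ 120 * ((q ^ 2 - 1) * ((q ^ 8 - 1) * ((q ^ 12 - 1) *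
      ((q ^ 14 - 1) * ((q ^ 18 - 1) * ((q ^ 20 - 1) * ((q ^ 24 - 1) * ((q ^ 30 - 1) * 1))))))))) :
    q * (q ^ 12 + 1) * (q ^ 10 + 1) * (q ^ 6 + 1) ≤ k := by
  by_contra! h2
  obtain ⟨j, hj⟩ := Nat.exists_eq_add_of_le h2.le
  have q2 := hq.two_le
  by_cases hb : q < 51
  · exact e8_small q hb q2 j (by omega) (by omega) (by rwa [hj, Nat.add_sub_cancel])
  have h3 := Int.natCast_dvd_natCast.2 (dvd_of_pp (E := (q ^ 12 + 1) * (q ^ 10 + 1) * (q ^ 6 + 1)) hq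
    (by rw [← hj]; ring) (by omega) (by omega) h)
  have h4 : (k : ℤ) = q * (q ^ 12 + 1) * (q ^ 10 + 1) * (q ^ 6 + 1) - j := by
    have := congrArg (Nat.cast (R := ℤ)) hj
    push_cast at this
    linarith
  have p1 : ∀ n, 1 ≤ q ^ n := fun n => Nat.one_le_pow _ _ (by omega)
  push_cast [Nat.cast_sub (p1 _)] at h3
  rw [h4] at h3
  have h5 : (51 : ℤ) ≤ q := by omega
  obtain rfl | rfl | rfl | rfl | rfl | rfl | rfl | rfl :
    j = 1 ∨ j = 2 ∨ j = 3 ∨ j = 4 ∨ j = 5 ∨ j = 6 ∨ j = 7 ∨ j = 8 := by omega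
  · exact e8_1 q h5 (by convert h3 using 1 <;> push_cast <;> ring)
  · exact e8_2 q h5 (by convert h3 using 1 <;> push_cast <;> ring)
  · exact e8_3 q h5 (by convert h3 using 1 <;> push_cast <;> ring)
  · exact e8_4 q h5 (by convert h3 using 1 <;> push_cast <;> ring)
  · exact e8_5 q h5 (by convert h3 using 1 <;> push_cast <;> ring)
  · exact e8_6 q h5 (by convert h3 using 1 <;> push_cast <;> ring)
  · exact e8_7 q h5 (by convert h3 using 1 <;> push_cast <;> ring)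
  · exact e8_8 q h5 (by convert h3 using 1 <;> push_cast <;> ring)

theorem e8_big (x : ℕ) : (1 + 1 + x) * ((1 + 1 + x) ^ 12 + 1) * ((1 + 1 + x) ^ 10 + 1) * ((1 + 1 + x) ^ 6 + 1) ≤
    (x + 1) * (1 + 1 + x + 1) * (2 * (1 + 1 + x) ^ 27) :=
  Nat.le.intro (k := (259381118 + 4058120767 * x + 30379548512 * x ^ 2 + 145137066192 * x ^ 3 + 497721689064 * x ^ 4 + 1306128860460 * x ^ 5 + 2729721474098 * x ^ 6 + 4667758878303 * x ^ 7 + 6657129217528 * x ^ 8 + 8030758106228 * x ^ 9 + 8280550409978 * x ^ 10 + 7355010763463 * x ^ 11 + 5660059639910 * x ^ 12 + 3789085860927 * x ^ 13 + 2212391481664 * x ^ 14 + 1128188559776 * x ^ 15 + 502506585878 * x ^ 16 + 195281776787 * x ^ 17 + 66054864314 * x ^ 18 + 19373910159 * x ^ 19 + 4900332712 * x ^ 20 + 1060898828 * x ^ 21 + 194613074 * x ^ 22 + 29839679 * x ^ 23 + 3753360 * x ^ 24 + 377208 * x ^ 25 + 29124 * x ^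 26 + 1622 * x ^ 27 + 58 * x ^ 28 + 1 * x ^ 29)) (by ring)

end Cfsg.Agent.MinD
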