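import Cfsg.Agent.MinD.G1

/-! Minimal degree of `G₂(q)`, part 2: characteristic three. -/

set_option autoImplicit false
set_option linter.unusedSectionVars false

namespace Cfsg.Agent.MinD

open Module Cfsg.Lie Cfsg.Agent.Chev Cfsg.Agent.Mult

theorem exists_notMem_fin {F : Type*} [Fintype F] (S : Finset F) (h : S.card < Fintype.card F) : ∃ t, t ∉ S := by
  by_contra! k
  exact h.not_ge (Finset.card_le_card fun t _ => k t)

namespace Dat

variable {F G M : Type*} [Field F] [Fintype F] [Group G] [Finite G] [AddCommGroup M] [Module ℂ M]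
  [FiniteDimensional ℂ M] {T : Dat F G M}

theorem cnt3 (hp : ((3 : ℕ) : F) = 0) {n0 n1 n2 n3 : ℕ} (h3 : ∀ α ≠ 0, ∀ β ≠ 0, n3 ≤ T.rk [] [(9, β), (11, α)])
    (h2 : ∀ α ≠ 0, n2 ≤ T.rk [9] [(11, α)]) (h1 : ∀ β ≠ 0, n1 ≤ T.rk [11] [(9, β)]) (h0 : n0 ≤ T.rk [9, 11] []) :
    n0 + (Fintype.card F - 1) * n1 + (Fintype.card F - 1) * (n2 + (Fintype.card F - 1) * n3) ≤ finrank ℂ M := by
  have k1 := dec (T := T) (sta hp [] rfl (by decide +kernel)) fun α hα => (Nat.add_le_add_right (h2 α hα) _).trans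
    (dec (sta hp [11] rfl (by decide +kernel)) (h3 α hα))
  have k2 := dec (sta hp [] rfl (by decide +kernel)) h1
  rw [rk_nil] at k1
  omega

theorem mv3 (hp : ((3 : ℕ) : F) = 0) {μ γ β : F} {v : M} (hv : v ∈ T.Sp [8, 11] [(6, μ), (10, γ), (9, β)]) (t : F) :
    T.ρ (T.x 4 t) v ∈ T.Sp [8, 11] [(6, μ), (10, γ - (β * t + μ * t ^ 3)), (9, β)] := by
  have k1 := sta (T := T) (r := 4) (Z := [8, 11]) (L := [(6, μ), (9, β)]) hp [6, 9] rfl (by decide +kernel) t v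
    (by simp_all [mem_Sp])
  simp only [mem_Sp, List.forall_mem_cons] at hv k1 ⊢
  refine ⟨k1.1, k1.2.1, fun u => ?_, k1.2.2⟩
  rw [← rho_mul, rel hp (by decide +kernel : CommIs chevG2 3 (4 : Fin 12) (10 : Fin 12)
    [(9, 1, 1, 1), (8, -1, 2, 1), (6, 1, 3, 1), (11, -1, 3, 2)])]
  simp only [evT, List.map_cons, List.map_nil, Sys.gword_cons', gword_nil, rho_mul, map_one, Module.End.one_apply]
  rw [show T.X.xN 11 = T.x 11 from funext (T.X.xN_val (rG 11)), show T.X.xN 6 = T.x 6 from funext (T.X.xN_val (rG 6)),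
    show T.X.xN 8 = T.x 8 from funext (T.X.xN_val (rG 8)), show T.X.xN 9 = T.x 9 from funext (T.X.xN_val (rG 9)),
    mem_E0.1 hv.1.2.1, mem_E.1 hv.2.1, map_smul, mem_E0.1 hv.1.1, map_smul, mem_E.1 hv.2.2.2.1]
  simp only [map_smul, mem_E.1 hv.2.2.1, smul_smul, ← AddChar.map_add_eq_mul, AddChar.mulShift_apply]
  congr 2; ring

theorem pG : A (rG 6) (rG 10) = -1 ∧ A (rG 6) (rG 9) = 0 ∧ A (rG 8) (rG 10) = 0 ∧ A (rG 8) (rG 9) = 1 ∧
    A (rG 6) (rG 6) = 2 ∧ A (rG 6) (rG 1) = 1 := by decide +kernel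

omit [Finite G] [FiniteDimensional ℂ M] in
theorem ex_t (hq : 3 < Fintype.card F) : ∃ t : F, t ≠ 0 ∧ t ≠ 1 ∧ t ≠ -1 := by
  classical
  simpa using exists_notMem_fin ({0, 1, -1} : Finset F) (Finset.card_le_three.trans_lt hq)

theorem phi0 (hq : 3 < Fintype.card F) {β : F} (hβ : β ≠ 0) (μ : F) : ∃ t, β * t + μ * t ^ 3 ≠ 0 := by
  obtain ⟨t0, ht0⟩ := ex_t hq
  by_contra! k
  have : β * (t0 * ((t0 - 1) * (t0 + 1))) = 0 := by linear_combination t0 ^ 3 * k 1 - k t0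
  simp [hβ, ht0, sub_eq_zero, add_eq_zero_iff_eq_neg] at this

variable (hp : ((3 : ℕ) : F) = 0)
include hp

theorem u3 : ∃ u, (∀ β ≠ 0, ∀ γ ≠ 0, T.rk [8, 11] [(10, γ), (9, β)] = u) ∧
    ∀ α ≠ 0, ∀ β ≠ 0, T.rk [] [(9, β), (11, α)] = Fintype.card F * (Fintype.card F * u) := by
  obtain ⟨p1, p2, p3, p4, -⟩ := pG
  obtain ⟨ε, b0, g, b1⟩ := T.wey 6
  have aeq : ∀ β ≠ 0, ∀ γ ≠ 0, ∀ β' ≠ 0, ∀ γ' ≠ 0, T.rk [8, 11] [(10, γ), (9, β)] ≤ T.rk [8, 11] [(10, γ'), (9, β')] :=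
    fun β hβ γ hγ β' hβ' γ' hγ' => (rk_tor (L' := [(10, γ'), (9, β)]) 6 (div_ne_zero hγ' hγ) (by
      simp [p1, p2]; field_simp)).trans (rk_tor 8 (div_ne_zero hβ hβ') (by simp [p3, p4]; field_simp))
  have au := fun β hβ γ hγ =>
    le_antisymm (aeq β hβ γ hγ _ one_ne_zero _ one_ne_zero) (aeq _ one_ne_zero _ one_ne_zero _ hβ _ hγ)
  have i1 : ∀ β ≠ 0, ∀ γ ≠ 0, T.rk [11] [(9, β), (10, γ)] = Fintype.card F * T.rk [8, 11] [(10, 1), (9, 1)] :=
    fun β hβ γ hγ => by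
      rw [heis hp 7 8 9 1 [9, 10] rfl (by decide +kernel) (by simp) List.mem_cons_self hβ 0, rk_zero, rk_swap, au β hβ γ hγ]
  refine ⟨_, au, fun α hα β hβ => ?_⟩
  rw [heis hp 6 10 11 1 [9, 11] rfl (by decide +kernel) (by simp) (List.mem_cons_of_mem _ List.mem_cons_self) hα 0, rk_zero]
  exact congrArg _ (le_antisymm ((rk_le_of g (b1 [10] [11] [(9, 9), (11, 10)] [β, α] (by decide +kernel)).1).trans
    (i1 _ (b0 _ _ hβ) _ (b0 _ _ hα)).le) ((i1 _ (b0 _ _ hβ) _ (b0 _ _ hα)).ge.trans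
    (rk_le_of g (b1 [11] [10] [(9, 9), (10, 11)] [β, α] (by decide +kernel)).2)))

theorem i4 {β : F} (hβ : β ≠ 0) : T.rk [11] [(9, β)] = Fintype.card F * T.rk [8, 11] [(9, β)] := by
  rw [heis hp 7 8 9 1 [9] rfl (by decide +kernel) (by simp) List.mem_cons_self hβ 0, rk_zero]

theorem s6 (γ β : F) : Sta T.ρ (T.Sp [8, 11] [(10, γ), (9, β)]) (T.x 6) := sta hp [10, 9] rfl (by decide +kernel)

theorem s10 (β : F) : Sta T.ρ (T.Sp [8, 11] [(9, β)]) (T.x 10) := sta hp [9] rfl (by decide +kernel)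

theorem u_one (hq : 9 ≤ Fintype.card F) (h0 : T.rk [9] [] < finrank ℂ M)
    (hM : finrank ℂ M < Fintype.card F ^ 4 + Fintype.card F ^ 2 + 1) :
    (∀ β ≠ 0, ∀ γ ≠ 0, T.rk [8, 11] [(10, γ), (9, β)] = 1) ∧
    ∀ α ≠ 0, ∀ β ≠ 0, T.rk [] [(9, β), (11, α)] = Fintype.card F * Fintype.card F := by
  obtain ⟨u, au, n11⟩ := u3 (T := T) hp
  obtain rfl : u = 1 := by
    refine le_antisymm (not_lt.1 fun k => ?_) (Nat.pos_of_ne_zero fun k => h0.not_ge ?_)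
    · have := cnt3 hp (fun α hα β hβ => (n11 α hα β hβ).ge) (fun _ _ => Nat.zero_le _) (fun _ _ => Nat.zero_le _)
        (Nat.zero_le _)
      obtain ⟨y, hy⟩ := Nat.exists_eq_add_of_le' hq
      rw [hy] at hM this
      rw [show y + 9 - 1 = y + 8 from rfl] at this
      nlinarith [Nat.mul_le_mul_left ((y + 8) * (y + 8) * (y + 9) * (y + 9)) k, Nat.zero_le (y ^ 2), Nat.zero_le (y ^ 3),
        Nat.zero_le (y ^ 4)]
    have k0 : ∀ β ≠ 0, ∀ γ ≠ 0, ∀ v ∈ T.Sp [8, 11] [(10, γ), (9, β)], v = 0 := fun β hβ γ hγ v hv =>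
      by_contra fun h => ((au β hβ γ hγ).trans k).not_gt (rk_pos.2 ⟨v, hv, h⟩)
    have k1 : ∀ β ≠ 0, T.rk [8, 11] [(9, β)] = 0 := fun β hβ => by
      by_contra k1
      obtain ⟨γ, k2⟩ := exists_ev (s10 hp β) (Nat.pos_of_ne_zero k1)
      obtain ⟨μ, k3⟩ := exists_ev (s6 hp γ β) k2
      obtain ⟨v, hv, hv0⟩ := rk_pos.1 k3
      obtain ⟨t, ht⟩ := phi0 (by omega) hβ μ
      by_cases hγ : γ = 0
      · exact nz _ hv0 (k0 β hβ _ (by rwa [hγ, zero_sub, neg_ne_zero]) _ (tail (mv3 hp hv t)))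
      · exact hv0 (k0 β hβ γ hγ v (tail hv))
    have k2 := dec' (T := T) (Z := []) (L := []) (k := 9) (d := 0) (sta hp [] rfl (by decide +kernel))
      fun β hβ => by
        have := dec' (T := T) (Z := []) (L := [(9, β)]) (k := 11) (d := 0) (sta hp [9] rfl (by decide +kernel))
          fun α hα => by rw [rk_swap, n11 α hα β hβ, k]; simp
        rwa [i4 hp hβ, k1 β hβ] at this
    rwa [rk_nil] at k2
  exact ⟨au, by simpa only [mul_one] using n11⟩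

theorem bad3 (hq : 9 ≤ Fintype.card F) (au : ∀ β ≠ 0, ∀ γ ≠ 0, T.rk [8, 11] [(10, γ), (9, β)] = 1) {β μ : F}
    (hβ : β ≠ 0) (hμ : μ ≠ 0) {v : M} (hv : v ∈ T.Sp [8, 11] [(6, μ), (10, 1), (9, β)]) (hv0 : v ≠ 0) :
    3 * (Fintype.card F - 1) ≤ 2 * T.rk [8, 11] [(9, β)] := by
  classical
  obtain ⟨p1, p2, -, -, p5, -⟩ := pG
  have k1 : ∀ c ≠ 0, T.ρ (T.X.h (rG 6) c) v ∈ T.Sp [8, 11] [(6, μ / c ^ 2), (10, c), (9, β)] := fun c hc =>
    tor 6 hc (by simp [p1, p2, p5, hc, zpow_ofNat]) hv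
  have k3 : ∀ c ≠ 0, 1 ≤ T.rk [10, 8, 11] [(6, μ / c ^ 2), (9, β)] := fun c hc => by
    obtain ⟨t, ht⟩ : ∃ t, c - (β * t + μ / c ^ 2 * t ^ 3) = 0 := by
      obtain ⟨t, ht⟩ := phi0 (by omega) hβ (μ / c ^ 2)
      by_contra! k
      have k4 := eq_of_one (au β hβ _ (k t)).le (mv3 hp (k1 c hc) t) (k1 _ (k t)) (nz _ (nz _ hv0)) (nz _ hv0)
      rw [div_eq_div_iff (pow_ne_zero _ hc) (pow_ne_zero _ (k t)), mul_right_inj' hμ, sq_eq_sq_iff_eq_or_eq_neg] at k4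
      rcases k4 with k4 | k4
      · exact ht (by linear_combination -k4)
      · exact k (-t) (by push_cast at hp; linear_combination -k4 + c * hp)
    have := mv3 hp (k1 c hc) t
    rw [ht] at this
    exact rk_pos.2 ⟨_, zcons (head (tail this)) (cons (head this) (tail (tail this))),
      nz (T.x 4 t) (nz (T.X.h (rG 6) c) hv0)⟩
  have k4 : Fintype.card F - 1 ≤ 2 * T.rk [10, 8, 11] [(9, β)] := by
    rw [rk_sum (k := 6) (sta hp [9] rfl (by decide +kernel)), ← Finset.card_univ,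
      ← Finset.card_erase_of_mem (Finset.mem_univ 0)]
    refine (Finset.card_le_mul_card_image (f := fun c : F => μ / c ^ 2) _ 2 fun b hb => ?_).trans
      (Nat.mul_le_mul_left _ ((Finset.card_eq_sum_ones _).le.trans ((Finset.sum_le_sum fun b hb => ?_).trans
        (Finset.sum_le_sum_of_subset (Finset.subset_univ _)))))
    · obtain ⟨c, hc, rfl⟩ := Finset.mem_image.1 hb
      refine (Finset.card_le_card (t := {c, -c}) fun d hd => ?_).trans Finset.card_le_two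
      simp only [Finset.mem_filter, Finset.mem_erase] at hd hc
      have := hd.2
      rw [div_eq_div_iff (pow_ne_zero _ hd.1.1) (pow_ne_zero _ hc.1), mul_right_inj' hμ, eq_comm,
        sq_eq_sq_iff_eq_or_eq_neg] at this
      simpa using this
    · obtain ⟨c, hc, rfl⟩ := Finset.mem_image.1 hb
      exact k3 c (Finset.ne_of_mem_erase hc)
  have k5 := dec (s10 hp β) fun γ hγ => (au β hβ γ hγ).ge
  omega

theorem top3 (hq : 9 ≤ Fintype.card F) (h0 : T.rk [9] [] < finrank ℂ M)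
    (hM : finrank ℂ M < Fintype.card F ^ 4 + Fintype.card F ^ 2 + 1) :
    (∀ α ≠ 0, ∀ β ≠ 0, Fintype.card F * Fintype.card F ≤ T.rk [] [(9, β), (11, α)]) ∧
    (∀ β ≠ 0, Fintype.card F * Fintype.card F ≤ T.rk [11] [(9, β)]) ∧
    (∀ δ ≠ 0, Fintype.card F ≤ T.rk [10, 9, 11] [(8, δ)]) ∧ ∀ χ ≠ 0, 1 ≤ T.rk [6, 8, 10, 9, 11] [(7, χ)] := by
  obtain ⟨au, n11⟩ := u_one hp hq h0 hM
  obtain ⟨-, p2, -, p4, -, p6⟩ := pG
  obtain ⟨εa, a0, ga, a1⟩ := T.wey 7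
  obtain ⟨εb, b0, gb, b1⟩ := T.wey 6
  have hB : ∀ β ≠ 0, 0 < T.rk [6, 8, 11] [(9, β)] := fun β hβ => by
    obtain ⟨μ, k3⟩ := exists_ev (s6 hp 1 β) (au β hβ 1 one_ne_zero).ge
    obtain ⟨v, hv, hv0⟩ := rk_pos.1 k3
    by_cases hμ : μ = 0
    · exact rk_pos.2 ⟨v, zcons (hμ ▸ head hv) (tail (tail hv)), hv0⟩
    exfalso
    have k8 := bad3 hp hq au hβ hμ hv hv0
    have k6 : ∀ β' ≠ 0, T.rk [8, 11] [(9, β)] ≤ T.rk [8, 11] [(9, β')] := fun β' h =>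
      rk_tor 8 (div_ne_zero hβ h) (by simp [p4]; field_simp)
    have k7 := cnt3 hp (fun α hα β hβ => (n11 α hα β hβ).ge) (fun α hα => le_of_add_le_right
      (dec (k := 8) (d := Fintype.card F) (sta hp [11] rfl (by decide +kernel)) fun δ hδ => by
        have := n11 _ (a0 11 _ hα) _ (a0 9 _ hδ)
        rw [heis hp 7 8 9 1 [9, 11] rfl (by decide +kernel) (by simp) List.mem_cons_self (a0 9 _ hδ) 0, rk_zero] at this
        exact (Nat.eq_of_mul_eq_mul_left (by omega) this).ge.trans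
          (rk_le_of ga (a1 [8] [9] [(9, 8), (11, 11)] [δ, α] (by decide +kernel)).2)))
      (fun β' h => (Nat.mul_le_mul_left _ (k6 β' h)).trans (i4 hp h).ge) (le_of_add_le_right
      (dec (k := 8) (sta hp [] rfl (by decide +kernel)) fun δ hδ => (k6 _ (a0 9 _ hδ)).trans
        (rk_le_of ga (a1 [8, 11] [9, 11] [(9, 8)] [δ] (by decide +kernel)).2)))
    obtain ⟨y, hy⟩ := Nat.exists_eq_add_of_le' hq
    rw [hy] at hM k7 k8
    rw [show y + 9 - 1 = y + 8 from rfl] at k7 k8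
    nlinarith [Nat.mul_le_mul_left ((y + 8) * (y + 10)) k8, Nat.zero_le (y ^ 2), Nat.zero_le (y ^ 3),
      Nat.zero_le (y ^ 4)]
  have hB1 : ∀ β ≠ 0, T.rk [6, 8, 11] [(9, β)] = Fintype.card F ∧ T.rk [4, 6, 8, 11] [(9, β)] = 1 := fun β hβ => by
    have k1 := heis (T := T) (Z := [6, 8, 11]) (L := [(9, β)]) hp 4 10 9 1 [9] rfl (by decide +kernel) (by simp)
      List.mem_cons_self hβ 1
    have k2 := heis (T := T) (Z := [6, 8, 11]) (L := [(9, β)]) hp 10 4 9 (-1) [9] rfl (by decide +kernel) (by simp)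
      List.mem_cons_self hβ 0
    have k3 := (rk_mono (T := T) (Z := [6, 8, 11]) (L := [(10, 1), (9, β)]) fun _ => sub (by decide)).trans
      (au β hβ 1 one_ne_zero).le
    have k4 := hB β hβ
    rw [rk_zero, k1] at k2
    rw [k1] at k4
    have k5 : T.rk [6, 8, 11] [(10, 1), (9, β)] = 1 := le_antisymm k3 (Nat.pos_of_mul_pos_left k4)
    rw [k5] at k1 k2
    exact ⟨by omega, (Nat.eq_of_mul_eq_mul_left (by omega) k2).symm⟩
  refine ⟨fun α hα β hβ => (n11 α hα β hβ).ge, fun β hβ => by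
    rw [i4 hp hβ]
    exact Nat.mul_le_mul_left _ ((hB1 β hβ).1.ge.trans (rk_mono fun _ => sub (by decide))), fun δ hδ =>
    (hB1 _ (a0 9 _ hδ)).1.ge.trans (rk_le_of ga (a1 [6, 8, 11] [10, 9, 11] [(9, 8)] [δ] (by decide +kernel)).2),
    fun χ hχ => ?_⟩
  have k1 := (hB1 _ (a0 9 _ (b0 8 _ hχ))).2
  obtain ⟨v, hv, hv0⟩ := rk_pos.1 k1.ge
  obtain ⟨t0, ht0⟩ := ex_t (F := F) (by omega)
  have k2 := fix_tor k1.le (r := 1) (sta hp [9] rfl (by decide +kernel)) 6 ht0.1 (by simp [p2]) (by simp [p6, ht0]) hv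
  exact rk_pos.2 ⟨_, (b1 [5, 7, 10, 9, 11] _ [(8, 7)] [χ] (by decide +kernel)).2 _
    ((a1 [1, 4, 6, 8, 11] _ [(9, 8)] [εb 8 * χ] (by decide +kernel)).2 v (zcons k2 hv)), nz gb (nz ga hv0)⟩

variable (T) in
/-- The data twisted by the exceptional isogeny. -/
noncomputable def tw : Dat F G M := ⟨twG2_ok.pull hp (RingHom.id F) T.X, T.ρ, T.ψ, T.hψ⟩

theorem tw_E {r k : Fin 12} (e : twG2.ι r = k) (t' : F) : ∃ t, (t = 0 ↔ t' = 0) ∧ (T.tw hp).E r t = T.E k t' := by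
  have i := AddChar.to_mulShift_inj_of_isPrimitive (AddChar.IsPrimitive.of_ne_one T.hψ)
  have s := Finite.surjective_of_injective ((injective_iff_map_eq_zero (twG2_ok.a hp (RingHom.id F) (rG r))).2
    fun t h => by_contra fun ht => twG2_ok.a_ne_zero hp _ _ ht h)
  obtain ⟨t, ht⟩ := mulShift_surj T.hψ ((T.ψ.mulShift t').compAddMonoidHom (twG2_ok.a hp (RingHom.id F) (rG r)))
  refine ⟨t, ⟨fun h => i (DFunLike.ext _ _ (s.forall.2 fun u => ?_)), fun h => i (ht.trans (by ext; simp [h]))⟩,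
    Submodule.ext fun v => .trans (forall_congr' fun u => ?_) s.forall.symm⟩
  · simpa [h] using (DFunLike.congr_fun ht u).symm
  · rw [show (T.tw hp).ψ.mulShift t = _ from ht, show (T.tw hp).x r u = T.x k _ from
      congrArg (T.X.x · _) (Fin.ext e)]
    rfl

theorem tw_rk {Z Z' : List (Fin 12)} {r k : Fin 12} (h : twG2.ι r = k ∧ ∀ k ∈ Z', ∃ s ∈ Z, twG2.ι s = k) {n : ℕ}
    (hn : ∀ t ≠ 0, n ≤ (T.tw hp).rk Z [(r, t)]) : ∀ t ≠ 0, n ≤ T.rk Z' [(k, t)] := fun t' h' => by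
  obtain ⟨t, h1, h2⟩ := tw_E (T := T) hp h.1 t'
  refine (hn t (mt h1.1 h')).trans (Submodule.finrank_mono fun v hv => ⟨fun k hk => ?_, by simpa [← h2] using head hv⟩)
  obtain ⟨s, hs, e⟩ := h.2 k hk
  obtain ⟨t, h1, h2⟩ := tw_E (T := T) hp e 0
  rw [← h2, h1.2 rfl]
  exact hv.1 s hs

theorem bound3 (hq : 9 ≤ Fintype.card F) (h0 : ∀ r, T.ρ (T.x r 1) ≠ 1) :
    Fintype.card F ^ 4 + Fintype.card F ^ 2 ≤ finrank ℂ M + 2 := by
  by_contra! hM
  obtain ⟨f0, f1, f2, f3⟩ := top3 hp hq (rk_lt (h0 9)) (by omega)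
  obtain ⟨-, g1, g2, g3⟩ := top3 (T := T.tw hp) hp hq (rk_lt (t := 1) (by
    rw [show (T.tw hp).x 9 1 = T.x 11 1 from congrArg (T.x 11)
      ((twG2_ok.a_apply hp (RingHom.id F) (rG 9) 1).trans (by simp [twG2]))]
    exact h0 11)) (by omega)
  have k1 := dec (k := 10) (sta hp [] rfl (by decide +kernel)) (tw_rk (Z' := [9, 11]) hp (by decide +kernel) g2)
  have k2 := dec (sta hp [] rfl (by decide +kernel)) f2
  have k3 := dec (k := 6) (sta hp [] rfl (by decide +kernel)) (tw_rk (Z' := [8, 10, 9, 11]) hp (by decide +kernel) g3)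
  have k4 := dec (sta hp [] rfl (by decide +kernel)) f3
  have k5 := cnt3 hp f0 (tw_rk hp (by decide +kernel) g1) f1 le_rfl
  obtain ⟨y, hy⟩ := Nat.exists_eq_add_of_le' hq
  rw [hy] at hM k1 k2 k3 k4 k5
  rw [show y + 9 - 1 = y + 8 from rfl] at k1 k2 k3 k4 k5
  nlinarith

end Dat

end Cfsg.Agent.MinD
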