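import Cfsg.Agent.MinD.G2

/-! Minimal degree of `G₂(q)`, part 3: submodules for the long root subgroup `SL₃(q)`. -/

set_option autoImplicit false
set_option linter.unusedSectionVars false

namespace Cfsg.Agent.MinD

open Module Cfsg.Lie Cfsg.Agent.Chev Cfsg.Agent.Mult

namespace Dat

variable {F G M : Type*} [Field F] [Fintype F] [Group G] [Finite G] [AddCommGroup M] [Module ℂ M]
  [FiniteDimensional ℂ M] {T : Dat F G M} {W : Submodule ℂ M} {Z : List (Fin 12)} {L L' : List (Fin 12 × F)}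

variable (T W Z L) in
/-- Dimensions of joint eigenspaces in a submodule. -/
noncomputable def wk : ℕ := finrank ℂ ↥(W ⊓ T.Sp Z L)

variable (T W) in
/-- Stable under the long root groups. -/
def Lg : Prop := ∀ r ∈ [0, 1, 5, 6, 10, 11], Sta T.ρ W (T.x r)

theorem wk_top : T.wk ⊤ Z L = T.rk Z L := by rw [wk, top_inf_eq, rk]

theorem wk_le : T.wk W Z L ≤ T.rk Z L := Submodule.finrank_mono inf_le_right

theorem wk_nil : T.wk W [] [] = finrank ℂ W := by
  rw [wk, show T.Sp [] [] = ⊤ from eq_top_iff.2 fun _ _ => by simp [mem_Sp], inf_top_eq]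

theorem wk_zero (k : Fin 12) : T.wk W Z ((k, 0) :: L) = T.wk W (k :: Z) L := by rw [wk, wk, Sp_cons, Sp_zero]

theorem wk_swap (a b : Fin 12 × F) : T.wk W Z (a :: b :: L) = T.wk W Z (b :: a :: L) := by
  obtain ⟨a, t⟩ := a
  obtain ⟨b, u⟩ := b
  rw [wk, wk, Sp_cons, Sp_cons, Sp_cons, Sp_cons, inf_right_comm (T.Sp Z L)]

open scoped _root_.Classical in
theorem wk_add {k : Fin 12} (hW : Sta T.ρ W (T.x k)) (hN : Sta T.ρ (T.Sp Z L) (T.x k)) :
    T.wk W Z L = T.wk W (k :: Z) L + ∑ t ∈ Finset.univ.erase 0, T.wk W Z ((k, t) :: L) := by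
  rw [← wk_zero, Finset.add_sum_erase _ (fun t => T.wk W Z ((k, t) :: L)) (Finset.mem_univ _), wk,
    finrank_eq_sum (T.X.add _) (hW.inf hN)]
  exact (Function.Bijective.sum_comp ⟨AddChar.to_mulShift_inj_of_isPrimitive (AddChar.IsPrimitive.of_ne_one T.hψ),
    mulShift_surj T.hψ⟩ _).symm.trans (Finset.sum_congr rfl fun t _ => by rw [wk, Sp_cons, ← inf_assoc]; rfl)

theorem wk_eq {k : Fin 12} (hW : Sta T.ρ W (T.x k)) (hN : Sta T.ρ (T.Sp Z L) (T.x k)) {d : ℕ}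
    (h : ∀ t ≠ 0, T.wk W Z ((k, t) :: L) = d) : T.wk W Z L = T.wk W (k :: Z) L + (Fintype.card F - 1) * d := by
  classical
  rw [wk_add hW hN, Finset.sum_congr rfl fun t ht => h t (Finset.ne_of_mem_erase ht), Finset.sum_const,
    Finset.card_erase_of_mem (Finset.mem_univ 0), Finset.card_univ, smul_eq_mul]

theorem wheis (r s k : Fin 12) (ε : ℤ) (Y : List (Fin 12)) (e : L.map Prod.fst = Y)
    (h : HsG 0 Z Y r s k ε) (hε : (ε : F) ≠ 0) {β : F} (hk : (k, β) ∈ L) (hβ : β ≠ 0) (hr : Sta T.ρ W (T.x r))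
    (hs : Sta T.ρ W (T.x s)) (t : F) : T.wk W Z L = Fintype.card F * T.wk W Z ((s, t) :: L) := by
  rw [wk, wk, Sp_cons, ← inf_assoc]
  refine heis_eq (T.X.add _) (hs.inf (sta Nat.cast_zero Y e h.2.2.2)) (hr.inf (sta Nat.cast_zero Y e h.2.2.1))
    (φ := fun u => T.ψ.mulShift (-(β * ε) * u))
    ((mulShift_surj T.hψ).comp (mul_left_surjective₀ (neg_ne_zero.2 (mul_ne_zero hβ hε)))) (fun t u v hv => ?_) _
  rw [← rho_mul, rel Nat.cast_zero h.1, evT, List.map_cons, Sys.gword_cons', ← evT, rho_mul, rho_mul, rho_mul,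
    fixw hv.2.1 _ _ _ h.2.1, T.X.xN_val (rG k), mem_E.1 (hv.2.2 _ hk), map_smul, map_smul, AddChar.mulShift_apply]
  congr 2; ring

theorem pL : ng (rG 11) = rG 0 ∧ ng (rG 10) = rG 1 ∧ A (rG 11) (rG 6) = 1 ∧ A (rG 11) (rG 10) = 1 ∧
    A (rG 10) (rG 6) = -1 ∧ A (rG 10) (rG 10) = 2 ∧ A (rG 9) (rG 6) = 0 ∧ A (rG 9) (rG 8) = 1 ∧
    A (rG 9) (rG 10) = 3 := by decide +kernel

theorem Lg.tor (hW : T.Lg W) (a : Fin 12) (ha : a = 11 ∨ a = 10) {c : F} (hc : c ≠ 0)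
    (e : L = L'.map fun p => (p.1, p.2 * c ^ A (rG a) (rG p.1))) : T.wk W Z L ≤ T.wk W Z L' := by
  obtain ⟨p1, p2, -⟩ := pL
  have k : ∀ t, ∀ v ∈ W, T.ρ (T.X.n (rG a) t) v ∈ W := fun t v hv => by
    rw [Sys.n, rho_mul, rho_mul]
    rcases ha with rfl | rfl
    · exact hW 11 (by simp) _ _ (p1 ▸ hW 0 (by simp) _ _ (hW 11 (by simp) _ _ hv))
    · exact hW 10 (by simp) _ _ (p2 ▸ hW 1 (by simp) _ _ (hW 10 (by simp) _ _ hv))
  exact finrank_le_of_rho _ fun v hv => ⟨by rw [Sys.h, rho_mul]; exact k _ _ (k _ _ hv.1), Dat.tor a hc e hv.2⟩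

theorem Lg.dim (hW : T.Lg W) : finrank ℂ W = T.wk W [6, 10, 11] [] + (Fintype.card F - 1) * T.wk W [10, 11] [(6, 1)] +
    (Fintype.card F - 1) * (Fintype.card F + 1) * T.wk W [11] [(6, 1)] ∧
    ∀ α ≠ 0, T.wk W [] [(11, α)] = Fintype.card F * T.wk W [11] [(6, 1)] := by
  obtain ⟨-, -, p3, -⟩ := pL
  have h1 := hW 1 (by simp)
  have h5 := hW 5 (by simp)
  have h6 := hW 6 (by simp)
  have h10 := hW 10 (by simp)
  have h11 := hW 11 (by simp)
  have k1 : ∀ α ≠ 0, T.wk W [] [(11, α)] = Fintype.card F * T.wk W [11] [(6, 1)] := fun α hα => by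
    rw [wheis 10 6 11 (-1) [11] rfl (by decide +kernel) (by simp) List.mem_cons_self hα h10 h6 1, wk_swap,
      ← wheis 1 11 6 (-1) [6] rfl (by decide +kernel) (by simp) List.mem_cons_self one_ne_zero h1 h11,
      wheis 1 11 6 (-1) [6] rfl (by decide +kernel) (by simp) List.mem_cons_self one_ne_zero h1 h11 0, wk_zero]
  have k2 : ∀ γ ≠ 0, T.wk W [11] [(10, γ)] = T.wk W [11] [(6, 1)] := fun γ hγ => by
    refine Nat.eq_of_mul_eq_mul_left Fintype.card_pos (n := Fintype.card F) ?_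
    rw [← k1 1 one_ne_zero, wheis 6 10 11 1 [11] rfl (by decide +kernel) (by simp) List.mem_cons_self one_ne_zero h6 h10 γ,
      wk_swap, ← wheis 5 11 10 1 [10] rfl (by decide +kernel) (by simp) List.mem_cons_self hγ h5 h11,
      wheis (Z := []) 5 11 10 1 [10] rfl (by decide +kernel) (by simp) List.mem_cons_self hγ h5 h11 0, wk_zero]
  have k3 : ∀ β ≠ 0, T.wk W [10, 11] [(6, β)] = T.wk W [10, 11] [(6, 1)] := fun β hβ => le_antisymm
    (hW.tor 11 (.inl rfl) hβ (by simp [p3])) (hW.tor 11 (.inl rfl) (inv_ne_zero hβ) (by simp [p3, hβ]))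
  refine ⟨?_, k1⟩
  rw [← wk_nil (T := T), wk_eq h11 (sta Nat.cast_zero [] rfl (by decide +kernel)) k1,
    wk_eq h10 (sta Nat.cast_zero [] rfl (by decide +kernel)) k2,
    wk_eq h6 (sta Nat.cast_zero [] rfl (by decide +kernel)) k3]
  ring

theorem lg_top : T.Lg ⊤ := fun _ _ => sta_top _

theorem glob (h3 : (3 : F) ≠ 0) (hq : 4 < Fintype.card F) (h0 : T.ρ (T.x 11 1) ≠ 1)
    (hM : finrank ℂ M ≤ Fintype.card F ^ 3) : T.rk [11] [(6, 1)] = Fintype.card F ∧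
    0 < T.rk [11] [(8, 1), (6, 1)] ∧ 0 < T.rk [10, 11] [(6, 1)] := by
  obtain ⟨-, -, -, -, -, -, p7, -, p9⟩ := pL
  obtain ⟨k1, k2⟩ := (lg_top (T := T)).dim
  simp only [wk_top, finrank_top] at k1 k2
  have k3 := fun t => heis (T := T) (Z := [11]) (L := [(6, 1)]) Nat.cast_zero 4 8 6 (-3) [6] rfl (by decide +kernel)
    (by simpa using h3) List.mem_cons_self one_ne_zero t
  have k4 := k3 0
  rw [rk_zero] at k4
  have k5 : T.rk [8, 11] [(6, 1)] = 1 := by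
    refine le_antisymm (not_lt.1 fun k => ?_) (Nat.pos_of_ne_zero fun k => (rk_lt h0).not_ge ?_)
    · obtain ⟨y, hy⟩ := Nat.exists_eq_add_of_le' hq
      rw [k4, hy, show y + (4 + 1) - 1 = y + 4 from rfl] at k1
      rw [hy] at hM
      nlinarith [Nat.mul_le_mul_left ((y + 4) * (y + 6) * (y + 5)) k, Nat.zero_le (y ^ 2), Nat.zero_le (y ^ 3)]
    · simpa [rk_nil] using dec' (T := T) (Z := []) (L := []) (k := 11) (d := 0)
        (sta Nat.cast_zero [] rfl (by decide +kernel)) fun α hα => by simp [k2 α hα, k4, k]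
  obtain ⟨v, hv, hv0⟩ := rk_pos.1 k5.ge
  obtain ⟨c, hc⟩ := exists_pow_ne_one_of_isCyclic (G := Fˣ) (k := 3) (by decide) (by
    rw [Nat.card_units, Nat.card_eq_fintype_card]; omega)
  have k6 := fix_tor k5.le (r := 10) (sta Nat.cast_zero [6] rfl (by decide +kernel)) 9 c.ne_zero (by simp [p7])
    (by rw [p9, zpow_ofNat]; exact fun e => hc (Units.ext e)) hv
  refine ⟨by rw [k4, k5, mul_one], Nat.pos_of_mul_pos_left (a := Fintype.card F) ?_,
    rk_pos.2 ⟨v, zcons k6 (sub (by decide) hv), hv0⟩⟩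
  rw [← k3, k4, k5]
  omega

end Dat

end Cfsg.Agent.MinD
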