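import Cfsg.Agent.MinD.Ch4

/-! Minimal degree of `G₂(q)`, part 4: arithmetic. -/

set_option autoImplicit false

namespace Cfsg.Agent.MinD

theorem rem_false {D N : ℤ} (h : D ∣ N) (c Q R : ℤ) (e : c * N = D * Q + R) (h0 : 0 < R) (h1 : R < D) : False :=
  (Int.le_of_dvd h0 ((dvd_add_right (dvd_mul_right D Q)).1 (e ▸ h.mul_left c))).not_gt h1

theorem dvd_cancel {c a b a' b' : ℤ} (hc : c ≠ 0) (h : a' ∣ b') (e1 : c * a = a') (e2 : c * b = b') : a ∣ b :=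
  (mul_dvd_mul_iff_left hc).1 (by rwa [e1, e2])

theorem g2_a (q : ℕ) (h : 7 ≤ q) (h1 : q ≠ 10) :
    ¬ (q : ℤ) ^ 2 + 3 * q + 5 ∣ 3 * ((q : ℤ) ^ 3 * (q + 1) * (q ^ 3 - 1)) := fun hd => by
  by_cases hb : q < 34
  · exact (by decide +kernel : ∀ q < 34, 7 ≤ q → q ≠ 10 → ¬ ((q : ℕ) : ℤ) ^ 2 + 3 * q + 5 ∣
      3 * ((q : ℤ) ^ 3 * (q + 1) * (q ^ 3 - 1))) q hb h h1 hd
  have : (34 : ℤ) ≤ q := by omega
  exact rem_false hd (-1) ((-126) + 72 * q + (-18) * q ^ 2 + (-3) * q ^ 3 + 6 * q ^ 4 + (-3) * q ^ 5) (630 + 18 * q)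
    (by ring) (by nlinarith) (by nlinarith [sq_nonneg ((q : ℤ) ^ 2 - 14)])

theorem g2_b (q : ℕ) (h : 7 ≤ q) :
    ¬ (q : ℤ) ^ 3 + 2 * q ^ 2 + 2 * q - 2 ∣ 3 * ((q : ℤ) ^ 3 * (q ^ 2 - 1) * (q ^ 3 - 1)) := fun hd => by
  by_cases hb : q < 39
  · exact (by decide +kernel : ∀ q < 39, 7 ≤ q → ¬ ((q : ℕ) : ℤ) ^ 3 + 2 * q ^ 2 + 2 * q - 2 ∣
      3 * ((q : ℤ) ^ 3 * (q ^ 2 - 1) * (q ^ 3 - 1))) q hb h hd
  have : (39 : ℤ) ≤ q := by omega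
  exact rem_false hd (-1) ((-63) + 36 * q + (-9) * q ^ 2 + (-3) * q ^ 3 + 6 * q ^ 4 + (-3) * q ^ 5) ((-126) + 198 * q + 36 * q ^ 2)
    (by ring) (by nlinarith) (by nlinarith [sq_nonneg ((q : ℤ) ^ 2 - 14)])

theorem g2_c (q : ℕ) (h : 7 ≤ q) :
    ¬ 2 * (q : ℤ) ^ 2 + 3 * q + 4 ∣ 3 * ((q : ℤ) ^ 3 * (q + 1) * (q ^ 3 - 1)) := fun hd => by
  by_cases hb : q < 508
  · exact (by decide +kernel : ∀ q < 508, 7 ≤ q → ¬ 2 * ((q : ℕ) : ℤ) ^ 2 + 3 * q + 4 ∣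
      3 * ((q : ℤ) ^ 3 * (q + 1) * (q ^ 3 - 1))) q hb h hd
  have : (508 : ℤ) ≤ q := by omega
  exact rem_false hd (64) ((-171) + (-126) * q + 180 * q ^ 2 + (-120) * q ^ 3 + (-48) * q ^ 4 + 96 * q ^ 5) (684 + 1017 * q)
    (by ring) (by nlinarith) (by nlinarith [sq_nonneg ((q : ℤ) ^ 2 - 14)])

theorem g2_d (q : ℕ) (h : 7 ≤ q) :
    ¬ 2 * (q : ℤ) - 1 ∣ 3 * ((q : ℤ) ^ 3 * (q ^ 2 - 1) * (q - 1)) := fun hd => by
  have : (7 : ℤ) ≤ q := by omega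
  exact rem_false hd (64) (9 + 18 * q + 36 * q ^ 2 + (-120) * q ^ 3 + (-48) * q ^ 4 + 96 * q ^ 5) (9)
    (by ring) (by nlinarith) (by nlinarith [sq_nonneg ((q : ℤ) ^ 2 - 14)])

theorem g2_e (q : ℕ) (h : 9 ≤ q) :
    ¬ (q : ℤ) ^ 2 + 1 ∣ (q : ℤ) ^ 4 * (q ^ 2 - 1) * (q ^ 6 - 1) := fun hd => by
  have : (9 : ℤ) ≤ q := by omega
  exact rem_false hd (1) ((-4) + 4 * q ^ 2 + (-3) * q ^ 4 + 2 * q ^ 6 + (-2) * q ^ 8 + 1 * q ^ 10) (4)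
    (by ring) (by nlinarith) (by nlinarith [sq_nonneg ((q : ℤ) ^ 2 - 14)])

theorem g2_f (q : ℕ) (h : 9 ≤ q) :
    ¬ (q : ℤ) ^ 4 + q ^ 2 - 1 ∣ (q : ℤ) ^ 6 * (q ^ 2 - 1) * (q ^ 6 - 1) := fun hd => by
  have : (9 : ℤ) ≤ q := by omega
  exact rem_false hd (1) ((-16) + 10 * q ^ 2 + (-6) * q ^ 4 + 3 * q ^ 6 + (-2) * q ^ 8 + 1 * q ^ 10) ((-16) + 26 * q ^ 2)
    (by ring) (by nlinarith) (by nlinarith [sq_nonneg ((q : ℤ) ^ 2 - 14)])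

theorem g2_g (q : ℕ) (h : 9 ≤ q) :
    ¬ (q : ℤ) ^ 2 + 2 ∣ (q : ℤ) ^ 6 * (q ^ 6 - 1) := fun hd => by
  have : (9 : ℤ) ≤ q := by omega
  exact rem_false hd (1) ((-36) + 18 * q ^ 2 + (-9) * q ^ 4 + 4 * q ^ 6 + (-2) * q ^ 8 + 1 * q ^ 10) (72)
    (by ring) (by nlinarith) (by nlinarith [sq_nonneg ((q : ℤ) ^ 2 - 14)])

theorem g2_ar1 {q n j m k c : ℕ} (hp : IsPrimePow q) (hq : q = 3 * n + 1) (hn : 2 ≤ n) (hj : j ≤ 2) (hm : m ≤ 1)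
    (hk : k = m + (q - 1) * 1 + (q - 1) * (q + 1) * (1 + n * j)) (hd : k ∣ c)
    (hc : (q - 1) * c = ∏ i : Fin 3, (q ^ 3 - q ^ (i : ℕ))) (hl : q ^ 2 + q ≤ k) : False := by
  have h7 : 7 ≤ q := by omega
  have q1 : 1 ≤ q := by omega
  have p1 : ∀ i : Fin 3, q ^ (i : ℕ) ≤ q ^ 3 := fun i => Nat.pow_le_pow_right q1 i.2.le
  have q0 : (q : ℤ) - 1 ≠ 0 := by omega
  have q2 : (q : ℤ) ^ 2 + q + 1 ≠ 0 := by positivity
  zify [p1, q1] at hc hk hq hl hd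
  have e : (c : ℤ) = q ^ 3 * (q ^ 2 - 1) * (q ^ 3 - 1) := mul_left_cancel₀ q0 (by
    rw [hc, Fin.prod_univ_three]; simp; ring)
  replace hd := mul_dvd_mul_left 3 (e ▸ hd)
  have hn : (3 * n : ℤ) = q - 1 := by omega
  interval_cases j <;> interval_cases m <;> push_cast at hk
  · nlinarith
  · nlinarith
  · exact g2_a q h7 (fun h => absurd (h ▸ hp) (by decide +kernel))
      (dvd_cancel q0 hd (by linear_combination -3 * hk - (q ^ 2 - 1) * hn) (by ring))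
  · exact g2_b q h7 (dvd_cancel one_ne_zero hd (by linear_combination -3 * hk - (q ^ 2 - 1) * hn) (by ring))
  · exact g2_c q h7
      (dvd_cancel q0 hd (by linear_combination -3 * hk - 2 * (q ^ 2 - 1) * hn) (by ring))
  · exact g2_d q h7
      (dvd_cancel q2 hd (by linear_combination -3 * hk - 2 * (q ^ 2 - 1) * hn) (by ring))

theorem g2_ar3 {q k : ℕ} (hq : 9 ≤ q) (h : q ^ 4 + q ^ 2 ≤ k + 2) (hd : k ∣ q ^ 6 * (q ^ 2 - 1) * (q ^ 6 - 1)) :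
    q ^ 4 + q ^ 2 + 1 ≤ k := by
  by_contra! h1
  have p1 : ∀ n, 1 ≤ q ^ n := fun n => Nat.one_le_pow _ _ (by omega)
  have q0 : (q : ℤ) ^ 2 ≠ 0 := by positivity
  have q1 : (q : ℤ) ^ 2 - 1 ≠ 0 := by have : (9 : ℤ) ≤ q := by omega
                                      nlinarith
  obtain e | e | e : q ^ 4 + q ^ 2 = k ∨ q ^ 4 + q ^ 2 = k + 1 ∨ q ^ 4 + q ^ 2 = k + 2 := by omega
  all_goals zify [p1] at hd e
  · exact g2_e q hq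
      (dvd_cancel q0 hd (by linear_combination e) (by ring))
  · exact g2_f q hq (dvd_cancel one_ne_zero hd (by linear_combination e) (by ring))
  · exact g2_g q hq
      (dvd_cancel q1 hd (by linear_combination e) (by ring))

end Cfsg.Agent.MinD
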