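import Cfsg.Agent.MinD.G3
import Cfsg.Agent.MinD.G4
import Cfsg.Agent.S2332
import Cfsg.Agent.S2401
import Cfsg.Agent.S0135
import Cfsg.Agent.S0242

/-! Minimal degree of `G₂(q)`, part 5: characteristic different from three. -/

set_option autoImplicit false
set_option linter.unusedSectionVars false

namespace Cfsg.Agent.MinD

open Module Cfsg.Lie Cfsg.Agent.Chev Cfsg.Agent.Mult

/-- A stable submodule of dimension in `P` with a vector solving the equations `S`. -/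
def Qir {H V : Type*} [Group H] [AddCommGroup V] [Module ℂ V] (σ : Representation ℂ H V) (P : ℕ → Prop)
    (S : H → ℂ → Prop) (W : Submodule ℂ V) : Prop :=
  (∀ g, ∀ v ∈ W, σ g v ∈ W) ∧ P (finrank ℂ W) ∧ ∃ v ∈ W, v ≠ 0 ∧ ∀ g c, S g c → σ g v = c • v

theorem Qir.map {H V : Type*} [Group H] [AddCommGroup V] [Module ℂ V] {σ : Representation ℂ H V} {P : ℕ → Prop}
    {S : H → ℂ → Prop} (U : Subrepresentation σ) {W : Submodule ℂ U.toSubmodule} (h : Qir U.toRepresentation P S W) :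
    Qir σ P S (W.map U.toSubmodule.subtype) := by
  obtain ⟨h1, h2, v, hv, h0, h3⟩ := h
  refine ⟨?_, by rwa [Submodule.finrank_map_subtype_eq], v, ⟨v, hv, rfl⟩, fun e => h0 (Subtype.ext e),
    fun g c h => congrArg Subtype.val (h3 g c h)⟩
  rintro g _ ⟨w, hw, rfl⟩
  exact ⟨_, h1 g w hw, rfl⟩

theorem exists_qir {H : Type*} [Group H] [Finite H] {P : ℕ → Prop}
    (hP : ∀ k (τ : Representation ℂ H (Fin k → ℂ)), τ.IsIrreducible → P k) (S : H → ℂ → Prop) (V : Type*)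
    [AddCommGroup V] [Module ℂ V] [FiniteDimensional ℂ V] (σ : Representation ℂ H V) :
    (∃ v ≠ 0, ∀ g c, S g c → σ g v = c • v) → ∃ W, Qir σ P S W := by
  refine Char.rep_induction (P := fun V _ _ _ σ => (∃ v ≠ 0, ∀ g c, S g c → σ g v = c • v) → ∃ W, Qir σ P S W)
    ?_ ?_ ?_ V σ
  · rintro V _ _ _ σ hV ⟨v, h0, -⟩
    exact absurd (Subsingleton.elim _ _) h0
  · rintro V _ _ _ σ hV ⟨v, h0, h⟩
    refine ⟨⊤, fun _ _ _ => trivial, ?_, v, trivial, h0, h⟩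
    rw [finrank_top]
    exact hP _ _ (Char.isIrreducible_of_equiv (Char.transportEquiv σ (Module.finBasis ℂ V).equivFun))
  · rintro V _ _ _ σ U U' hc h1 h2 ⟨v, h0, h⟩
    have hd : Disjoint U.toSubmodule U'.toSubmodule := by
      rw [disjoint_iff, ← Subrepresentation.toSubmodule_inf, hc.inf_eq_bot]; rfl
    obtain ⟨a, ha, b, hb, rfl⟩ := Submodule.mem_sup.1 (show v ∈ U.toSubmodule ⊔ U'.toSubmodule by
      rw [← Subrepresentation.toSubmodule_sup, hc.sup_eq_top]; trivial)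
    have k : ∀ g c, S g c → σ g a = c • a ∧ σ g b = c • b := fun g c hs => by
      have e : σ g a - c • a = -(σ g b - c • b) := by
        have := h g c hs
        rw [map_add, smul_add] at this
        linear_combination (norm := module) this
      have e0 := Submodule.disjoint_def.1 hd _ (sub_mem (U.apply_mem_toSubmodule g ha) (Submodule.smul_mem _ c ha))
        (e ▸ neg_mem (sub_mem (U'.apply_mem_toSubmodule g hb) (Submodule.smul_mem _ c hb)))
      exact ⟨sub_eq_zero.1 e0, sub_eq_zero.1 (neg_eq_zero.1 (e ▸ e0))⟩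
    by_cases ha0 : a = 0
    · obtain ⟨W, hW⟩ := h2 ⟨⟨b, hb⟩, fun e => h0 (by rw [ha0, zero_add]; exact congrArg Subtype.val e),
        fun g c hs => Subtype.ext (k g c hs).2⟩
      exact ⟨_, hW.map U'⟩
    · obtain ⟨W, hW⟩ := h1 ⟨⟨a, ha⟩, fun e => ha0 (congrArg Subtype.val e), fun g c hs => Subtype.ext (k g c hs).1⟩
      exact ⟨_, hW.map U⟩

theorem card_dvd_sum {A : Type*} [Group A] [Fintype A] (H : Subgroup A) (g : A → ℕ)
    (hg : ∀ a, ∀ h ∈ H, g (a * h) = g a) : Nat.card H ∣ ∑ a, g a := by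
  classical
  rw [← Finset.sum_fiberwise Finset.univ (QuotientGroup.mk (s := H))]
  refine Finset.dvd_sum fun c _ => ?_
  obtain ⟨a, rfl⟩ := QuotientGroup.mk_surjective c
  rw [Finset.sum_congr rfl (g := fun _ => g a) fun b hb => by
    rw [← hg b _ (QuotientGroup.eq.1 (Finset.mem_filter.1 hb).2), mul_inv_cancel_left], Finset.sum_const, smul_eq_mul]
  refine Dvd.dvd.mul_right (dvd_of_eq ?_) _
  have := QuotientGroup.card_preimage_mk H {(a : A ⧸ H)}
  rw [Nat.card_unique (α := ({(a : A ⧸ H)} : Set _)), mul_one] at this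
  rw [← this, Nat.card_eq_fintype_card, Fintype.card_subtype]
  congr

/-- The long roots. -/
def ι3 : Fin 3 → Fin 3 → Fin 12 := ![![0, 6, 11], ![5, 0, 10], ![0, 1, 0]]

theorem ι3_ok : (∀ i j k, i ≠ j → j ≠ k → i ≠ k → CommIs chevG2 0 (ι3 j k) (ι3 i j) [(ι3 i k, -1, 1, 1)]) ∧
    (∀ i j k l, i ≠ j → k ≠ l → i ≠ l → j ≠ k → ι3 i j = ι3 k l ∨ CommIs chevG2 0 (ι3 k l) (ι3 i j) []) ∧
    (∀ i j, i ≠ j → 3 ∣ A (rG 9) (rG (ι3 i j))) ∧ ∀ r ∈ [0, 1, 5, 6, 10, 11], ∃ i j, i ≠ j ∧ ι3 i j = r := by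
  refine ⟨?_, ?_, ?_, ?_⟩ <;> decide +kernel

namespace Dat

variable {F G M : Type*} [Field F] [Fintype F] [Group G] [Finite G] [AddCommGroup M] [Module ℂ M]
  [FiniteDimensional ℂ M] {T : Dat F G M}

variable (T) in
theorem exists_sl3 : ∃ φ : Matrix.SpecialLinearGroup (Fin 3) F →* G,
    ∀ i j (h : i ≠ j) t, φ (Matrix.SpecialLinearGroup.transvection h t) = T.x (ι3 i j) t := by
  obtain ⟨e, he⟩ := S2401.result (K := F) 3 le_rfl
  refine ⟨(PresentedGroup.toGroup (f := fun p => T.x (ι3 p.1.1.1 p.1.1.2) p.2) ?h).comp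
    e.symm.toMonoidHom, fun i j h t => ?_⟩
  · rintro _ ((⟨a, t, u, rfl⟩ | ⟨a, b, t, u, h1, h2', rfl⟩) | ⟨⟨⟨i, j⟩, hij⟩, ⟨⟨_, k⟩, hjk⟩, h1, t, u, rfl, rfl⟩) <;>
      simp only [map_mul, map_inv, FreeGroup.lift_apply_of, mul_inv_eq_one]
    · exact (T.X.add _ _ _).symm
    · rcases ι3_ok.2.1 _ _ _ _ a.2 b.2 h1 h2' with h | h
      · rw [h, ← T.X.add, add_comm, T.X.add, mul_inv_cancel_right]
      · rw [rel Nat.cast_zero h]; simp [evT, gword_nil]
    · have := rel (T := T) Nat.cast_zero (ι3_ok.1 i j k hij hjk h1) (-u) (-t)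
      simp only [evT, List.map_cons, List.map_nil, Sys.gword_cons', gword_nil, T.X.xN_val (rG _), T.X.x_neg] at this
      rw [show t * u = ((-1 : ℤ) : F) * (- -u) ^ 1 * (-t) ^ 1 by push_cast; ring]
      simp only [mul_assoc] at this ⊢
      rw [this]
      group
  · rw [show Matrix.SpecialLinearGroup.transvection h t = e (.of (⟨(i, j), h⟩, t)) from
      Subtype.ext (he ⟨(i, j), h⟩ t).symm]
    simp

theorem bound2 (h3 : (3 : F) ≠ 0) (hq : 4 < Fintype.card F) (h0 : T.ρ (T.x 11 1) ≠ 1) :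
    Fintype.card F ^ 3 - 1 ≤ finrank ℂ M := by
  by_contra! hM
  obtain ⟨k1, -, k2⟩ := glob h3 hq h0 (by omega)
  have k3 := (lg_top (T := T)).dim.1
  simp only [wk_top, finrank_top] at k3
  obtain ⟨y, hy⟩ := Nat.exists_eq_add_of_le' hq
  rw [k1, hy, show y + (4 + 1) - 1 = y + 4 from rfl] at k3
  rw [hy, Nat.lt_sub_iff_add_lt] at hM
  nlinarith

theorem Lg.cube {W : Submodule ℂ M} (hW : T.Lg W) [DecidableEq F] {n : ℕ} (cu : Nat.card Fˣ = 3 * n) :
    n ∣ ∑ μ : Fˣ, T.wk W [11] [(10, μ), (6, 1)] := by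
  obtain ⟨-, -, p3, p4, p5, p6, -⟩ := pL
  have k : ∀ μ t : Fˣ, T.wk W [11] [(10, (μ * t ^ 3 : Fˣ)), (6, 1)] ≤ T.wk W [11] [(10, μ), (6, 1)] := fun μ t =>
    (hW.tor (L' := [(10, (μ : F) * t ^ 2), (6, (t : F)⁻¹)]) 11 (.inl rfl) t.ne_zero (by simp [p4, p3]; ring)).trans
      (hW.tor 10 (.inr rfl) t.ne_zero (by simp [p5, p6, zpow_ofNat]))
  have := card_dvd_sum (powMonoidHom 3 : Fˣ →* Fˣ).range (fun μ => T.wk W [11] [(10, μ), (6, 1)]) (by
    rintro μ _ ⟨t, rfl⟩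
    rw [powMonoidHom_apply]
    refine le_antisymm (k μ t) (le_trans (le_of_eq ?_) (k (μ * t ^ 3) t⁻¹))
    rw [inv_pow, mul_inv_cancel_right])
  rwa [IsCyclic.card_powMonoidHom_range, cu, Nat.gcd_eq_right (dvd_mul_right _ _),
    Nat.mul_div_cancel_left _ (by decide)] at this

theorem bound1 (h3 : (3 : F) ≠ 0) (hq : 4 < Fintype.card F) (h1 : Fintype.card F % 3 = 1) (h0 : T.ρ (T.x 11 1) ≠ 1) :
    Fintype.card F ^ 3 + 1 ≤ finrank ℂ M := by
  classical
  by_contra! hM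
  obtain ⟨-, -, -, -, -, -, p7, p8, -⟩ := pL
  obtain ⟨k1, k2, k3⟩ := glob h3 hq h0 (by omega)
  have k4 := (lg_top (T := T)).dim.1
  simp only [wk_top, finrank_top] at k4
  obtain ⟨n, hn⟩ : ∃ n, Fintype.card F = 3 * n + 1 := ⟨Fintype.card F / 3, by omega⟩
  have cu : Nat.card Fˣ = 3 * n := by rw [Nat.card_units, Nat.card_eq_fintype_card, hn]; rfl
  obtain ⟨k5, k6⟩ : T.rk [10, 11] [(6, 1)] ≤ 1 ∧ T.rk [6, 10, 11] [] ≤ 1 := by
    obtain ⟨y, hy⟩ := Nat.exists_eq_add_of_le' hq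
    rw [k1, hy, show y + (4 + 1) - 1 = y + 4 from rfl] at k4
    rw [hy] at hM
    constructor <;> nlinarith
  obtain ⟨ω, hω⟩ := exists_prime_orderOf_dvd_card' (G := Fˣ) 3 (hp := ⟨Nat.prime_three⟩) (cu ▸ dvd_mul_right _ _)
  have w3 : (ω : F) ^ (3 : ℤ) = 1 := by rw [zpow_ofNat, ← Units.val_pow_eq_pow_val, ← hω, pow_orderOf_eq_one]; rfl
  obtain ⟨v, hv, hv0⟩ := rk_pos.1 k3
  obtain ⟨l, hl⟩ := (finrank_eq_one_iff_of_nonzero' (K := ℂ) (⟨v, hv⟩ : T.Sp [10, 11] [(6, 1)])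
    (fun e => hv0 (congrArg Subtype.val e))).1 (le_antisymm k5 k3) ⟨_, tor 9 ω.ne_zero (by simp [p7]) hv⟩
  replace hl : T.ρ (T.X.h (rG 9) ω) v = l • v := (congrArg Subtype.val hl).symm
  obtain ⟨φ, hφ⟩ := T.exists_sl3
  let R : Subrepresentation (T.ρ.comp φ) := ⟨Module.End.eigenspace (T.ρ (T.X.h (rG 9) ω)) l, fun y => by
    induction y using Classical.SL_transvection_induction with
    | h1 => intro v hv; simpa using hv
    | htransvec i j h c =>
      intro v hv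
      obtain ⟨a, ha⟩ := ι3_ok.2.2.1 i j h
      have := T.X.h_conj (rG 9) (rG (ι3 i j)) ω.ne_zero c
      rw [ha, zpow_mul, w3, one_zpow, one_mul, mul_inv_eq_iff_eq_mul] at this
      rw [MonoidHom.comp_apply, hφ, Module.End.mem_eigenspace_iff, ← rho_mul, x, this, rho_mul,
        Module.End.mem_eigenspace_iff.1 hv, map_smul]
    | hmul a b ha hb => intro v hv; rw [map_mul]; exact ha (hb hv)⟩
  obtain ⟨W', hW'⟩ := exists_qir (P := fun k => k ∣ Nat.card (Matrix.SpecialLinearGroup (Fin 3) F) ∧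
    (2 ≤ k → (Fintype.card F ^ 3 - Fintype.card F) / (Fintype.card F - 1) ≤ k)) (fun k τ hτ =>
      ⟨by simpa using S0135.result τ, (S2332.result (F := F) 3 le_rfl (by simp; omega)).1 k τ hτ⟩)
    (fun g c => T.ρ (φ g) v = c • v) _ R.toRepresentation
    ⟨⟨v, Module.End.mem_eigenspace_iff.2 hl⟩, fun e => hv0 (congrArg Subtype.val e), fun g c h => Subtype.ext h⟩
  obtain ⟨a1, ⟨a2, a3⟩, w, hw, hw0, a4⟩ := hW'.map R
  have a5 := Submodule.map_subtype_le _ W'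
  generalize W'.map R.toSubmodule.subtype = W at a1 a2 a3 hw a5
  have a6 : T.Lg W := fun r hr t v hv => by
    obtain ⟨i, j, h, rfl⟩ := ι3_ok.2.2.2 r hr
    exact hφ i j h t ▸ a1 _ v hv
  have a7 : ∀ r ∈ [0, 1, 5, 6, 10, 11], ∀ t, v ∈ T.E r t → w ∈ T.E r t := fun r hr t h u => by
    obtain ⟨i, j, h', rfl⟩ := ι3_ok.2.2.2 r hr
    have := a4 (Matrix.SpecialLinearGroup.transvection h' u) (T.ψ (t * u)) (by simp only [hφ]; exact h u)
    rwa [MonoidHom.comp_apply, hφ] at this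
  have a8 : T.wk W [10, 11] [(6, 1)] = 1 := le_antisymm (wk_le.trans k5) (finrank_pos_iff_exists_ne_zero.2
    ⟨⟨w, hw, fun k hk => a7 k (by revert k; decide) _ (hv.1 k hk), by simpa using a7 6 (by simp) _ (head hv)⟩,
      fun e => hw0 (congrArg Subtype.val e)⟩)
  have a9 := wk_add (Z := [11]) (L := [(6, 1)]) (a6 10 (by simp)) (sta Nat.cast_zero [6] rfl (by decide +kernel))
  obtain ⟨j, hj⟩ := a6.cube cu
  rw [a8, Finset.sum_subtype (p := fun t => t ≠ 0) _ (by simp), ← unitsEquivNeZero.sum_comp] at a9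
  replace a9 : T.wk W [11] [(6, 1)] = 1 + n * j := a9.trans (congrArg _ hj)
  have b1 := a6.dim.1
  rw [a8, a9] at b1
  by_cases hj3 : j ≤ 2
  · refine g2_ar1 (Fintype.isPrimePow_card_of_field (α := F)) hn (by omega) hj3 (wk_le.trans k6) b1 a2
      (S0242.result rfl 3 (by decide)) (le_trans (le_of_eq ?_) (a3 ?_))
    · exact (Nat.div_eq_of_eq_mul_left (by omega) (Nat.sub_eq_of_eq_add (by rw [hn, Nat.add_sub_cancel]; ring))).symm
    · rw [b1]; omega
  have b2 : T.Sp [11] [(6, 1)] ≤ W := inf_eq_right.1 (Submodule.eq_of_le_of_finrank_le inf_le_right (by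
    change T.rk _ _ ≤ T.wk _ _ _
    nlinarith))
  obtain ⟨u, hu, hu0⟩ := rk_pos.1 k2
  have b3 := tor (L' := [(8, (ω : F)⁻¹), (6, 1)]) 9 ω.ne_zero (by simp [p7, p8]) hu
  have b4 := eq_of_E (nz _ hu0) (head b3) (by
    rw [Module.End.mem_eigenspace_iff.1 (a5 (b2 (tail hu)))]; exact Submodule.smul_mem _ _ (head hu))
  rw [show ω = 1 from Units.ext (inv_eq_one.1 b4), orderOf_one] at hω
  omega

end Dat

end Cfsg.Agent.MinD
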