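import Cfsg.Agent.MinD.Rp1
import Cfsg.Agent.Classical.LowIso
import Mathlib.FieldTheory.Finite.Extension

/-! Minimal degrees of complex representations of orthogonal groups, part 2: extension of isometries
from non-degenerate subspaces, perfectness, stabilisers of one-dimensional weight spaces. -/

set_option autoImplicit false
set_option linter.unusedSectionVars false

namespace Cfsg.Agent.MinD

open Cfsg.Agent.Geom Cfsg.Agent.Geom.Formed Cfsg.Agent.Root.Mx QuadraticMap Module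
open scoped _root_.Classical MatrixGroups

variable {F : Type*} [Field F] [Finite F] {V : Type*} [AddCommGroup V] [Module F V] [Fintype V]
  {Q : QuadraticForm F V}

/-- Restriction of a quadratic form. -/
abbrev QU (Q : QuadraticForm F V) (U : Submodule F V) : QuadraticForm F U := Q.comp U.subtype

theorem polar_QU {U : Submodule F V} (x y : U) : polar (QU Q U) x y = polar Q x y := rfl

theorem QU_apply {U : Submodule F V} (x : U) : QU Q U x = Q x := rfl

theorem nondeg_QU {U : Submodule F V} (hU : ((ofQuad Q).restrict U).Nondeg) : (ofQuad (QU Q U)).Nondeg :=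
  restrict_ofQuad Q U ▸ hU

section Ext
variable (hn : (ofQuad Q).Nondeg) {U : Submodule F V} (hU : ((ofQuad Q).restrict U).Nondeg)

/-- Extension of isometries by the identity on the perpendicular space. -/
noncomputable def extO : OG (QU Q U) →* OG Q :=
  ((sumHom (hn.isCompl_perp hU)).comp ((MonoidHom.inl _ _).comp (OG (QU Q U)).subtype)).codRestrict _
    fun g => sumHom_mem_isom _ le_rfl (restrict_ofQuad Q U ▸ g.2) (one_mem _)

theorem extO_mem (g : OG (QU Q U)) (x : U) : (extO hn hU g).1 x = g.1 x := sumHom_left _ _ x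

theorem extO_perp (g : OG (QU Q U)) {x : V} (hx : x ∈ (ofQuad Q).perp U) : (extO hn hU g).1 x = x :=
  sumHom_right _ _ ⟨x, hx⟩

theorem extO_eq {g : OG (QU Q U)} {k : OG Q} (h1 : ∀ x : U, k.1 x = g.1 x)
    (h2 : ∀ x ∈ (ofQuad Q).perp U, k.1 x = x) : extO hn hU g = k := OG.ext fun v => by
  obtain ⟨x, y, rfl⟩ := exists_add_of_isCompl (hn.isCompl_perp hU) v
  rw [map_add, map_add, extO_mem, extO_perp hn hU g y.2, h1, h2 y y.2]

theorem extO_eich (y b : U) : extO hn hU (eich (QU Q U) y b) = eich Q y b := by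
  by_cases h : Q y = 0 ∧ polar Q y b = 0
  · refine extO_eq hn hU (fun x => ?_) fun x hx => ?_
    · rw [eich_apply h.1 h.2, eich_apply (Q := QU Q U) h.1 h.2]; rfl
    · rw [eich_apply h.1 h.2, mem_perp_quad.1 hx y y.2, mem_perp_quad.1 hx b b.2]; simp
  · rw [eich_of_not h, eich_of_not (Q := QU Q U) h, map_one]

theorem extO_refl (v : U) : extO hn hU (refl (QU Q U) v) = refl Q v :=
  extO_eq hn hU (fun x => by rw [refl_apply, refl_apply]; rfl) fun x hx =>
    refl_of_perp (mem_perp_quad.1 hx v v.2)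

/-- Extension on Eichler groups. -/
noncomputable def ext : eichGroup (QU Q U) →* eichGroup Q :=
  ((extO hn hU).comp (eichGroup _).subtype).codRestrict _ fun g =>
    (eichGroup_le (N := (eichGroup Q).comap (extO hn hU)) fun y b => by
      rw [Subgroup.mem_comap, extO_eich]; exact eich_mem_eichGroup _ _) g.2

theorem ext_mem (g : eichGroup (QU Q U)) (x : U) : (ext hn hU g).1.1 x = g.1.1 x := extO_mem hn hU _ x

theorem ext_perp (g : eichGroup (QU Q U)) {x : V} (hx : x ∈ (ofQuad Q).perp U) :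
    (ext hn hU g).1.1 x = x := extO_perp hn hU _ hx

theorem ext_E (y b : U) : ext hn hU (E (QU Q U) y b) = E Q y b := Subtype.ext (extO_eich hn hU y b)

theorem exists_ext (h5 : 5 ≤ finrank F V) (h3 : 3 ≤ finrank F U) (hx : NotExc (QU Q U))
    {g : eichGroup Q} (hg : ∀ x ∈ (ofQuad Q).perp U, g.1.1 x = x) : ∃ k, ext hn hU k = g := by
  have h1 : g.1.1 ∈ stab U := by
    have := perp_mem_stab g.1.2 (fix_le_stab _ (mem_fix.2 hg))
    rwa [hn.perp_perp] at this
  let k : OG (QU Q U) := ⟨restrictStab g.1.1 h1, mem_isom_ofQuad.2 fun x => OG.map_Q g.1 x⟩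
  have h2 : extO hn hU k = g.1 := extO_eq hn hU (fun _ => rfl) hg
  have h4 := dick_spin_map (nondeg_QU hU) hx hn (extO hn hU) (↑) (fun _ => rfl)
    (fun v _ => extO_refl hn hU v) k
  have h6 := (mem_G_iff hn h5 g.1).1 g.2
  rw [h2] at h4
  refine ⟨⟨k, ?_⟩, Subtype.ext h2⟩
  rw [eichGroup_eq_commutator' (nondeg_QU hU) hx h3, mem_commutator_iff (nondeg_QU hU) hx, ← h4.1, ← h4.2]
  exact h6

end Ext

theorem exists_sq_ne_one (h4 : 4 ≤ Nat.card F) : ∃ d : F, d ≠ 0 ∧ d ^ 2 ≠ 1 := by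
  have := Fintype.ofFinite F
  by_contra! hc
  have : (Finset.univ : Finset F) ⊆ {0, 1, -1} := fun x _ => by
    rcases eq_or_ne x 0 with h | h
    · simp [h]
    · rcases sq_eq_one_iff.1 (hc x h) with h | h <;> simp [h]
  have h1 := (Finset.card_le_card this).trans Finset.card_le_three
  rw [Finset.card_univ, ← Nat.card_eq_fintype_card] at h1
  omega

theorem exists_cover {G : Type*} [Group G] (hn : (ofQuad Q).Nondeg) (hx : NotExc Q) (h3 : 3 ≤ finrank F V)
    {W : Type*} [AddCommGroup W] [Module F W] {Q' : QuadraticForm F W} {e : V ≃ₗ[F] W}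
    (he : (ofQuad Q).IsIso (ofQuad Q') e) (f : G →* OG Q') {z : G}
    (hz : (2 : F) = 0 → z = 1) (hker : ∀ g, f g = 1 → g = 1 ∨ g = z) (hp : commutator G = ⊤)
    (hc : Nat.card (OG Q) = 2 * Nat.card G) : ∃ φ : G →* eichGroup Q, Function.Surjective φ := by
  let f' : G →* OG Q := he.isomCongr.symm.toMonoidHom.comp f
  have h := Classical.range_eq_commutator hn hx (by omega) f' hz (fun g hg => hker g (by
    simpa [f'] using hg)) (Classical.hom_units_int_of_perfect hp) hc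
  rw [← eichGroup_eq_commutator' hn hx h3] at h
  refine ⟨f'.codRestrict _ fun g => h.le ⟨g, rfl⟩, fun g => ?_⟩
  obtain ⟨x, hx⟩ : g.1 ∈ f'.range := h.ge g.2
  exact ⟨x, Subtype.ext hx⟩

theorem perf_of (hn : (ofQuad Q).Nondeg) (h3 : 3 ≤ finrank F V)
    (h : 4 ≤ Nat.card F ∨ 5 ≤ finrank F V ∨ (finrank F V = 4 ∧ (ofQuad Q).WittIndex 1)) :
    commutator (eichGroup Q) = ⊤ := by
  rcases h with h | h | ⟨h4, hw⟩
  · obtain ⟨d, h0, h1⟩ := exists_sq_ne_one h
    exact (Subgroup.isPerfect_iff.2 (eichGroup_perfect_of_sq hn h3 h0 h1)).1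
  · exact (Subgroup.isPerfect_iff.2 (eichGroup_perfect hn h)).1
  have := Fintype.ofFinite F
  obtain ⟨p, hp⟩ := CharP.exists F
  have : Fact p.Prime := ⟨CharP.char_is_prime F p⟩
  let K := FiniteField.Extension F p 2
  have := Fintype.ofFinite K
  have hK : Nat.card K = Nat.card F ^ 2 := FiniteField.natCard_extension F p 2
  obtain ⟨ζ, hζ⟩ := exists_irreducible_quad F
  obtain ⟨f, hf⟩ := Classical.exists_hom_O4m (K := K) (F := F) (q := Nat.card F)
    (Nat.card_eq_fintype_card.symm.trans hK) Nat.card_eq_fintype_card.symm (aniso_of_irreducible hζ)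
  obtain ⟨e, he⟩ := exists_isIso_minus hn (m := 1) h4 hw (aniso_of_irreducible hζ)
  have hq := one_lt_q (F := F)
  have hp := Classical.commutator_SL2 (F := K) (by nlinarith)
  obtain ⟨φ, hφ⟩ := exists_cover hn (.inr (.inr fun h => by have := h.unique hw; omega)) h3 he f
    (fun h => Classical.sl_neg_one_eq (Classical.two_eq_zero_iff_even.2 (by
      rw [hK]; exact (Classical.two_eq_zero_iff_even.1 h).pow_of_ne_zero two_ne_zero))) hf hp (by
      rw [card_isom_minus 1 hn hw h4, Classical.card_SL2, hK]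
      simp only [Finset.prod_range_one]
      ring)
  have : Group.IsPerfect SL(2, K) := ⟨hp⟩
  exact (Group.IsPerfect.ofSurjective hφ).1

theorem exists_SL4 [Fintype F] (hn : (ofQuad Q).Nondeg) (h6 : finrank F V = 6)
    (hw : (ofQuad Q).WittIndex 3) : ∃ φ : SL(4, F) →* eichGroup Q, Function.Surjective φ := by
  obtain ⟨f, hf⟩ := Classical.exists_hom_O6p (F := F)
  obtain ⟨e, he⟩ := exists_isIso_plus hn (m := 3) h6 hw
  refine exists_cover hn (notExc_of_finrank (by omega)) (by omega) he f Classical.sl_neg_one_eq hf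
    (Classical.commutator_SL_eq_top (by simp)) ?_
  have h1 := Classical.card_SL_mul (F := F) 4 (by simp)
  have hq := Finite.one_lt_card (α := F)
  refine Nat.eq_of_mul_eq_mul_left (Nat.sub_pos_of_lt hq) ?_
  rw [card_isom_plus 2 hn hw h6, mul_left_comm _ 2, h1]
  have h2 : ∀ a b, a ≤ b → Nat.card F ^ a ≤ Nat.card F ^ b := fun a b => Nat.pow_le_pow_right (by omega)
  simp only [Finset.prod_range_succ, Finset.prod_range_zero, Fin.prod_univ_four]
  change _ = 2 * ((Nat.card F ^ 4 - Nat.card F ^ 0) * (Nat.card F ^ 4 - Nat.card F ^ 1) *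
    (Nat.card F ^ 4 - Nat.card F ^ 2) * (Nat.card F ^ 4 - Nat.card F ^ 3))
  zify [h2 0 4 (by simp), h2 1 4 (by simp), h2 2 4 (by simp), h2 3 4 (by simp), hq.le,
    Nat.one_le_pow _ _ (zero_lt_one.trans hq)]
  ring

theorem E_move {p x y : V} (hp : Q p = 0) (hQ : Q x = Q y) (hx : polar Q p x = 1) (hy : polar Q p y = 1) :
    (E Q p (x - y)).1.1 x = y := by
  rw [E_apply hp (by simp [hx, hy]), hx, quad_sub, polar_sub_left, polar_self', polar_comm Q y x, hQ]
  module

theorem E_comm_eq {y c z b : V} (hy : Q y = 0) (hyc : polar Q y c = 0)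
    (hyz : polar Q y z = 0) (hcz : polar Q c z = 0) (hyb : polar Q y b = 0) (hcb : polar Q c b = 1)
    (hzb : polar Q z b = 0) : E Q y c * E Q z b * (E Q y c)⁻¹ * (E Q z b)⁻¹ = E Q z y := by
  rw [conj_E, E_apply_fix hy hyc hyz hcz, E_apply_perp hy hyc hyb, hcb, one_smul, add_comm,
    E_add (by rwa [polar_comm]) hzb, mul_inv_cancel_right]

variable {M : Type*} [AddCommGroup M] [Module ℂ M] [FiniteDimensional ℂ M]
  {ρ : Representation ℂ (eichGroup Q) M}

theorem Wt_fix {g : eichGroup Q} {p w : V} (h1 : g.1.1 p = p) (h2 : g.1.1 w = w) :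
    ∀ v ∈ Wt ρ p w, ρ g v ∈ Wt ρ p w := fun v hv => by
  have := Wt_map g hv
  rwa [h1, h2] at this

theorem E_mem_triv {p w a : V} (h1 : polar Q p a = 0) (h2 : polar Q a w = 0) :
    E Q p a ∈ trivOn ρ (Wt ρ p w) := fun v hv => by rw [hv a h1, h2]; simp

/-- Eichler maps fixing `p` and `w` act trivially on a one-dimensional weight space. -/
theorem E_mem_of_sub {p w z : V} (h1 : finrank ℂ (Wt ρ p w) ≤ 1) (hz : Q z = 0) (hzp : polar Q z p = 0)
    (hzw : polar Q z w = 0) {T : Submodule F V}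
    (hT : ∀ x ∈ T, polar Q x p = 0 ∧ polar Q x w = 0 ∧ polar Q x z = 0)
    {s t : V} (hs : s ∈ T) (ht : t ∈ T) (hst : (ofQuad Q).IsPair s t)
    (h : ∀ y ∈ T, y ≠ 0 → Q y = 0 → ∃ c ∈ T, ∃ b ∈ T, polar Q y c = 0 ∧ polar Q y b = 0 ∧ polar Q c b = 1) :
    ∀ x ∈ T, E Q z x ∈ trivOn ρ (Wt ρ p w) := by
  let A : AddSubgroup V :=
    { carrier := {x | polar Q z x = 0 ∧ E Q z x ∈ trivOn ρ (Wt ρ p w)}
      zero_mem' := ⟨by simp, by rw [E_zero]; exact one_mem _⟩
      add_mem' := fun {a b} ha hb => ⟨by simp [ha.1, hb.1], by rw [E_add ha.1 hb.1]; exact mul_mem ha.2 hb.2⟩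
      neg_mem' := fun {a} ha => ⟨by simp [ha.1], by rw [E_neg ha.1]; exact inv_mem ha.2⟩ }
  refine fun x hx => (sing_ind hs ht hst A (fun y hy hQ => ?_) x hx).2
  by_cases hy0 : y = 0
  · rw [hy0]; exact A.zero_mem
  have hQ := sing_ofQuad.1 hQ
  obtain ⟨c, hc, b, hb, e1, e2, e3⟩ := h y hy hy0 hQ
  have hzb : polar Q z b = 0 := by rw [polar_comm, (hT b hb).2.2]
  refine ⟨by rw [polar_comm, (hT y hy).2.2], ?_⟩
  rw [← E_comm_eq hQ e1 (hT y hy).2.2 (hT c hc).2.2 e2 e3 hzb]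
  exact fun v hv => comm_fix ρ h1
    (Wt_fix (E_apply_fix hQ e1 (hT y hy).1 (hT c hc).1) (E_apply_fix hQ e1 (hT y hy).2.1 (hT c hc).2.1))
    (Wt_fix (E_apply_fix hz hzb hzp (hT b hb).1) (E_apply_fix hz hzb hzw (hT b hb).2.1)) hv

theorem stab_triv (hn : (ofQuad Q).Nondeg) (h7 : 7 ≤ finrank F V)
    (hW : 4 ≤ Nat.card F ∨ 9 ≤ finrank F V ∨ (finrank F V = 8 ∧ (ofQuad Q).WittIndex 3))
    {p w : V} (hp0 : p ≠ 0) (hp : Q p = 0) (hpw : polar Q p w = 0) (hw : Q w = 0) (hw0 : w ∉ F ∙ p)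
    (h1 : finrank ℂ (Wt ρ p w) ≤ 1) {g : eichGroup Q} (hg : g.1.1 p = p) (hg' : g.1.1 w = w) :
    g ∈ trivOn ρ (Wt ρ p w) := by
  have hw1 : w ≠ 0 := by rintro rfl; exact hw0 (Submodule.zero_mem _)
  have hwp : polar Q w p = 0 := by rwa [polar_comm]
  obtain ⟨r, hr, hr1, hr2, hr3⟩ := hn.exists_hyperbolic_partner (H := F ∙ w) (p := p) (fun h => by
    obtain ⟨c, rfl⟩ := Submodule.mem_span_singleton.1 h
    exact hw0 (Submodule.mem_span_singleton.2 ⟨c⁻¹, inv_smul_smul₀ (by rintro rfl; simp at hp0) w⟩))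
    (mem_pp.2 hwp) hp (polar_self_of_sing hp)
  have hpr : (ofQuad Q).IsPair p r := isPair_quad.2 ⟨hp, hr1, hr3⟩
  have hwr : polar Q w r = 0 := mem_pp.1 hr
  have hrw : polar Q r w = 0 := by rwa [polar_comm]
  have hwU : w ∈ (ofQuad Q).pairPerp p r := mem_pairPerp_quad.2 ⟨hpw, hrw⟩
  obtain ⟨s, hs, hws⟩ := exists_isPair_mem (hpr.nondeg_pairPerp hn) hwU hw1 hw
  obtain ⟨hps, hrs⟩ := mem_pairPerp_quad.1 hs
  obtain ⟨hW1, hW2⟩ := pair_step hn (hpr.nondeg_pairPerp hn) hwU hs hws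
  have hd := hpr.finrank_pairPerp hn
  set W := (ofQuad Q).pairPerp p r ⊓ (ofQuad Q).pairPerp w s with hWd
  have hmem : ∀ x, x ∈ W ↔ (polar Q p x = 0 ∧ polar Q r x = 0) ∧ polar Q w x = 0 ∧ polar Q s x = 0 :=
    fun x => by rw [hWd, Submodule.mem_inf, mem_pairPerp_quad, mem_pairPerp_quad]
  -- the Eichler maps at `w`
  have hEw : ∀ b, polar Q p b = 0 → polar Q r b = 0 → polar Q w b = 0 → E Q w b ∈ trivOn ρ (Wt ρ p w) := by
    intro b h2 h3 h4
    obtain ⟨y, hy, hy0, hQy⟩ := exists_singular_of_three_le Q W (by omega)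
    obtain ⟨z, hz, hyz⟩ := exists_isPair_mem hW1 hy hy0 hQy
    have h5 := E_mem_of_sub (ρ := ρ) h1 hw hwp (polar_self_of_sing hw) (T := W) (fun x hx => by
      obtain ⟨⟨e1, -⟩, e2, -⟩ := (hmem x).1 hx
      exact ⟨by rwa [polar_comm], by rwa [polar_comm], by rwa [polar_comm]⟩) hy hz hyz
      (fun y hy hy0 hQ => exists_B_eq hn hW1 (by omega) hy hy0 (sing_ofQuad.2 hQ) 1)
      (b - polar Q s b • w) ((hmem _).2 (by
        simp [h2, h3, h4, hpw, hrw, polar_self_of_sing hw, hws.polar_eq']))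
    rwa [E_sub h4 (by simp [polar_self_of_sing hw]), E_smul_self hw, inv_one, one_mul] at h5
  have e1 : polar Q p (g.1.1 r) = 1 := by rw [← hg, OG.map_polar]; exact hr3
  have e2 : polar Q w (g.1.1 r) = 0 := by rw [← hg', OG.map_polar]; exact hwr
  have ha : polar Q p (g.1.1 r - r) = 0 := by rw [polar_sub_right, e1, hpr.polar_eq, sub_self]
  have ha' : polar Q (g.1.1 r - r) w = 0 := by rw [polar_comm, polar_sub_right, e2, hwr, sub_self]
  rw [← (trivOn ρ _).mul_mem_cancel_left (E_mem_triv ha ha')]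
  have f1 : (E Q p (g.1.1 r - r) * g).1.1 p = p := by
    rw [G_mul_apply, hg, E_apply_fix hp ha (polar_self_of_sing hp) (by rwa [polar_comm])]
  have f2 : (E Q p (g.1.1 r - r) * g).1.1 w = w := by rw [G_mul_apply, hg', E_apply_fix hp ha hpw ha']
  have f3 : (E Q p (g.1.1 r - r) * g).1.1 r = r := by
    rw [G_mul_apply, E_move hp (OG.map_Q _ _) e1 hpr.polar_eq]
  generalize E Q p (g.1.1 r - r) * g = k at f1 f2 f3
  have e3 : polar Q w (k.1.1 s) = 1 := by rw [← f2, OG.map_polar]; exact hws.polar_eq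
  have e4 : polar Q p (k.1.1 s - s) = 0 := by
    rw [polar_sub_right, hps, ← f1, OG.map_polar, hps, sub_self]
  have e5 : polar Q r (k.1.1 s - s) = 0 := by
    rw [polar_sub_right, hrs, ← f3, OG.map_polar, hrs, sub_self]
  have e6 : polar Q w (k.1.1 s - s) = 0 := by rw [polar_sub_right, e3, hws.polar_eq, sub_self]
  rw [← (trivOn ρ _).mul_mem_cancel_left (hEw _ e4 e5 e6)]
  have g1 : (E Q w (k.1.1 s - s) * k).1.1 p = p := by
    rw [G_mul_apply, f1, E_apply_fix hw e6 hwp (by rwa [polar_comm])]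
  have g2 : (E Q w (k.1.1 s - s) * k).1.1 w = w := by
    rw [G_mul_apply, f2, E_apply_fix hw e6 (polar_self_of_sing hw) (by rwa [polar_comm])]
  have g3 : (E Q w (k.1.1 s - s) * k).1.1 r = r := by
    rw [G_mul_apply, f3, E_apply_fix hw e6 hwr (by rwa [polar_comm])]
  have g4 : (E Q w (k.1.1 s - s) * k).1.1 s = s := by
    rw [G_mul_apply, E_move hw (OG.map_Q _ _) e3 hws.polar_eq]
  generalize E Q w (k.1.1 s - s) * k = l at g1 g2 g3 g4
  have hWI : finrank F V = 8 ∧ (ofQuad Q).WittIndex 3 → (ofQuad (QU Q W)).WittIndex 1 := fun h => by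
    have h2 := (hpr.wittIndex_iff hn).1 h.2
    rw [restrict_ofQuad] at h2
    have hws' : (ofQuad (QU Q ((ofQuad Q).pairPerp p r))).IsPair ⟨w, hwU⟩ ⟨s, hs⟩ :=
      isPair_quad.2 (isPair_quad.1 hws :)
    have h3 := (hws'.wittIndex_iff (nondeg_QU (hpr.nondeg_pairPerp hn))).1 h2
    rw [← restrict_ofQuad Q] at h3
    have h4 := (isIso_map_subtype _ _).wittIndex h3
    rw [← restrict_ofQuad Q]
    refine (isIso_ofEq ?_).wittIndex h4
    ext x
    rw [hmem, Submodule.mem_map]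
    exact ⟨by rintro ⟨y, hy, rfl⟩; exact ⟨mem_pairPerp_quad.1 y.2, (mem_pairPerp _).1 hy⟩,
      fun h => ⟨⟨x, mem_pairPerp_quad.2 h.1⟩, (mem_pairPerp _).2 h.2, rfl⟩⟩
  obtain ⟨m, rfl⟩ := exists_ext hn hW1 (by omega) (by omega) (by
    rcases hW with h | h | h
    · exact .inl (by omega)
    · exact .inr (.inl (by omega))
    · exact .inr (.inr fun h' => by have := h'.unique (hWI h); omega)) (g := l) (fun x hx => by
    have hx' : x - polar Q r x • p - polar Q p x • r - polar Q s x • w - polar Q w x • s ∈ W :=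
      (hmem _).2 (by simp [hpr.polar_eq, hpr.polar_eq', hws.polar_eq, hws.polar_eq', hpw, hps, hrw, hrs,
        hwp, hwr, polar_comm Q s p, polar_comm Q s r, polar_self_of_sing hp, polar_self_of_sing hw,
        polar_self_of_sing hpr.Q_right, polar_self_of_sing hws.Q_right])
    have hx'' : x - polar Q r x • p - polar Q p x • r - polar Q s x • w - polar Q w x • s ∈
        (ofQuad Q).perp W := mem_perp_quad.2 fun u hu => by
      obtain ⟨⟨u1, u2⟩, u3, u4⟩ := (hmem u).1 hu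
      simp [mem_perp_quad.1 hx u hu, polar_comm Q u p, polar_comm Q u r, polar_comm Q u w,
        polar_comm Q u s, u1, u2, u3, u4]
    have h0 := Submodule.disjoint_def.1 ((ofQuad Q).restrict_nondeg_iff.1 hW1) _ hx' hx''
    rw [sub_sub, sub_sub, sub_sub, sub_eq_zero] at h0
    rw [h0]
    simp only [map_add, map_smul, g1, g2, g3, g4])
  refine triv_of_perfect ρ h1 (perf_of (nondeg_QU hW1) (by omega) ?_) _ (fun k => Wt_fix
    (ext_perp hn hW1 k (mem_perp_quad.2 fun u hu => ?_)) (ext_perp hn hW1 k (mem_perp_quad.2 fun u hu => ?_))) m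
  · rcases hW with h | h | h
    · exact .inl h
    · exact .inr (.inl (by omega))
    · exact .inr (.inr ⟨by omega, hWI h⟩)
  · rw [polar_comm]; exact ((hmem u).1 hu).1.1
  · rw [polar_comm]; exact ((hmem u).1 hu).2.1

theorem ns_triv (hn : (ofQuad Q).Nondeg) (h9 : 9 ≤ finrank F V) {x w p : V}
    (h1 : finrank ℂ (Wt ρ x w) ≤ 1) (hp : Q p = 0) (hpx : polar Q p x = 0) (hpw : polar Q p w = 0)
    {a : V} (ha : a ∈ pf (ofQuad Q) ![x, w, p]) : E Q p a ∈ trivOn ρ (Wt ρ x w) := by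
  obtain ⟨s, t, hst, hs, ht⟩ := exists_pair_perp hn (Submodule.span F (Set.range ![x, w, p])) (by
    have := finrank_span_fam (F := F) ![x, w, p]; omega)
  have hm : ∀ y ∈ (ofQuad Q).perp (Submodule.span F (Set.range ![x, w, p])), y ∈ pf (ofQuad Q) ![x, w, p] :=
    fun y hy => mem_pf.2 fun i => (ofQuad Q).mem_perp_span.1 hy _ ⟨i, rfl⟩
  refine E_mem_of_sub h1 hp hpx hpw (fun y hy => ?_) (hm s hs) (hm t ht) hst (fun y _ _ _ => ?_) a ha
  · simpa only [polar_comm Q y] using mem_pf3.1 hy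
  have h2 := finrank_pf_top (Q := Q) ![x, w, p, y]
  obtain ⟨c, hc, hc'⟩ : ∃ c ∈ pf (ofQuad Q) ![x, w, p, y], c ∉ (ofQuad Q).perp (pf (ofQuad Q) ![x, w, p, y]) := by
    by_contra! h
    have := hn.two_mul_finrank_le h
    omega
  rw [mem_perp_quad] at hc'
  push Not at hc'
  obtain ⟨b, hb, hbc⟩ := hc'
  obtain ⟨c1, c2, c3, c4⟩ := mem_pf4.1 hc
  obtain ⟨b1, b2, b3, b4⟩ := mem_pf4.1 hb
  exact ⟨c, mem_pf3.2 ⟨c1, c2, c3⟩, (polar Q b c)⁻¹ • b, Submodule.smul_mem _ _ (mem_pf3.2 ⟨b1, b2, b3⟩), c4,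
    by simp [b4], by rw [polar_smul_right, polar_comm Q c, smul_eq_mul, inv_mul_cancel₀ hbc]⟩

end Cfsg.Agent.MinD
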