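import Cfsg.Agent.MinD.Rp2

/-! Minimal degrees of complex representations of orthogonal groups, part 3: small representations
and the passage to the fixed points of a unipotent radical. -/

set_option autoImplicit false
set_option linter.unusedSectionVars false

namespace Cfsg.Agent.MinD

open Cfsg.Agent.Geom Cfsg.Agent.Geom.Formed Cfsg.Agent.Root.Mx QuadraticMap Module
open scoped _root_.Classical

variable {F : Type*} [Field F] [Finite F] {V : Type*} [AddCommGroup V] [Module F V] [Fintype V]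
  {Q : QuadraticForm F V} {M : Type*} [AddCommGroup M] [Module ℂ M] [FiniteDimensional ℂ M]

theorem sum_ite_ne {ι : Type*} [Fintype ι] (s : ι → Prop) [DecidablePred s] {i : ι} (h : s i) {e : M} (he : e ≠ 0) :
    ∑ i, (if s i then e else 0) ≠ 0 := by
  rw [← Finset.sum_filter, Finset.sum_const, ← Nat.cast_smul_eq_nsmul ℂ]
  exact smul_ne_zero (Nat.cast_ne_zero.2 (Finset.card_ne_zero_of_mem (a := i) (by simpa))) he

theorem E_flip {p x : V} (hp : Q p = 0) (hx : Q x = 0) (h : polar Q p x = 0) (t : F) :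
    E Q x (t • p) = E Q p (-(t • x)) := by
  rw [← E_smul_left hx (by rwa [polar_comm]), E_swap hp (by simp [quad_smul, hx]) (by simp [h])]

theorem mem_span_of_perp2 (hn : (ofQuad Q).Nondeg) {p x d : V}
    (h : ∀ a ∈ pf (ofQuad Q) ![p, x], polar Q a d = 0) : ∃ α β : F, α • p + β • x = d := by
  rw [← Submodule.mem_span_pair, ← hn.perp_perp (Submodule.span F {p, x})]
  exact mem_perp_quad.2 fun a ha => h a (mem_pf2.2 ⟨mem_perp_quad.1 ha p (Submodule.subset_span (by simp)),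
    mem_perp_quad.1 ha x (Submodule.subset_span (by simp))⟩)

/-- Small representations. -/
structure Small (ρ : Representation ℂ (eichGroup Q) M) : Prop where
  a : ∀ p w, p ≠ 0 → Q p = 0 → polar Q p w = 0 → Wt ρ p w ≠ ⊥ → Q w = 0
  b : ∀ p w, p ≠ 0 → Q p = 0 → polar Q p w = 0 → Q w = 0 → w ∉ F ∙ p → Wt ρ p w ≠ ⊥
  c : ∀ p w, p ≠ 0 → Q p = 0 → polar Q p w = 0 → Q w = 0 → w ∉ F ∙ p →
    ∀ g : eichGroup Q, g.1.1 p = p → g.1.1 w = w → g ∈ trivOn ρ (Wt ρ p w)

variable {ρ : Representation ℂ (eichGroup Q) M}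

theorem ne_bot_of_prj {p w : V} {v : M} (h : prj ρ p w v ≠ 0) : Wt ρ p w ≠ ⊥ := fun e =>
  h ((Submodule.eq_bot_iff _).1 e _ (prj_mem p w v))

theorem perp_of_prj {p x w : V} (hp : Q p = 0) (hx : Q x = 0) (h : polar Q p x = 0) {v : M}
    (hv : v ∈ Wt ρ p 0) (hw : polar Q x w = 0) (h0 : prj ρ x w v ≠ 0) : polar Q p w = 0 :=
  eq_zero_of_psi fun t => by
    have := psi_eq_of_prj hx hw (a := t • p) (by simp [polar_comm Q x, h]) (c := 1) (by
      rw [E_flip hp hx h, hv _ (by simp [h])]; simp) h0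
    simpa using this

variable (hn : (ofQuad Q).Nondeg) {p r : V} (hpr : (ofQuad Q).IsPair p r)
include hn

theorem sum_E_eq (hp0 : p ≠ 0) (v : M) :
    ∑ a : pp Q p, ρ (E Q p a) v = Nat.card (pp Q p) • prj ρ p 0 v := by
  rw [prj_apply, ← card_mul_pp hn hp0, ← Nat.cast_smul_eq_nsmul ℂ, smul_smul, Nat.cast_mul]
  have : (Nat.card F : ℂ) ≠ 0 := Nat.cast_ne_zero.2 Nat.card_pos.ne'
  have : (Nat.card (pp Q p) : ℂ) ≠ 0 := Nat.cast_ne_zero.2 Nat.card_pos.ne'
  rw [show (Nat.card (pp Q p) : ℂ) * (Nat.card F / (Nat.card F * Nat.card (pp Q p))) = 1 by field_simp]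
  simp

theorem tot_prj (hp0 : p ≠ 0) (v : M) : tot ρ (prj ρ p 0 v) = tot ρ v := by
  have := congrArg (tot ρ) (sum_E_eq (ρ := ρ) hn hp0 v)
  simp only [map_sum, tot_rho, Finset.sum_const, Finset.card_univ, map_smul,
    ← Nat.card_eq_fintype_card, ← Nat.cast_smul_eq_nsmul ℂ] at this
  exact (smul_right_injective M (Nat.cast_ne_zero.2 Nat.card_pos.ne') this).symm

theorem pos_prj (hp0 : p ≠ 0) {B : M →+ M →+ ℝ} (h1 : ∀ g u v, B (ρ g u) (ρ g v) = B u v)
    (h2 : ∀ v, 0 ≤ B v v) (v : M) : 0 ≤ B v (prj ρ p 0 v) := by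
  have h3 : ∀ a : pp Q p, B (ρ (E Q p a) v) (prj ρ p 0 v) = B v (prj ρ p 0 v) := fun a => by
    rw [← h1 (E Q p a) v, prj_mem p 0 v a (mem_pp.1 a.2)]; simp
  have h4 := congrArg (fun u => B u (prj ρ p 0 v)) (sum_E_eq (ρ := ρ) hn hp0 v)
  simp only [map_sum, AddMonoidHom.finsetSum_apply, h3, Finset.sum_const, Finset.card_univ, map_nsmul,
    ← Nat.card_eq_fintype_card, AddMonoidHom.nsmul_apply, nsmul_eq_mul] at h4
  rw [mul_left_cancel₀ (Nat.cast_ne_zero.2 Nat.card_pos.ne') h4]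
  exact h2 _

omit hn in
theorem left_mem_perp (p r : V) : p ∈ (ofQuad Q).perp ((ofQuad Q).pairPerp p r) :=
  mem_perp_quad.2 fun u hu => by rw [polar_comm, (mem_pairPerp_quad.1 hu).1]

omit hn in
theorem right_mem_perp (p r : V) : r ∈ (ofQuad Q).perp ((ofQuad Q).pairPerp p r) :=
  mem_perp_quad.2 fun u hu => by rw [polar_comm, (mem_pairPerp_quad.1 hu).2]

include hpr

theorem T1_eq : (T1 Q p).ncard + Nat.card F =
    Nat.card F * (ofQuad (QU Q ((ofQuad Q).pairPerp p r))).nsing := by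
  have h1 := ncard_T1 hn hpr.left_ne_zero hpr.Q_left
  have h2 := hpr.finrank_pairPerp hn
  rw [hpr.nsing_eq, kappa_ofQuad, mul_one, restrict_ofQuad,
    Module.natCard_eq_pow_finrank (K := F) (V := (ofQuad Q).pairPerp p r), ← h2, Nat.add_sub_cancel] at h1
  exact Nat.add_left_cancel ((add_comm _ _).trans h1)

theorem decomp {x d : V} (hx : x ∈ (ofQuad Q).pairPerp p r)
    (h : ∀ a ∈ (ofQuad Q).pairPerp p r, polar Q x a = 0 → polar Q a d = 0) :
    ∃ γ : F, d = polar Q r d • p + polar Q p d • r + γ • x := by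
  have := mem_span_of_perp (nondeg_QU (hpr.nondeg_pairPerp hn)) (p := ⟨x, hx⟩) (d := ⟨_, hpr.proj_mem d⟩)
    fun a ha => by
      obtain ⟨h1, h2⟩ := mem_pairPerp_quad.1 a.2
      simp [polar_QU, h a a.2 ha, polar_comm Q a.1 p, polar_comm Q a.1 r, h1, h2]
  obtain ⟨γ, hγ⟩ := Submodule.mem_span_singleton.1 this
  have e : γ • x = d - polar Q r d • p - polar Q p d • r := congrArg Subtype.val hγ
  exact ⟨γ, by rw [e]; abel⟩

theorem wt_form {x w w' : V} (hx : x ∈ (ofQuad Q).pairPerp p r) (hQ : Q x = 0) {v : M}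
    (hv : ∀ a ∈ (ofQuad Q).pairPerp p r, polar Q x a = 0 → ρ (E Q x a) v = psi F (polar Q a w) • v)
    (hw' : polar Q x w' = 0) (h0 : prj ρ x w' v ≠ 0) :
    ∃ γ : F, w' - w = polar Q r (w' - w) • p + polar Q p (w' - w) • r + γ • x :=
  decomp hn hpr hx fun a ha ha' => eq_of_psi_eq (U := (ofQuad Q).pairPerp p r ⊓ pp Q x)
    (fun b hb => psi_eq_of_prj hQ hw' (mem_pp.1 hb.2) (hv b hb.1 (mem_pp.1 hb.2)) h0) a ⟨ha, mem_pp.2 ha'⟩

theorem exists_e1 {x w : V} (hx : x ∈ (ofQuad Q).pairPerp p r) (hx0 : x ≠ 0)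
    (hw : polar Q p w = 0) {e : M} (he : e ∈ Wt ρ x w) (he0 : e ≠ 0)
    (hfix : ∀ a, polar Q p a = 0 → polar Q x a = 0 → polar Q a w = 0 → ρ (E Q p a) e = e) :
    ∃ u ≠ 0, (∀ b ∈ (ofQuad Q).pairPerp p r, polar Q x b = 0 → ρ (E Q x b) u = psi F (polar Q b w) • u) ∧
      ∀ w', polar Q p w' = 0 → prj ρ p w' u ≠ 0 → ∃ α β : F, α • p + β • x = w' := by
  obtain ⟨hpx, hrx⟩ := mem_pairPerp_quad.1 hx
  have hp := hpr.Q_left
  have h1 : ∀ a : pf (ofQuad Q) ![p, x], ρ (E Q p a) e ∈ Wt ρ x (w + polar Q a w • p) := fun a => by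
    obtain ⟨a1, a2⟩ := mem_pf2.1 a.2
    have := Wt_map (E Q p a) he
    rwa [E_apply_fix hp a1 hpx (by rwa [polar_comm]), E_apply_perp hp a1 hw] at this
  refine ⟨∑ a : pf (ofQuad Q) ![p, x], ρ (E Q p a) e, fun h => ?_, fun b hb hb' => ?_, fun w' hw' h0 => ?_⟩
  · refine sum_ite_ne (fun a : pf (ofQuad Q) ![p, x] => polar Q a w = 0) (i := 0) (by simp) he0 ?_
    refine Eq.trans ?_ ((congrArg (prj ρ x w) h).trans (map_zero _))
    rw [map_sum]
    refine Finset.sum_congr rfl fun a _ => ?_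
    obtain ⟨a1, a2⟩ := mem_pf2.1 a.2
    split_ifs with ha
    · rw [hfix a a1 a2 ha, prj_of_mem hn hx0 he]
    · refine (prj_of_ne hn hx0 (h1 a) fun h => ha ?_).symm
      obtain ⟨t, ht⟩ := Submodule.mem_span_singleton.1 h
      simpa [hrx, hpr.polar_eq'] using (congrArg (polar Q r) ht).symm
  · rw [map_sum, Finset.smul_sum]
    refine Finset.sum_congr rfl fun a _ => ?_
    rw [h1 a b hb']
    simp [polar_comm Q b p, (mem_pairPerp_quad.1 hb).1]
  · refine mem_span_of_perp2 hn fun a ha => ?_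
    rw [← sub_zero w']
    refine eq_of_psi_eq (fun b hb => ?_) a ha
    rw [psi_eq_of_prj hp hw' (mem_pf2.1 hb).1 (c := 1) ?_ h0]
    · simp
    rw [one_smul, map_sum]
    refine Fintype.sum_equiv (Equiv.addLeft (⟨b, hb⟩ : pf (ofQuad Q) ![p, x])) _ _ fun c => ?_
    rw [← rho_mul, ← E_add (mem_pf2.1 hb).1 (mem_pf2.1 c.2).1]
    rfl

theorem ext_left (g : eichGroup (QU Q ((ofQuad Q).pairPerp p r))) :
    (ext hn (hpr.nondeg_pairPerp hn) g).1.1 p = p := ext_perp _ _ g (left_mem_perp p r)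

theorem ext_right (g : eichGroup (QU Q ((ofQuad Q).pairPerp p r))) :
    (ext hn (hpr.nondeg_pairPerp hn) g).1.1 r = r := ext_perp _ _ g (right_mem_perp p r)

variable (ρ) in
/-- The representation of the Levi factor on the fixed points of the unipotent radical. -/
noncomputable def res : Representation ℂ (eichGroup (QU Q ((ofQuad Q).pairPerp p r))) (Wt ρ p 0) where
  toFun g := (ρ (ext hn (hpr.nondeg_pairPerp hn) g)).restrict (Wt_fix (ext_left hn hpr g) (map_zero _))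
  map_one' := by ext; simp
  map_mul' g h := by ext; simp

theorem res_apply (g : eichGroup (QU Q ((ofQuad Q).pairPerp p r))) (v : Wt ρ p 0) :
    (res ρ hn hpr g v : M) = ρ (ext hn (hpr.nondeg_pairPerp hn) g) v := rfl

theorem mem_Wt_res {x w : (ofQuad Q).pairPerp p r} {v : Wt ρ p 0} : v ∈ Wt (res ρ hn hpr) x w ↔
    ∀ a ∈ (ofQuad Q).pairPerp p r, polar Q x a = 0 → ρ (E Q x a) v = psi F (polar Q a w) • v := by
  refine ⟨fun h a ha ha' => ?_, fun h a ha => Subtype.ext ?_⟩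
  · have := congrArg Subtype.val (h ⟨a, ha⟩ ha')
    rwa [res_apply, ext_E] at this
  · rw [res_apply, ext_E]; exact h a a.2 ha

theorem res_form {x w : (ofQuad Q).pairPerp p r} (hQ : Q x = 0) {v : Wt ρ p 0}
    (hv : v ∈ Wt (res ρ hn hpr) x w) {w' : V} (hw' : polar Q x w' = 0) (h0 : prj ρ x w' v ≠ 0) :
    ∃ α γ : F, w' = w + α • p + γ • x := by
  obtain ⟨γ, hγ⟩ := wt_form hn hpr x.2 hQ ((mem_Wt_res hn hpr).1 hv) hw' h0
  rw [polar_sub_right Q p, perp_of_prj hpr.Q_left hQ (mem_pairPerp_quad.1 x.2).1 v.2 hw' h0,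
    (mem_pairPerp_quad.1 w.2).1, sub_zero, zero_smul, add_zero, sub_eq_iff_eq_add'] at hγ
  exact ⟨_, γ, hγ.trans (add_assoc _ _ _).symm⟩

omit hn hpr in
theorem notMem_coe {U : Submodule F V} {x w : U} (h : w ∉ F ∙ x) : w.1 ∉ F ∙ x.1 := fun h' => by
  obtain ⟨t, ht⟩ := Submodule.mem_span_singleton.1 h'
  exact h (Submodule.mem_span_singleton.2 ⟨t, Subtype.ext ht⟩)

theorem Small.res (hS : Small ρ) : Small (res ρ hn hpr) := by
  have hp := hpr.Q_left
  have hQ' : ∀ (x w : (ofQuad Q).pairPerp p r) (α γ : F), Q x = 0 → polar Q x w = 0 →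
      Q (w + α • p + γ • x) = Q w := fun x w α γ hx hxw => by
    have h1 := (mem_pairPerp_quad.1 x.2).1
    have h2 := (mem_pairPerp_quad.1 w.2).1
    simp [quad_add, quad_smul, hp, hx, polar_comm Q w.1, hxw, h1, h2]
  refine ⟨fun x w hx0 hx hxw h => ?_, fun x w hx0 hx hxw hw hw0 => ?_,
    fun x w hx0 hx hxw hw hw0 g h1 h2 v hv => Subtype.ext ?_⟩
  · obtain ⟨v, hv, hv0⟩ := Submodule.exists_mem_ne_zero_of_ne_bot h
    have hx1 : x.1 ≠ 0 := by simpa using hx0
    obtain ⟨w', hw', h0⟩ := exists_prj (ρ := ρ) hn hx1 hx (v := v) (by simpa using hv0)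
    obtain ⟨α, γ, rfl⟩ := res_form hn hpr hx hv hw' h0
    exact (hQ' x w α γ hx hxw).symm.trans (hS.a _ _ hx1 hx hw' (ne_bot_of_prj h0))
  · have hx1 : x.1 ≠ 0 := by simpa using hx0
    obtain ⟨hpx, hrx⟩ := mem_pairPerp_quad.1 x.2
    obtain ⟨hpw, hrw⟩ := mem_pairPerp_quad.1 w.2
    obtain ⟨e, he, he0⟩ := Submodule.exists_mem_ne_zero_of_ne_bot (hS.b x w hx1 hx hxw hw (notMem_coe hw0))
    obtain ⟨u, hu0, h1, h2⟩ := exists_e1 hn hpr x.2 hx1 hpw he he0 fun a a1 a2 a3 =>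
      hS.c x w hx1 hx hxw hw (notMem_coe hw0) _ (E_apply_fix hp a1 hpx (by rwa [polar_comm]))
        (E_apply_fix hp a1 hpw a3) e he
    have h3 : u ∈ Wt ρ p 0 := mem_of_prj (ρ := ρ) hn hpr.left_ne_zero hp fun w' hw' h0 => by
      obtain ⟨α, β, rfl⟩ := h2 w' hw' h0
      by_cases hβ : β = 0
      · rw [← Wt_congr (w' := α • p + β • x.1) (by simp [hβ, Submodule.smul_mem])]
        exact prj_mem _ _ _
      refine absurd (mem_span_of_perp (nondeg_QU (hpr.nondeg_pairPerp hn)) fun b hb => ?_) hw0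
      rw [← sub_zero w]
      refine eq_of_psi_eq (U := pp _ x) (fun b hb => ?_) b (mem_pp.2 hb)
      have hb : polar Q x b = 0 := (mem_pp.1 hb :)
      have hbp : polar Q b p = 0 := by rw [polar_comm, (mem_pairPerp_quad.1 b.2).1]
      have e1 : (E Q x b).1.1 p = p := E_apply_fix hx hb (by rwa [polar_comm]) hbp
      have e2 : (E Q x b).1.1 (α • p + β • x.1) = α • p + β • x.1 := by
        rw [map_add, map_smul, map_smul, e1, 
          E_apply_fix (Q := Q) (p := x.1) hx hb (polar_self_of_sing hx) (by rwa [polar_comm])]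
      have h4 := prj_conj (ρ := ρ) (E Q x b) p (α • p + β • x.1) u
      rw [hS.c p _ hpr.left_ne_zero hp hw' (by simp [quad_add, quad_smul, hp, QU_apply x ▸ hx, hpx]) (fun h => by
        obtain ⟨t, ht⟩ := Submodule.mem_span_singleton.1 h
        have h5 := congrArg (polar Q r) ht
        simp only [polar_smul_right, polar_add_right, hrx, hpr.polar_eq', smul_eq_mul, mul_one, mul_zero,
          add_zero] at h5
        rw [h5, left_eq_add, smul_eq_zero] at ht
        exact ht.elim hβ hx1) _ e1 e2 _ (prj_mem _ _ _), e1, e2, h1 b b.2 hb, map_smul] at h4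
      rw [polar_zero_right, AddChar.map_zero_eq_one]
      exact smul_left_injective ℂ h0 (h4.symm.trans (one_smul _ _).symm)
    exact fun h => hu0 (congrArg Subtype.val ((Submodule.eq_bot_iff _).1 h ⟨u, h3⟩ ((mem_Wt_res hn hpr).2 h1)))
  · have hx1 : x.1 ≠ 0 := by simpa using hx0
    rw [res_apply]
    refine eq_of_prj (ρ := ρ) (g := LinearMap.id) hn hx1 hx fun w' hw' h0 => ?_
    obtain ⟨α, γ, rfl⟩ := res_form hn hpr hx hv hw' h0
    have e1 : (ext hn (hpr.nondeg_pairPerp hn) g).1.1 x = x := by rw [ext_mem, h1]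
    refine hS.c x _ hx1 hx hw' ((hQ' x w α γ hx hxw).trans hw) (fun h => notMem_coe hw0 ?_) _ e1 (by
      rw [map_add, map_add, map_smul, map_smul, e1, ext_left hn hpr, ext_mem, h2]) _ (prj_mem _ _ _)
    obtain ⟨t, ht⟩ := Submodule.mem_span_singleton.1 h
    have h5 := congrArg (polar Q r) ht
    simp only [polar_smul_right, polar_add_right, (mem_pairPerp_quad.1 x.2).2, (mem_pairPerp_quad.1 w.2).2,
      hpr.polar_eq', smul_eq_mul, mul_one, mul_zero, add_zero, zero_add] at h5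
    rw [← h5, zero_smul, add_zero, ← sub_eq_iff_eq_add, ← sub_smul] at ht
    exact Submodule.mem_span_singleton.2 ⟨_, ht⟩

theorem Small.finrank_le (hS : Small ρ) : (ofQuad (QU Q ((ofQuad Q).pairPerp p r))).nsing +
    finrank ℂ (Wt ρ p 0) ≤ finrank ℂ M + 1 := by
  have h1 := bound (ρ := ρ) hn hpr.left_ne_zero hpr.Q_left (T1 Q p) (fun w hw => ⟨hw.1, hw.2.2⟩) (m := 1)
    fun w hw => Submodule.one_le_finrank_iff.2 (hS.b p w hpr.left_ne_zero hpr.Q_left hw.1 hw.2.1 hw.2.2)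
  have h2 := T1_eq hn hpr
  refine Nat.le_of_mul_le_mul_left ?_ (Nat.card_pos (α := F))
  rw [mul_add, mul_add, ← h2]
  omega

end Cfsg.Agent.MinD
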