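import Cfsg.Agent.MinD.Rp3

/-! Minimal degrees of complex representations of orthogonal groups, part 4: the norm argument
and new fixed vectors of the Levi factor. -/

set_option autoImplicit false
set_option linter.unusedSectionVars false

namespace Cfsg.Agent.MinD

open Cfsg.Agent.Geom Cfsg.Agent.Geom.Formed Cfsg.Agent.Root.Mx QuadraticMap Module
open scoped _root_.Classical

variable {F : Type*} [Field F] [Finite F] {V : Type*} [AddCommGroup V] [Module F V] [Fintype V]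
  {Q : QuadraticForm F V} {M : Type*} [AddCommGroup M] [Module ℂ M] [FiniteDimensional ℂ M]

/-- Sum over a long root subgroup. -/
noncomputable def Av (ρ : Representation ℂ (eichGroup Q) M) (x p : V) : M →ₗ[ℂ] M :=
  ∑ t ∈ (Fintype.ofFinite F).elems, ρ (E Q x (t • p))

variable {ρ : Representation ℂ (eichGroup Q) M}

theorem Av_left {x p w : V} (h : polar Q x p = 0) {u : M} (hu : u ∈ Wt ρ x w) :
    Av ρ x p u = (if polar Q p w = 0 then (Nat.card F : ℂ) else 0) • u := by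
  letI := Fintype.ofFinite F
  rw [← sum_psi', Finset.sum_smul, Av, LinearMap.sum_apply]
  exact Finset.sum_congr rfl fun t _ => by rw [hu _ (by simp [h])]; simp

theorem Av_right {x p w : V} (hp : Q p = 0) (hx : Q x = 0) (h : polar Q p x = 0) {u : M}
    (hu : u ∈ Wt ρ p w) : Av ρ x p u = (if polar Q x w = 0 then (Nat.card F : ℂ) else 0) • u := by
  letI := Fintype.ofFinite F
  rw [← if_congr neg_eq_zero rfl rfl, ← sum_psi', Finset.sum_smul, Av, LinearMap.sum_apply]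
  exact Finset.sum_congr rfl fun t _ => by rw [E_flip hp hx h, hu _ (by simp [h])]; simp

variable (hn : (ofQuad Q).Nondeg) (hS : Small ρ)
include hn hS

theorem sum_Av {p : V} (hp0 : p ≠ 0) (hp : Q p = 0) (X : Finset V) (hX : ∀ x ∈ X, Q x = 0 ∧ polar Q p x = 0)
    {κ : ℕ} (hκ : ∀ w, polar Q p w = 0 → Q w = 0 → w ∉ F ∙ p → (X.filter fun x => polar Q x w = 0).card = κ)
    {v : M} (hv : prj ρ p 0 v = 0) : ∑ x ∈ X, Av ρ x p v = (Nat.card F : ℂ) • κ • v := by
  rw [← LinearMap.sum_apply]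
  refine eq_of_prj (ρ := ρ) (g := (Nat.card F : ℂ) • κ • LinearMap.id) hn hp0 hp fun w hw h0 => ?_
  rw [LinearMap.sum_apply, Finset.sum_congr rfl fun x hx => Av_right hp (hX x hx).1 (hX x hx).2 (prj_mem p w v),
    ← Finset.sum_smul, ← Finset.sum_filter, Finset.sum_const,
    hκ w hw (hS.a p w hp0 hp hw (ne_bot_of_prj h0)) fun h => h0 (by
      rw [prj_congr (w := 0) (by simpa using h), hv])]
  simp only [LinearMap.smul_apply, LinearMap.id_apply, ← Nat.cast_smul_eq_nsmul ℂ, smul_smul, smul_eq_mul,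
    mul_comm]

variable {p r : V} (hpr : (ofQuad Q).IsPair p r)
include hpr

theorem Av_add {x : V} (hx : x ∈ (ofQuad Q).pairPerp p r) (hx0 : x ≠ 0) (hQ : Q x = 0) {v : M}
    (hv : ∀ a ∈ (ofQuad Q).pairPerp p r, ρ (E Q x a) v = v) :
    Av ρ x p v + Av ρ x r v = (Nat.card F : ℂ) • (v + prj ρ x 0 v) := by
  obtain ⟨hpx, hrx⟩ := mem_pairPerp_quad.1 hx
  refine eq_of_prj (ρ := ρ) (f := Av ρ x p + Av ρ x r)
    (g := (Nat.card F : ℂ) • (LinearMap.id + prj ρ x 0)) hn hx0 hQ fun w hw h0 => ?_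
  have h1 := hS.a x w hx0 hQ hw (ne_bot_of_prj h0)
  have h2 := decomp hn hpr hx (d := w) fun a ha ha' => by
    rw [← sub_zero w]
    exact eq_of_psi_eq (U := (ofQuad Q).pairPerp p r ⊓ pp Q x) (fun b hb => by
      rw [psi_eq_of_prj hQ hw (mem_pp.1 hb.2) (c := 1) (by rw [hv b hb.1, one_smul]) h0]; simp) a
      ⟨ha, mem_pp.2 ha'⟩
  obtain ⟨γ, hγ⟩ := h2
  have h3 : polar Q r w * polar Q p w = 0 := by
    rw [hγ, quad_add, hpr.quad_plane] at h1
    simpa [quad_smul, hQ, hpx, hrx] using h1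
  simp only [LinearMap.add_apply, LinearMap.smul_apply, LinearMap.id_apply]
  rw [Av_left (by rwa [polar_comm]) (prj_mem x w v), Av_left (by rwa [polar_comm]) (prj_mem x w v),
    prj_Wt hn hx0 0 (prj_mem x w v), sub_zero]
  have h4 : w ∈ F ∙ x ↔ polar Q p w = 0 ∧ polar Q r w = 0 := by
    refine ⟨fun h => ?_, fun h => Submodule.mem_span_singleton.2 ⟨γ, by rw [hγ, h.1, h.2]; simp⟩⟩
    obtain ⟨t, rfl⟩ := Submodule.mem_span_singleton.1 h
    simp [hpx, hrx]
  rw [if_congr h4 rfl rfl]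
  clear hγ h4
  by_cases e1 : polar Q p w = 0 <;> by_cases e2 : polar Q r w = 0 <;> simp_all

theorem norm_zero (hν : (ofQuad (QU Q ((ofQuad Q).pairPerp p r))).nsing ≤
      2 * ((Nat.card F - 1) * Nat.card F ^ (finrank F V - 4)))
    {y : (ofQuad Q).pairPerp p r} (hy0 : y ≠ 0) (hy : Q y = 0) {v : M}
    (hv : ∀ x ∈ (ofQuad Q).pairPerp p r, ∀ a ∈ (ofQuad Q).pairPerp p r, ρ (E Q x a) v = v)
    (h1 : prj ρ p 0 v = 0) (h2 : prj ρ r 0 v = 0) : v = 0 := by
  have hU := nondeg_QU (hpr.nondeg_pairPerp hn)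
  have hd := hpr.finrank_pairPerp hn
  let X : Finset V := Finset.univ.filter fun x => x ∈ (ofQuad Q).pairPerp p r ∧ x ≠ 0 ∧ Q x = 0
  have hX : ∀ x, x ∈ X ↔ x ∈ (ofQuad Q).pairPerp p r ∧ x ≠ 0 ∧ Q x = 0 := fun x => by simp [X]
  have h3 : X.card + 1 = (ofQuad (QU Q ((ofQuad Q).pairPerp p r))).nsing := by
    rw [← ncard_sing, ← Set.ncard_coe_finset, ← Set.ncard_image_of_injective _ Subtype.val_injective]
    congr 2
    ext x
    simp only [Finset.mem_coe, hX, Set.mem_image, Set.mem_ofPred_eq]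
    exact ⟨fun h => ⟨⟨x, h.1⟩, ⟨by simpa using h.2.1, h.2.2⟩, rfl⟩, by
      rintro ⟨z, hz, rfl⟩; exact ⟨z.2, by simpa using hz.1, hz.2⟩⟩
  have h4 : ∀ w : (ofQuad Q).pairPerp p r, w ≠ 0 → Q w = 0 → (X.filter fun x => polar Q x w = 0).card + 1 +
      (Nat.card F - 1) * Nat.card F ^ (finrank F V - 4) = X.card + 1 := fun w hw0 hw => by
    rw [h3, ← ncard_T1 hU hw0 hw, ← ncard_sing_perp hw0 hw, show finrank F V - 4 =
      finrank F ((ofQuad Q).pairPerp p r) - 2 by omega]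
    congr 1
    rw [← Finset.card_insert_of_notMem (a := 0) (by simp [hX]), ← Set.ncard_coe_finset,
      ← Set.ncard_image_of_injective _ Subtype.val_injective]
    congr 1
    ext x
    simp only [Finset.coe_insert, Finset.coe_filter, Set.mem_insert_iff, hX, Set.mem_image, Set.mem_ofPred_eq]
    refine ⟨?_, ?_⟩
    · rintro (rfl | h)
      · exact ⟨0, by simp, rfl⟩
      · exact ⟨⟨x, h.1.1⟩, ⟨(polar_comm _ _ _).trans h.2, h.1.2.2⟩, rfl⟩
    · rintro ⟨z, hz, rfl⟩
      exact or_iff_not_imp_left.2 fun h => ⟨⟨z.2, h, hz.2⟩, (polar_comm _ _ _).trans hz.1⟩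
  obtain ⟨κ, hκ⟩ : ∃ κ, κ + 1 + (Nat.card F - 1) * Nat.card F ^ (finrank F V - 4) = X.card + 1 :=
    ⟨_, h4 y hy0 hy⟩
  have h5 : ∀ {p' r'}, (ofQuad Q).IsPair p' r' → (ofQuad Q).pairPerp p' r' = (ofQuad Q).pairPerp p r →
      prj ρ p' 0 v = 0 → ∑ x ∈ X, Av ρ x p' v = (Nat.card F : ℂ) • κ • v := fun {p' r'} h e h0 =>
    sum_Av hn hS h.left_ne_zero h.Q_left X
      (fun x hx => ⟨((hX x).1 hx).2.2, (mem_pairPerp_quad.1 (e ▸ ((hX x).1 hx).1)).1⟩)
      (fun w hw hQ hw0 => by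
        have h6 := h.proj_mem w
        rw [hw, zero_smul, sub_zero, e] at h6
        have h7 := h4 ⟨_, h6⟩ (fun h' => hw0 (Submodule.mem_span_singleton.2
          ⟨_, (sub_eq_zero.1 (congrArg Subtype.val h')).symm⟩))
          (by simp [quad_sub, quad_smul, hQ, h.Q_left, polar_comm Q w, hw])
        rw [← hκ, add_left_inj, add_left_inj] at h7
        rw [← h7]
        congr 1
        refine Finset.filter_congr fun x hx => ?_
        simp [polar_comm Q x p', (mem_pairPerp_quad.1 (e ▸ ((hX x).1 hx).1 : x ∈ (ofQuad Q).pairPerp p' r')).1])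
      h0
  have h6 : (Nat.card F : ℂ) • (κ • v + κ • v) = (Nat.card F : ℂ) • (X.card • v + ∑ x ∈ X, prj ρ x 0 v) := by
    rw [smul_add]
    nth_rewrite 1 [← h5 hpr rfl h1]
    rw [← h5 hpr.swap (pairPerp_comm _ _) h2, ← Finset.sum_add_distrib, Finset.sum_congr rfl fun x hx =>
      Av_add hn hS hpr ((hX x).1 hx).1 ((hX x).1 hx).2.1 ((hX x).1 hx).2.2 (hv x ((hX x).1 hx).1),
      ← Finset.smul_sum, Finset.sum_add_distrib, Finset.sum_const]
  obtain ⟨B, b1, b2, b3⟩ := exists_pos ρ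
  have h7 := congrArg (B v) (smul_right_injective M (Nat.cast_ne_zero.2 Nat.card_pos.ne') h6)
  simp only [map_add, map_nsmul, map_sum, nsmul_eq_mul] at h7
  have h8 : 0 ≤ ∑ x ∈ X, B v (prj ρ x 0 v) :=
    Finset.sum_nonneg fun x hx => pos_prj hn ((hX x).1 hx).2.1 b1 b2 v
  have h9 : (2 * κ + 1 : ℝ) ≤ X.card := by exact_mod_cast (by omega : 2 * κ + 1 ≤ X.card)
  refine b3 v (le_antisymm ?_ (b2 v))
  nlinarith [b2 v]

theorem Small.inv_le (hν : (ofQuad (QU Q ((ofQuad Q).pairPerp p r))).nsing ≤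
      2 * ((Nat.card F - 1) * Nat.card F ^ (finrank F V - 4)))
    {ι : Type*} [Fintype ι] [Nonempty ι] (w : ι → (ofQuad Q).pairPerp p r) (hw0 : ∀ i, w i ≠ 0)
    (hw : ∀ i, Q (w i) = 0)
    (hinj : ∀ i j (g : eichGroup (QU Q ((ofQuad Q).pairPerp p r))), g.1.1 (w i) = w j → i = j) :
    finrank ℂ ρ.invariants + Fintype.card ι ≤ finrank ℂ (MinD.res ρ hn hpr).invariants := by
  letI := Fintype.ofFinite (eichGroup (QU Q ((ofQuad Q).pairPerp p r)))
  have hr0 := hpr.right_ne_zero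
  have hnm : ∀ x : (ofQuad Q).pairPerp p r, x ≠ 0 → x.1 ∉ F ∙ r := fun x hx h => by
    obtain ⟨t, ht⟩ := Submodule.mem_span_singleton.1 h
    have h1 := congrArg (polar Q p) ht
    rw [polar_smul_right, hpr.polar_eq, (mem_pairPerp_quad.1 x.2).1, smul_eq_mul, mul_one] at h1
    exact hx (Subtype.ext (by rw [← ht, h1, zero_smul]; rfl))
  choose e he he0 using fun i => Submodule.exists_mem_ne_zero_of_ne_bot
    (hS.b r (w i) hr0 hpr.Q_right (mem_pairPerp_quad.1 (w i).2).2 (hw i) (hnm _ (hw0 i)))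
  let σ := ρ.comp (ext hn (hpr.nondeg_pairPerp hn))
  have h1 : ∀ i g, σ g (e i) ∈ Wt ρ r (g.1.1 (w i)) := fun i g => by
    have := Wt_map (ext hn (hpr.nondeg_pairPerp hn) g) (he i)
    rwa [ext_right hn hpr, ext_mem] at this
  have h2 : ∀ i, prj ρ r 0 (tot σ (e i)) = 0 := fun i => by
    rw [tot, LinearMap.sum_apply, map_sum]
    exact Finset.sum_eq_zero fun g _ => prj_of_ne hn hr0 (h1 i g) (by
      rw [sub_zero]; exact hnm _ (by simpa using hw0 i))
  have h3 : ∀ i j, prj ρ r (w j) (tot σ (e i)) = ∑ g : eichGroup (QU Q ((ofQuad Q).pairPerp p r)),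
      if g.1.1 (w i) = w j then e i else 0 := fun i j => by
    rw [tot, LinearMap.sum_apply, map_sum]
    refine Finset.sum_congr rfl fun g _ => ?_
    split_ifs with h
    · obtain rfl := hinj i j g h
      exact (congrArg _ (hS.c r (w i) hr0 hpr.Q_right (mem_pairPerp_quad.1 (w i).2).2 (hw i) (hnm _ (hw0 i)) _
        (ext_right hn hpr g) (by rw [ext_mem, h]) _ (he i))).trans (prj_of_mem hn hr0 (he i))
    · exact prj_of_ne hn hr0 (h1 i g) (hnm (g.1.1 (w i) - w j) (sub_ne_zero.2 h))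
  rw [← Submodule.finrank_map_subtype_eq (Wt ρ p 0)]
  refine finrank_add_card_le (A := ρ.invariants)
    (B := (MinD.res ρ hn hpr).invariants.map (Wt ρ p 0).subtype) (fun v hv => Submodule.mem_map.2
    ⟨⟨v, fun a _ => by rw [hv]; simp⟩, fun g => Subtype.ext (hv _), rfl⟩) (fun i => prj ρ p 0 (tot σ (e i)))
    (fun i => Submodule.mem_map.2 ⟨⟨_, prj_mem _ _ _⟩, fun g => Subtype.ext ?_, rfl⟩)
    fun c f hf h => ?_
  · rw [res_apply, prj_conj, ext_left hn hpr, map_zero]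
    exact congrArg _ (rho_tot σ g _)
  have h4 : f = 0 := eq_zero_of_tot ρ hf (by
    have := congrArg (tot ρ) h
    simp only [map_add, map_sum, map_smul, tot_prj hn hpr.left_ne_zero, map_zero] at this
    simpa only [← tot_prj hn hr0 (tot σ _), h2, map_zero, smul_zero, Finset.sum_const_zero, zero_add]
      using this)
  have h5 : ∑ i, c i • tot σ (e i) = 0 := by
    refine norm_zero hn hS hpr hν (hw0 (Classical.arbitrary ι)) (hw _) (fun x hx a ha => ?_) ?_ ?_
    · simp only [map_sum, map_smul]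
      refine Finset.sum_congr rfl fun i _ => congrArg _ ?_
      rw [← ext_E hn (hpr.nondeg_pairPerp hn) ⟨x, hx⟩ ⟨a, ha⟩]
      exact rho_tot σ _ _
    · simpa only [h4, add_zero, map_sum, map_smul] using h
    · simp only [map_sum, map_smul, h2, smul_zero, Finset.sum_const_zero]
  intro j
  have h6 := congrArg (prj ρ r (w j)) h5
  rw [map_sum, map_zero, Finset.sum_eq_single j (fun i _ hi => by
    rw [map_smul, h3, Finset.sum_eq_zero fun g _ => if_neg fun h => hi (hinj i j g h), smul_zero])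
    (by simp), map_smul, h3, smul_eq_zero] at h6
  exact h6.resolve_right (sum_ite_ne (fun g : eichGroup (QU Q ((ofQuad Q).pairPerp p r)) =>
    g.1.1 (w j) = w j) (i := 1) rfl (he0 j))

theorem Small.step (hν : (ofQuad (QU Q ((ofQuad Q).pairPerp p r))).nsing ≤
      2 * ((Nat.card F - 1) * Nat.card F ^ (finrank F V - 4)))
    {ι : Type*} [Fintype ι] [Nonempty ι] (w : ι → (ofQuad Q).pairPerp p r) (hw0 : ∀ i, w i ≠ 0)
    (hw : ∀ i, Q (w i) = 0)
    (hinj : ∀ i j (g : eichGroup (QU Q ((ofQuad Q).pairPerp p r))), g.1.1 (w i) = w j → i = j) {D : ℕ}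
    (hD : finrank ℂ (MinD.res ρ hn hpr).invariants + D ≤ finrank ℂ (Wt ρ p 0)) :
    finrank ℂ ρ.invariants + (ofQuad (QU Q ((ofQuad Q).pairPerp p r))).nsing + Fintype.card ι + D ≤
      finrank ℂ M + 1 := by
  have h1 := hS.inv_le hn hpr hν w hw0 hw hinj
  have h2 := hS.finrank_le hn hpr
  omega

end Cfsg.Agent.MinD
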