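import Cfsg.Agent.MinD.Rp4
import Cfsg.Agent.S2332
import Cfsg.Agent.Deg.Wt

/-! Minimal degrees of complex representations of orthogonal groups, part 5: the top level case
distinction and the recursion for small representations. -/

set_option autoImplicit false
set_option linter.unusedSectionVars false

namespace Cfsg.Agent.MinD

open Cfsg.Agent.Geom Cfsg.Agent.Geom.Formed Cfsg.Agent.Root.Mx QuadraticMap Module
open scoped _root_.Classical MatrixGroups

universe u v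

variable {F : Type*} [Field F] [Finite F]

section Top
variable {V : Type*} [AddCommGroup V] [Module F V] [Fintype V]
  {Q : QuadraticForm F V} {M : Type*} [AddCommGroup M] [Module ℂ M] [FiniteDimensional ℂ M]
  {ρ : Representation ℂ (eichGroup Q) M} (hn : (ofQuad Q).Nondeg)
include hn

theorem finrank_Wt_le (h7 : 7 ≤ finrank F V) {p w p' w' : V} (hp0 : p ≠ 0) (hp : Q p = 0)
    (hw : polar Q p w = 0) (hw0 : w ∉ F ∙ p) (hp0' : p' ≠ 0) (hp' : Q p' = 0) (hw' : polar Q p' w' = 0)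
    (hw0' : w' ∉ F ∙ p') {s : F} (hs : s ≠ 0) (hQ : Q w' = s ^ 2 * Q w) :
    finrank ℂ (Wt ρ p w) ≤ finrank ℂ (Wt ρ p' w') := by
  obtain ⟨g, rfl⟩ := witt1 hn (by omega) hp0 hp0' (hp'.trans hp.symm)
  obtain ⟨φ, hφ, rfl⟩ := exists_Gam hn h7 hp0' hp' (w := g.1.1 w) (by rwa [OG.map_polar]) (fun h => by
    obtain ⟨t, ht⟩ := Submodule.mem_span_singleton.1 h
    exact hw0 (Submodule.mem_span_singleton.2 ⟨t, g.1.1.injective (by rwa [map_smul])⟩)) hw' hw0' hs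
    (by rwa [OG.map_Q])
  exact (finrank_Wt_map g p w).trans (finrank_Wt_Gam hp' hφ _)

theorem exists_weight {g : eichGroup Q} (hg : ρ g ≠ 1) :
    ∃ p w, p ≠ 0 ∧ Q p = 0 ∧ polar Q p w = 0 ∧ w ∉ F ∙ p ∧ Wt ρ p w ≠ ⊥ := by
  by_contra! h
  have : eichGroup Q ≤ (MonoidHom.ker ρ).map (eichGroup Q).subtype := eichGroup_le fun p a => by
    by_cases h1 : Q p = 0 ∧ polar Q p a = 0
    swap
    · rw [eich_of_not h1]; exact one_mem _
    by_cases hp0 : p = 0
    · rw [hp0, eich_zero_left]; exact one_mem _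
    refine ⟨E Q p a, LinearMap.ext fun v => ?_, rfl⟩
    have : v ∈ Wt ρ p 0 := mem_of_prj (ρ := ρ) hn hp0 h1.1 fun w hw h0 => by
      by_cases h2 : w ∈ F ∙ p
      · rw [← Wt_congr (w' := w) (by simpa using h2)]; exact prj_mem _ _ _
      · exact absurd (h p w hp0 h1.1 hw h2) (ne_bot_of_prj h0)
    simpa using this a h1.2
  obtain ⟨k, hk, e⟩ := this g.2
  exact hg (Subtype.ext e ▸ hk)

theorem ne_one_of_weight {p w : V} (hw0 : w ∉ F ∙ p) (h : Wt ρ p w ≠ ⊥) : ∃ g, ρ g ≠ 1 := by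
  by_contra! h1
  obtain ⟨v, hv, hv0⟩ := Submodule.exists_mem_ne_zero_of_ne_bot h
  refine hw0 (mem_span_of_perp hn fun a ha => eq_zero_of_psi fun c => ?_)
  have := hv (c • a) (by simp [ha])
  rw [h1, polar_smul_left] at this
  exact smul_left_injective ℂ hv0 (this.symm.trans (one_smul _ _).symm)

theorem level0 (h7 : 7 ≤ finrank F V)
    (hW : 4 ≤ Nat.card F ∨ 9 ≤ finrank F V ∨ (finrank F V = 8 ∧ (ofQuad Q).WittIndex 3))
    {g : eichGroup Q} (hg : ρ g ≠ 1) {p r : V} (hpr : (ofQuad Q).IsPair p r) :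
    Small ρ ∨ (T1 Q p).ncard * 2 ≤ Nat.card F * finrank ℂ M ∨ ∃ c ≠ 0,
      (Tc Q p c).ncard + Nat.card F * finrank ℂ (Wt ρ p 0) ≤ Nat.card F * finrank ℂ M ∧
      (9 ≤ finrank F V → (Tc Q p c).ncard + (T1 Q p).ncard ≤ Nat.card F * finrank ℂ M ∨
        (Tc Q p c).ncard * 2 ≤ Nat.card F * finrank ℂ M ∨ ∃ k, res ρ hn hpr k ≠ 1) := by
  have hp0 := hpr.left_ne_zero
  have hp := hpr.Q_left
  have hT1 : ∀ {p' w' : V} {m : ℕ}, p' ≠ 0 → Q p' = 0 → polar Q p' w' = 0 → Q w' = 0 → w' ∉ F ∙ p' →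
      m ≤ finrank ℂ (Wt ρ p' w') → ∀ w ∈ T1 Q p, m ≤ finrank ℂ (Wt ρ p w) :=
    fun h1 h2 h3 h4 h5 h6 w hw => h6.trans (finrank_Wt_le hn h7 h1 h2 h3 h5 hp0 hp hw.1 hw.2.2 one_ne_zero
      (by rw [h4, hw.2.1, mul_zero]))
  by_cases hA : ∃ p' w', p' ≠ 0 ∧ Q p' = 0 ∧ polar Q p' w' = 0 ∧ Wt ρ p' w' ≠ ⊥ ∧ Q w' ≠ 0
  swap
  · push Not at hA
    obtain ⟨p', w', h1, h2, h3, h4, h5⟩ := exists_weight hn hg
    by_cases h6 : ∃ p' w', p' ≠ 0 ∧ Q p' = 0 ∧ polar Q p' w' = 0 ∧ Q w' = 0 ∧ w' ∉ F ∙ p' ∧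
      2 ≤ finrank ℂ (Wt ρ p' w')
    · obtain ⟨p', w', h1, h2, h3, h4, h5, h6⟩ := h6
      exact .inr (.inl ((Nat.le_add_right _ _).trans
        (bound hn hp0 hp (T1 Q p) (fun w hw => ⟨hw.1, hw.2.2⟩) (hT1 h1 h2 h3 h4 h5 h6))))
    push Not at h6
    exact .inl ⟨hA, fun x w e1 e2 e3 e4 e5 => Submodule.one_le_finrank_iff.1
      ((Submodule.one_le_finrank_iff.2 h5).trans (finrank_Wt_le hn h7 h1 h2 h3 h4 e1 e2 e3 e5 one_ne_zero
        (by rw [e4, hA _ _ h1 h2 h3 h5, mul_zero]))),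
      fun x w e1 e2 e3 e4 e5 g => stab_triv hn h7 hW e1 e2 e3 e4 e5 (by have := h6 x w e1 e2 e3 e4 e5; omega)⟩
  obtain ⟨p', w', h1, h2, h3, h4, h5⟩ := hA
  have h6 := Submodule.one_le_finrank_iff.2 h4
  have hTc : ∀ w ∈ Tc Q p (Q w'), finrank ℂ (Wt ρ p' w') ≤ finrank ℂ (Wt ρ p w) := fun w hw => by
    obtain ⟨s, hs, e⟩ := hw.2
    exact finrank_Wt_le hn h7 h1 h2 h3 (notMem_of_Q h2 h5) hp0 hp hw.1 (Tc_notMem hp h5 w hw) hs e
  have hB := bound (ρ := ρ) hn hp0 hp _ (fun w hw => ⟨hw.1, Tc_notMem hp h5 w hw⟩) hTc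
  refine .inr (.inr ⟨Q w', h5, le_trans (Nat.add_le_add_right (Nat.le_mul_of_pos_right _ h6) _) hB,
    fun h9 => ?_⟩)
  by_cases h8 : ∃ w ∈ T1 Q p, Wt ρ p w ≠ ⊥
  · obtain ⟨w, hw, h8⟩ := h8
    have := bound (ρ := ρ) hn hp0 hp (Tc Q p (Q w') ∪ T1 Q p) (m := 1)
      (by rintro w (hw | hw); exacts [⟨hw.1, Tc_notMem hp h5 w hw⟩, ⟨hw.1, hw.2.2⟩])
      (by
        rintro y (hy | hy)
        exacts [h6.trans (hTc y hy), hT1 hp0 hp hw.1 hw.2.1 hw.2.2 (Submodule.one_le_finrank_iff.2 h8) y hy])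
    rw [Set.ncard_union_eq (Set.disjoint_left.2 fun y h h' => by
      obtain ⟨s, hs, e⟩ := h.2
      exact mul_ne_zero (pow_ne_zero 2 hs) h5 (e.symm.trans h'.2.1))] at this
    exact .inl (by omega)
  push Not at h8
  by_cases h10 : 2 ≤ finrank ℂ (Wt ρ p' w')
  · exact .inr (.inl (le_trans (Nat.mul_le_mul_left _ h10) ((Nat.le_add_right _ _).trans hB)))
  refine .inr (.inr ?_)
  by_contra! h11
  have hd := hpr.finrank_pairPerp hn
  obtain ⟨x, hx, hx0, hQx⟩ := exists_singular_of_three_le Q ((ofQuad Q).pairPerp p r) (by omega)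
  obtain ⟨hpx, hrx⟩ := mem_pairPerp_quad.1 hx
  obtain ⟨s, t, hst, hs, ht⟩ := exists_pair_perp hn (Submodule.span F (Set.range ![p, r, x])) (by
    have := finrank_span_fam (F := F) ![p, r, x]; omega)
  obtain ⟨w, hw, hQw⟩ : ∃ w ∈ pf (ofQuad Q) ![p, r, x], Q w = Q w' :=
    ⟨s + Q w' • t, mem_pf.2 fun i => (ofQuad Q).mem_perp_span.1
      (Submodule.add_mem _ hs (Submodule.smul_mem _ _ ht)) _ ⟨i, rfl⟩, hst.quad_add_smul _⟩
  obtain ⟨hpw, hrw, hxw⟩ := mem_pf3.1 hw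
  have hw0 : w ∉ F ∙ x := notMem_of_Q hQx (hQw ▸ h5)
  have e1 := finrank_Wt_le (ρ := ρ) hn h7 h1 h2 h3 (notMem_of_Q h2 h5) hx0 hQx hxw hw0 one_ne_zero
    (by rw [hQw, one_pow, one_mul])
  have e2 := finrank_Wt_le (ρ := ρ) hn h7 hx0 hQx hxw hw0 h1 h2 h3 (notMem_of_Q h2 h5) one_ne_zero
    (by rw [hQw, one_pow, one_mul])
  obtain ⟨e, he, he0⟩ := Submodule.exists_mem_ne_zero_of_ne_bot (Submodule.one_le_finrank_iff.1 (h6.trans e1))
  obtain ⟨y, hy0, y1, y2⟩ := exists_e1 hn hpr hx hx0 hpw he he0 fun a a1 a2 a3 =>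
    ns_triv hn h9 (by omega) hp hpx hpw (mem_pf3.2 ⟨a2, by rwa [polar_comm], a1⟩) e he
  have y3 : y ∈ Wt ρ p 0 := mem_of_prj (ρ := ρ) hn hp0 hp fun w' hw' h0 => by
    obtain ⟨α, β, rfl⟩ := y2 w' hw' h0
    by_cases h : α • p + β • x ∈ F ∙ p
    · rw [← Wt_congr (w' := α • p + β • x) (by simpa using h)]
      exact prj_mem _ _ _
    · exact absurd (h8 _ ⟨hw', by simp [quad_add, quad_smul, hp, hQx, hpx], h⟩) (ne_bot_of_prj h0)
  obtain ⟨k, hk⟩ := ne_one_of_weight (ρ := res ρ hn hpr) (nondeg_QU (hpr.nondeg_pairPerp hn)) (p := ⟨x, hx⟩)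
    (w := ⟨w, mem_pairPerp_quad.2 ⟨hpw, hrw⟩⟩) (notMem_of_Q (Q := QU Q _) hQx (hQw ▸ h5 :)) fun h =>
      hy0 (congrArg Subtype.val ((Submodule.eq_bot_iff _).1 h ⟨y, y3⟩ ((mem_Wt_res hn hpr).2 y1)))
  exact hk (h11 k)

theorem not_conj3 (h3 : finrank F V = 3) {w : V} (hw0 : w ≠ 0) (hw : Q w = 0) {t : F} (ht0 : t ≠ 0)
    (ht : ¬ IsSquare t) (g : eichGroup Q) : g.1.1 (t • w) ≠ w := fun hg => by
  have hx : NotExc Q := notExc_of_finrank (by omega)
  have hG : ∀ g : eichGroup Q, dick g.1 = 1 ∧ spin g.1 = 1 := fun g =>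
    (mem_commutator_iff hn hx _).1 (eichGroup_eq_commutator' hn hx h3.ge ▸ g.2)
  obtain ⟨s, hs⟩ := exists_isPair hn hw0 hw
  obtain ⟨h, h1, h2, h4⟩ : ∃ h : OG Q, h.1 w = w ∧ dick h = 1 ∧ spin h = -1 :=
    ⟨g.1 * hs.torus (Units.mk0 t ht0), by rw [OG.mul_apply, hs.torus_left]; exact hg,
      by rw [dick_mul hn hx, (hG g).1, dick_torus hn, one_mul],
      by rw [spin_mul hn hx, (hG g).2, spin_torus hn, one_mul]; exact sqSign_eq_neg_one_iff.2 ht⟩
  have e1 : polar Q w (h.1 s) = 1 := by rw [← h1, OG.map_polar]; exact hs.polar_eq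
  have e2 : polar Q w (h.1 s - s) = 0 := by rw [polar_sub_right, e1, hs.polar_eq, sub_self]
  obtain ⟨k, k1, k2, k3, k4⟩ : ∃ k : OG Q, k.1 w = w ∧ k.1 s = s ∧ dick k = 1 ∧ spin k = -1 :=
    ⟨(E Q w (h.1 s - s)).1 * h, by
      rw [OG.mul_apply, h1, E_apply_fix hw e2 (polar_self_of_sing hw) (by rwa [polar_comm])],
      by rw [OG.mul_apply, E_move hw (OG.map_Q _ _) e1 hs.polar_eq],
      by rw [dick_mul hn hx, (hG _).1, h2, one_mul], by rw [spin_mul hn hx, (hG _).2, h4, one_mul]⟩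
  obtain ⟨z, hz, hQz⟩ := hs.exists_nonsing hn h3.ge
  obtain ⟨z1, z2⟩ := mem_pairPerp_quad.1 hz
  have hd := hs.finrank_pairPerp hn
  have hz1 := (finrank_eq_one_iff_of_nonzero' (K := F) (⟨z, hz⟩ : (ofQuad Q).pairPerp w s)
    (fun h => hQz (by rw [show z = 0 from congrArg Subtype.val h, map_zero]))).1 (by omega)
  have key : ∀ k : OG Q, k.1 w = w → k.1 s = s → k.1 z = z → k = 1 := fun k k1 k2 k3 => OG.ext fun x =>
    (hs.ext_smul (z := k.1) (c := 1) (by simpa) (by simpa) (fun a ha => by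
      obtain ⟨c, hc⟩ := hz1 ⟨a, ha⟩
      rw [← show c • z = a from congrArg Subtype.val hc]
      simp [k3]) x).trans (one_smul _ _)
  obtain ⟨c, hc⟩ := hz1 ⟨k.1 z, mem_pairPerp_quad.2
    ⟨by rw [← k1, OG.map_polar, z1], by rw [← k2, OG.map_polar, z2]⟩⟩
  have hc' : c • z = k.1 z := congrArg Subtype.val hc
  have h5 := OG.map_Q k z
  rw [← hc', quad_smul, mul_left_eq_self₀, sq_eq_one_iff] at h5
  rcases h5.resolve_right hQz with rfl | rfl
  · rw [key k k1 k2 (by rw [← hc', one_smul]), spin_one hn] at k4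
    exact absurd k4 (by decide)
  · have := dick_refl_mul hn hQz k
    rw [key (refl Q z * k) (by rw [OG.mul_apply, k1, refl_of_perp (by rwa [polar_comm])])
      (by rw [OG.mul_apply, k2, refl_of_perp (by rwa [polar_comm])])
      (by rw [OG.mul_apply, ← hc', map_smul, refl_self hQz]; simp), dick_one, k3] at this
    exact absurd this (by decide)

end Top

theorem arith_step {c a : ℤ} {f f' m m' ν k : ℕ} (hc : 0 ≤ c) (h1 : a + c * f' ≤ c * m') (h2 : f + k ≤ f')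
    (h3 : ν + m' ≤ m + 1) : a + c * (ν + k - 1) + c * f ≤ c * m := by
  zify at h2 h3
  nlinarith [mul_le_mul_of_nonneg_left h2 hc, mul_le_mul_of_nonneg_left h3 hc]

theorem q_sq_sub : (0 : ℤ) ≤ (Nat.card F : ℤ) ^ 2 - 1 := by
  have : (1 : ℤ) < Nat.card F := by exact_mod_cast one_lt_q (F := F)
  nlinarith

theorem minus_small (m : ℕ) : ∀ {V : Type u} [AddCommGroup V] [Module F V] [Fintype V]
    {Q : QuadraticForm F V} {M : Type v} [AddCommGroup M] [Module ℂ M] [FiniteDimensional ℂ M]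
    {ρ : Representation ℂ (eichGroup Q) M}, (ofQuad Q).Nondeg → finrank F V = 2 * (m + 1) + 2 →
    (ofQuad Q).WittIndex (m + 1) → Small ρ →
    ((Nat.card F : ℤ) ^ (m + 2) + 1) * ((Nat.card F : ℤ) ^ (m + 1) - Nat.card F) +
      ((Nat.card F : ℤ) ^ 2 - 1) * finrank ℂ ρ.invariants ≤ ((Nat.card F : ℤ) ^ 2 - 1) * finrank ℂ M := by
  induction m with
  | zero =>
    intro V _ _ _ Q M _ _ _ ρ _ _ _ _
    simpa using mul_le_mul_of_nonneg_left (Int.ofNat_le.2 ρ.invariants.finrank_le) (q_sq_sub (F := F))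
  | succ m ih =>
    intro V _ _ _ Q M _ _ _ ρ hn hd hw hS
    obtain ⟨p, r, hpr, hw'⟩ := hw.exists_isPair hn
    rw [restrict_ofQuad] at hw'
    have hU := nondeg_QU (hpr.nondeg_pairPerp hn)
    have hd' := hpr.finrank_pairPerp hn
    have hν := nsing_minus hU hw' (by omega)
    obtain ⟨x, hx0, hx⟩ := hw'.exists_sing
    have hq := one_lt_q (F := F)
    have h1 := hS.inv_le hn hpr (by
      obtain ⟨u, hu⟩ := Nat.exists_eq_add_of_lt hq
      rw [hd, show 2 * (m + 1 + 1) + 2 - 4 = 2 * (m + 1) by omega, hu, Nat.add_sub_cancel]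
      rw [hu, pow_succ _ (2 * _), pow_succ _ (m + 1)] at hν
      nlinarith [Nat.zero_le ((1 + u + 1) ^ (m + 1)), Nat.zero_le ((1 + u + 1) ^ (2 * (m + 1)))])
      (fun _ : Unit => x) (fun _ => hx0) (fun _ => sing_ofQuad.1 hx) (fun _ _ _ _ => rfl)
    have := arith_step q_sq_sub (ih hU (by omega) hw' (hS.res hn hpr)) h1
      (hS.finrank_le hn hpr)
    refine le_trans (le_of_eq ?_) this
    zify at hν
    rw [eq_sub_of_add_eq hν]
    simp only [Fintype.card_unit]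
    push_cast
    ring

theorem odd_small (m : ℕ) : ∀ {V : Type u} [AddCommGroup V] [Module F V] [Fintype V]
    {Q : QuadraticForm F V} {M : Type v} [AddCommGroup M] [Module ℂ M] [FiniteDimensional ℂ M]
    {ρ : Representation ℂ (eichGroup Q) M}, (ofQuad Q).Nondeg → finrank F V = 2 * (m + 2) + 1 → Small ρ →
    ((Nat.card F : ℤ) ^ (2 * (m + 2)) - 1) +
      ((Nat.card F : ℤ) ^ 2 - 1) * finrank ℂ ρ.invariants ≤ ((Nat.card F : ℤ) ^ 2 - 1) * finrank ℂ M := by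
  have hq := one_lt_q (F := F)
  have hν : ∀ m, Nat.card F ^ (2 * (m + 1)) ≤ 2 * ((Nat.card F - 1) * Nat.card F ^ (2 * (m + 2) + 1 - 4)) := by
    intro m
    obtain ⟨u, hu⟩ := Nat.exists_eq_add_of_lt hq
    rw [show 2 * (m + 2) + 1 - 4 = 2 * m + 1 by omega, show 2 * (m + 1) = 2 * m + 1 + 1 by omega, hu,
      Nat.add_sub_cancel, pow_succ _ (_ + 1)]
    nlinarith [Nat.zero_le ((1 + u + 1) ^ (2 * m + 1))]
  induction m with
  | zero =>
    intro V _ _ _ Q M _ _ _ ρ hn hd hS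
    obtain ⟨p, r, hpr, hw'⟩ := (wittIndex_odd hn hd).exists_isPair hn
    rw [restrict_ofQuad] at hw'
    have hU := nondeg_QU (hpr.nondeg_pairPerp hn)
    have hd' := hpr.finrank_pairPerp hn
    have h0 := nsing_odd hU hw' (by omega)
    obtain ⟨x, hx0, hx⟩ := hw'.exists_sing
    have hx := sing_ofQuad.1 hx
    obtain ⟨t, ht0, ht⟩ := exists_not_isSquare (two_ne_zero_of_odd_finrank hn ⟨_, hd⟩)
    have h1 := hS.inv_le hn hpr (by rw [h0, hd]; exact hν 0) ![x, t • x]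
      (by simp [Fin.forall_fin_two, hx0, ht0]) (by simpa [Fin.forall_fin_two, quad_smul, ht0] using hx)
      (by
        simp only [Fin.forall_fin_two, Matrix.cons_val_zero, Matrix.cons_val_one]
        refine ⟨⟨fun _ _ => trivial, fun g h => absurd ?_ (not_conj3 hU (by omega) hx0 hx ht0 ht g⁻¹)⟩,
          fun g h => absurd h (not_conj3 hU (by omega) hx0 hx ht0 ht g), fun _ _ => trivial⟩
        rw [← h]; exact OG.inv_apply_apply g.1 x)
    have := arith_step (a := 0) (q_sq_sub (F := F)) (by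
      simpa using mul_le_mul_of_nonneg_left (Int.ofNat_le.2 (res ρ hn hpr).invariants.finrank_le) q_sq_sub)
      h1 (hS.finrank_le hn hpr)
    refine le_trans (le_of_eq ?_) this
    rw [h0]
    simp only [Fintype.card_fin]
    push_cast
    ring
  | succ m ih =>
    intro V _ _ _ Q M _ _ _ ρ hn hd hS
    obtain ⟨p, r, hpr, hw'⟩ := (wittIndex_odd hn hd).exists_isPair hn
    rw [restrict_ofQuad] at hw'
    have hU := nondeg_QU (hpr.nondeg_pairPerp hn)
    have hd' := hpr.finrank_pairPerp hn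
    have h0 := nsing_odd hU hw' (by omega)
    obtain ⟨x, hx0, hx⟩ := hw'.exists_sing
    have h1 := hS.inv_le hn hpr (by rw [h0, hd]; exact hν (m + 1))
      (fun _ : Unit => x) (fun _ => hx0) (fun _ => sing_ofQuad.1 hx) (fun _ _ _ _ => rfl)
    have := arith_step q_sq_sub (ih hU (by omega) (hS.res hn hpr)) h1
      (hS.finrank_le hn hpr)
    refine le_trans (le_of_eq ?_) this
    rw [h0]
    simp only [Fintype.card_unit]
    push_cast
    ring

theorem plus_small (h4 : 4 ≤ Nat.card F) (m : ℕ) : ∀ {V : Type u} [AddCommGroup V] [Module F V] [Fintype V]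
    {Q : QuadraticForm F V} {M : Type v} [AddCommGroup M] [Module ℂ M] [FiniteDimensional ℂ M]
    {ρ : Representation ℂ (eichGroup Q) M}, (ofQuad Q).Nondeg → finrank F V = 2 * (m + 3) →
    (ofQuad Q).WittIndex (m + 3) → Small ρ →
    ((Nat.card F : ℤ) ^ (m + 3) - 1) * ((Nat.card F : ℤ) ^ (m + 2) + Nat.card F) +
      ((Nat.card F : ℤ) ^ 2 - 1) * finrank ℂ ρ.invariants ≤ ((Nat.card F : ℤ) ^ 2 - 1) * finrank ℂ M := by
  induction m with
  | zero =>
    intro V _ _ _ Q M _ _ _ ρ hn hd hw hS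
    have := Fintype.ofFinite F
    obtain ⟨p, r, hpr, hw'⟩ := hw.exists_isPair hn
    obtain ⟨x, hx0, hx⟩ := hw'.exists_sing
    have hx1 : x.1 ∉ F ∙ p := fun h => by
      obtain ⟨t, ht⟩ := Submodule.mem_span_singleton.1 h
      have h1 := congrArg (polar Q r) ht
      rw [polar_smul_right, hpr.polar_eq', (mem_pairPerp_quad.1 x.2).2, smul_eq_mul, mul_one] at h1
      exact hx0 (Subtype.ext (by rw [← ht, h1, zero_smul]; rfl))
    obtain ⟨g, hg⟩ := ne_one_of_weight hn hx1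
      (hS.b p x hpr.left_ne_zero hpr.Q_left (mem_pairPerp_quad.1 x.2).1 hx.1 hx1)
    obtain ⟨φ, hφ⟩ := exists_SL4 hn hd hw
    obtain ⟨g, rfl⟩ := hφ g
    rw [Nat.card_eq_fintype_card] at h4 ⊢
    have h1 := inv_add_le (ρ.comp φ) (Classical.commutator_SL_eq_top (by simp))
      (S2332.result (F := F) 4 (by omega) (by simp; omega)).1 hg
    have h2 : finrank ℂ ρ.invariants ≤ finrank ℂ (Representation.invariants (ρ.comp φ)) :=
      Submodule.finrank_mono fun v hv g => hv _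
    rw [div_eq_of (P := Fintype.card F ^ 3 + Fintype.card F ^ 2 + Fintype.card F) (by omega) (by
      obtain ⟨u, hu⟩ := Nat.exists_eq_add_of_le' (show 1 ≤ Fintype.card F by omega)
      rw [hu, Nat.add_sub_cancel]
      exact Nat.eq_sub_of_add_eq (by ring))] at h1
    have h3 := mul_le_mul_of_nonneg_left (Int.ofNat_le.2 ((Nat.add_le_add_right h2 _).trans h1))
      (Nat.card_eq_fintype_card (α := F) ▸ q_sq_sub (F := F))
    refine le_trans (le_of_eq ?_) h3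
    push_cast
    ring
  | succ m ih =>
    intro V _ _ _ Q M _ _ _ ρ hn hd hw hS
    obtain ⟨p, r, hpr, hw'⟩ := hw.exists_isPair hn
    rw [restrict_ofQuad] at hw'
    have hU := nondeg_QU (hpr.nondeg_pairPerp hn)
    have hd' := hpr.finrank_pairPerp hn
    have hν := nsing_plus hU hw' (by omega)
    obtain ⟨x, hx0, hx⟩ := hw'.exists_sing
    have h1 := hS.inv_le hn hpr (by
      obtain ⟨u, hu⟩ := Nat.exists_eq_add_of_le' h4
      have h2 := Nat.pow_le_pow_right (show 0 < u + 4 by omega) (show m + 2 + 1 ≤ 2 * (m + 2) by omega)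
      rw [hd, show 2 * (m + 1 + 3) - 4 = 2 * (m + 2) by omega, hu, show u + 4 - 1 = u + 3 by omega]
      rw [hu, pow_succ _ (2 * _)] at hν
      nlinarith [Nat.zero_le ((u + 4) ^ (m + 2)), Nat.zero_le ((u + 4) ^ (2 * (m + 2)))])
      (fun _ : Unit => x) (fun _ => hx0) (fun _ => sing_ofQuad.1 hx) (fun _ _ _ _ => rfl)
    have := arith_step q_sq_sub (ih hU (by omega) hw' (hS.res hn hpr)) h1
      (hS.finrank_le hn hpr)
    refine le_trans (le_of_eq ?_) this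
    zify at hν
    rw [eq_sub_of_add_eq hν]
    simp only [Fintype.card_unit]
    push_cast
    ring

end Cfsg.Agent.MinD
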