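import Cfsg.Agent.MinD.Rp5

/-! Minimal degrees of complex representations of orthogonal groups, part 6: the bounds. -/

set_option autoImplicit false
set_option linter.unusedSectionVars false

namespace Cfsg.Agent.MinD

open Cfsg.Agent.Geom Cfsg.Agent.Geom.Formed Cfsg.Agent.Root.Mx QuadraticMap Module
open scoped _root_.Classical MatrixGroups

universe u v

variable {F : Type*} [Field F] [Finite F]

theorem ar_minus {q y m : ℤ} (hq : 2 ≤ q) (hy : q ^ 2 ≤ y) (h : 2 * (q * y ^ 2 + y - q * y - 1) ≤ m) :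
    (q ^ 2 * y + 1) * (q * y - q) ≤ (q ^ 2 - 1) * m := by
  obtain ⟨a, rfl⟩ : ∃ a, q = a + 2 := ⟨q - 2, by ring⟩
  obtain ⟨b, rfl⟩ : ∃ b, y = b + (a + 2) ^ 2 := ⟨y - (a + 2) ^ 2, by ring⟩
  have ha : 0 ≤ a := by linarith
  have hb : 0 ≤ b := by linarith
  refine le_trans ?_ (mul_le_mul_of_nonneg_left h (by nlinarith))
  rw [← sub_nonneg]
  ring_nf
  positivity

theorem ar_plus {q y m : ℤ} (hq : 2 ≤ q) (hy : q ^ 2 ≤ y) (h : 2 * (q * y ^ 2 - y) ≤ m) :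
    (q ^ 2 * y - 1) * (q * y + q) ≤ (q ^ 2 - 1) * m := by
  obtain ⟨a, rfl⟩ : ∃ a, q = a + 2 := ⟨q - 2, by ring⟩
  obtain ⟨b, rfl⟩ : ∃ b, y = b + (a + 2) ^ 2 := ⟨y - (a + 2) ^ 2, by ring⟩
  have ha : 0 ≤ a := by linarith
  have hb : 0 ≤ b := by linarith
  refine le_trans ?_ (mul_le_mul_of_nonneg_left h (by nlinarith))
  rw [← sub_nonneg]
  ring_nf
  positivity

theorem ar_odd {q x m : ℤ} (hq : 2 ≤ q) (hy : q ^ 2 ≤ x) (h : 2 * (x * (x - 1)) ≤ m) :
    q ^ 2 * x ^ 2 - 1 ≤ (q ^ 2 - 1) * m := by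
  obtain ⟨a, rfl⟩ : ∃ a, q = a + 2 := ⟨q - 2, by ring⟩
  obtain ⟨b, rfl⟩ : ∃ b, x = b + (a + 2) ^ 2 := ⟨x - (a + 2) ^ 2, by ring⟩
  have ha : 0 ≤ a := by linarith
  have hb : 0 ≤ b := by linarith
  refine le_trans ?_ (mul_le_mul_of_nonneg_left h (by nlinarith))
  rw [← sub_nonneg]
  ring_nf
  positivity

theorem cancel_q {q a b : ℤ} (hq : 2 ≤ q) (h : q * a ≤ q * b) : a ≤ b :=
  le_of_mul_le_mul_left h (by linarith)

theorem small_le {a c : ℤ} {f m : ℕ} (hc : 0 ≤ c) (h : a + c * f ≤ c * m) : a ≤ c * m :=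
  le_trans (le_add_of_nonneg_right (mul_nonneg hc (Nat.cast_nonneg _))) h

theorem two_le_q : (2 : ℤ) ≤ Nat.card F := by exact_mod_cast one_lt_q (F := F)

theorem q_sq_le (m : ℕ) : (Nat.card F : ℤ) ^ 2 ≤ (Nat.card F : ℤ) ^ (m + 2) :=
  pow_le_pow_right₀ (by linarith [two_le_q (F := F)]) (by omega)

theorem d_le : ((if (2 : F) = 0 then 1 else 2 : ℕ) : ℤ) ≤ Nat.card F - 1 := by
  rcases char_cases F with h | ⟨h, t, ht, h'⟩
  · rw [if_pos h.1]; have := one_lt_q (F := F); omega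
  · rw [if_neg h, ht]; omega

theorem two_d_le (h4 : 4 ≤ Nat.card F) : 2 * ((if (2 : F) = 0 then 1 else 2 : ℕ) : ℤ) ≤ Nat.card F - 1 := by
  rcases char_cases F with h | ⟨h, t, ht, h'⟩
  · rw [if_pos h.1]; omega
  · rw [if_neg h, ht]; omega

theorem le_of_d {q d a C k : ℤ} (hd : 0 < d) (ha : 0 ≤ a) (h1 : k * d ≤ q) (h : q * a ≤ C * d) : k * a ≤ C := by
  nlinarith [mul_le_mul_of_nonneg_right h1 ha]

theorem minus_main (m : ℕ) : ∀ {V : Type u} [AddCommGroup V] [Module F V] [Fintype V]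
    {Q : QuadraticForm F V} {M : Type v} [AddCommGroup M] [Module ℂ M] [FiniteDimensional ℂ M]
    {ρ : Representation ℂ (eichGroup Q) M}, (ofQuad Q).Nondeg → finrank F V = 2 * (m + 3) + 2 →
    (ofQuad Q).WittIndex (m + 3) → ∀ g, ρ g ≠ 1 →
    ((Nat.card F : ℤ) ^ (m + 4) + 1) * ((Nat.card F : ℤ) ^ (m + 3) - Nat.card F) ≤
      ((Nat.card F : ℤ) ^ 2 - 1) * finrank ℂ M := by
  induction m using Nat.strong_induction_on with | _ m ih => ?_
  intro V _ _ _ Q M _ _ _ ρ hn hd hw g hg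
  obtain ⟨p, r, hpr, hw'⟩ := hw.exists_isPair hn
  rw [restrict_ofQuad] at hw'
  have hU := nondeg_QU (hpr.nondeg_pairPerp hn)
  have hd' := hpr.finrank_pairPerp hn
  have hν := nsing_minus hU hw' (by omega)
  have hT := T1_eq hn hpr
  have hq := two_le_q (F := F)
  have hy := q_sq_le (F := F) m
  have h0 := level0 hn (by omega) (by
    rcases m with _ | m
    exacts [.inr (.inr ⟨hd, hw⟩), .inr (.inl (by omega))]) hg hpr
  have e1 : (Nat.card F : ℤ) ^ (m + 4) = (Nat.card F : ℤ) ^ 2 * (Nat.card F : ℤ) ^ (m + 2) := by ring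
  have e2 : (Nat.card F : ℤ) ^ (m + 3) = (Nat.card F : ℤ) * (Nat.card F : ℤ) ^ (m + 2) := by ring
  have e3 : (Nat.card F : ℤ) ^ (2 * (m + 2) + 1) = (Nat.card F : ℤ) * ((Nat.card F : ℤ) ^ (m + 2)) ^ 2 := by ring
  zify at hν hT
  rw [e2, e3] at hν
  have hν' := congrArg ((Nat.card F : ℤ) * ·) hν
  simp only [mul_add] at hν'
  rcases h0 with h | h | ⟨c, hc, h1, h2⟩
  · exact small_le q_sq_sub (minus_small (m + 2) hn hd hw h)
  · rw [e1, e2]
    zify at h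
    exact ar_minus hq hy (cancel_q hq (by linarith))
  have h3 := even_Tc hn (k := m + 3) (by omega) hpr.left_ne_zero hpr.Q_left hc
  have h4 : 1 * ((Nat.card F : ℤ) * (Nat.card F * ((Nat.card F : ℤ) ^ (m + 2)) ^ 2 + (Nat.card F : ℤ) ^ (m + 2))) ≤
      (Tc Q p c).ncard := by
    refine le_of_d (by split_ifs <;> simp) (by positivity) ((one_mul _).le.trans (d_le (F := F))) ?_
    have h5 := Int.ofNat_le.2 h3
    rw [Nat.cast_add, Nat.cast_add, hT, Nat.cast_mul, Nat.cast_mul, Nat.cast_pow, Nat.cast_pow, e2,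
      eq_sub_of_add_eq hν] at h5
    linarith
  rcases m with _ | m
  · zify at h1
    rw [zero_add] at h4
    have h5 : (Nat.card F : ℤ) * ((Nat.card F : ℤ) ^ 2) ^ 2 + (Nat.card F : ℤ) ^ 2 ≤ finrank ℂ M :=
      cancel_q hq (by
        have : (0 : ℤ) ≤ Nat.card F * finrank ℂ (Wt ρ p 0) := by positivity
        linarith)
    refine le_trans ?_ (mul_le_mul_of_nonneg_left h5 q_sq_sub)
    obtain ⟨a, ha⟩ : ∃ a : ℤ, Nat.card F = a + 2 := ⟨Nat.card F - 2, by ring⟩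
    rw [ha] at hq ⊢
    have ha : 0 ≤ a := by linarith
    rw [← sub_nonneg]
    ring_nf
    positivity
  have h6 : (0 : ℤ) ≤ Nat.card F * (Nat.card F * (Nat.card F : ℤ) ^ (m + 1 + 2)) := by positivity
  rcases h2 (by omega) with h | h | ⟨k, hk⟩
  · rw [e1, e2]
    zify at h
    exact ar_minus hq hy (cancel_q hq (by linarith))
  · rw [e1, e2]
    zify at h
    exact ar_minus hq hy (cancel_q hq (by linarith))
  have h7 := ih m (by omega) hU (by omega) hw' k hk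
  zify at h1
  have h8 : ((ofQuad (QU Q ((ofQuad Q).pairPerp p r))).nsing : ℤ) + finrank ℂ (Wt ρ p 0) ≤ finrank ℂ M :=
    cancel_q hq (by linarith)
  refine le_trans ?_ (mul_le_mul_of_nonneg_left h8 q_sq_sub)
  rw [mul_add, eq_sub_of_add_eq hν]
  refine le_trans (le_of_eq ?_) (add_le_add_right h7 _)
  ring

variable {V : Type u} [AddCommGroup V] [Module F V] [Fintype V]
  {Q : QuadraticForm F V} {M : Type v} [AddCommGroup M] [Module ℂ M] [FiniteDimensional ℂ M]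
  {ρ : Representation ℂ (eichGroup Q) M}

theorem plus_main (h4 : 4 ≤ Nat.card F) (m : ℕ) (hn : (ofQuad Q).Nondeg) (hd : finrank F V = 2 * (m + 4))
    (hw : (ofQuad Q).WittIndex (m + 4)) {g : eichGroup Q} (hg : ρ g ≠ 1) :
    ((Nat.card F : ℤ) ^ (m + 4) - 1) * ((Nat.card F : ℤ) ^ (m + 3) + Nat.card F) ≤
      ((Nat.card F : ℤ) ^ 2 - 1) * finrank ℂ M := by
  obtain ⟨p, r, hpr, hw'⟩ := hw.exists_isPair hn
  rw [restrict_ofQuad] at hw'
  have hU := nondeg_QU (hpr.nondeg_pairPerp hn)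
  have hd' := hpr.finrank_pairPerp hn
  have hν := nsing_plus hU hw' (by omega)
  have hT := T1_eq hn hpr
  have hq := two_le_q (F := F)
  have hy := q_sq_le (F := F) m
  have h0 := level0 hn (by omega) (.inl h4) hg hpr
  have e1 : (Nat.card F : ℤ) ^ (m + 4) = (Nat.card F : ℤ) ^ 2 * (Nat.card F : ℤ) ^ (m + 2) := by ring
  have e2 : (Nat.card F : ℤ) ^ (m + 3) = (Nat.card F : ℤ) * (Nat.card F : ℤ) ^ (m + 2) := by ring
  have e3 : (Nat.card F : ℤ) ^ (2 * (m + 2) + 1) = (Nat.card F : ℤ) * ((Nat.card F : ℤ) ^ (m + 2)) ^ 2 := by ring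
  zify at hν hT
  rw [e2, e3] at hν
  have hν' := congrArg ((Nat.card F : ℤ) * ·) hν
  simp only [mul_add] at hν'
  rcases h0 with h | h | ⟨c, hc, h1, -⟩
  · exact small_le q_sq_sub (plus_small h4 (m + 1) hn hd hw h)
  · rw [e1, e2]
    zify at h
    refine ar_plus hq hy (cancel_q hq ?_)
    have : (1 : ℤ) ≤ Nat.card F * (Nat.card F : ℤ) ^ (m + 2) := by nlinarith
    have := mul_le_mul_of_nonneg_left this (zero_le_two.trans hq)
    linarith
  have h3 := even_Tc hn (k := m + 3) (by omega) hpr.left_ne_zero hpr.Q_left hc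
  have h4 : 2 * ((Nat.card F : ℤ) * (Nat.card F * ((Nat.card F : ℤ) ^ (m + 2)) ^ 2 - (Nat.card F : ℤ) ^ (m + 2))) ≤
      (Tc Q p c).ncard := by
    refine le_of_d (by split_ifs <;> simp) (mul_nonneg (by positivity) (by nlinarith)) (two_d_le h4) ?_
    have h5 := Int.ofNat_le.2 h3
    rw [Nat.cast_add, Nat.cast_add, hT, Nat.cast_mul, Nat.cast_mul, Nat.cast_pow, Nat.cast_pow, e2,
      eq_sub_of_add_eq hν] at h5
    linarith
  rw [e1, e2]
  zify at h1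
  refine ar_plus hq hy (cancel_q hq ?_)
  have : (0 : ℤ) ≤ Nat.card F * finrank ℂ (Wt ρ p 0) := by positivity
  linarith

theorem odd_main (h4 : 4 ≤ Nat.card F) (m : ℕ) (hn : (ofQuad Q).Nondeg) (hd : finrank F V = 2 * (m + 3) + 1)
    {g : eichGroup Q} (hg : ρ g ≠ 1) :
    (Nat.card F : ℤ) ^ (2 * (m + 3)) - 1 ≤ ((Nat.card F : ℤ) ^ 2 - 1) * finrank ℂ M := by
  obtain ⟨p, r, hpr, -⟩ := (wittIndex_odd hn hd).exists_isPair hn
  have hT := odd_T1 hn (k := m + 2) hd hpr.left_ne_zero hpr.Q_left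
  have hq := two_le_q (F := F)
  have hy := q_sq_le (F := F) m
  have e1 : (Nat.card F : ℤ) ^ (2 * (m + 3)) = (Nat.card F : ℤ) ^ 2 * ((Nat.card F : ℤ) ^ (m + 2)) ^ 2 := by ring
  zify at hT
  rcases level0 hn (by omega) (.inl h4) hg hpr with h | h | ⟨c, hc, h1, -⟩
  · exact small_le q_sq_sub (odd_small (m + 1) hn hd h)
  · rw [e1]
    zify at h
    refine ar_odd hq hy (cancel_q hq ?_)
    have : (1 : ℤ) ≤ (Nat.card F : ℤ) ^ (m + 2) := by nlinarith
    have := mul_le_mul_of_nonneg_left this (zero_le_two.trans hq)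
    linarith
  obtain ⟨t, ht⟩ : ∃ t, Nat.card F = 2 * t + 1 :=
    (char_cases F).elim (fun h => absurd h.1 (two_ne_zero_of_odd_finrank hn ⟨_, hd⟩)) fun h => h.2.imp fun _ h => h.1
  obtain ⟨y, hy'⟩ := Nat.exists_eq_add_of_le' (Nat.one_le_pow (m + 2) (Nat.card F) (by omega))
  have h3 : (2 * t + 1) * (y + 1) * 2 * y ≤ (Tc Q p c).ncard := by
    have h5 : (2 * t + 1) * (y + 1) * 2 * y ≤ (2 * t + 1) * (y + 1) * t * y := by gcongr; omega
    rcases odd_Tc hn (k := m + 2) hd ht hy' hpr.left_ne_zero hpr.Q_left hc with h | h <;> rw [h]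
    · exact h5
    · exact h5.trans (by gcongr; omega)
  rw [e1]
  refine ar_odd hq hy (cancel_q hq ?_)
  rw [← ht] at h3
  zify at h1 h3 hy'
  have : (0 : ℤ) ≤ Nat.card F * finrank ℂ (Wt ρ p 0) := by positivity
  rw [hy']
  linarith

theorem rep_bridge {ι : Type} [Fintype ι] [DecidableEq ι] {Q : QuadraticForm F (ι → F)}
    (hn : (ofQuad Q).Nondeg) (h5 : 5 ≤ finrank F (ι → F)) {k : ℕ}
    (ρ : Representation ℂ (Omega F ⇑Q) (Fin k → ℂ)) (hρ : ρ.IsIrreducible) (hk : 2 ≤ k) :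
    ∃ (τ : Representation ℂ (eichGroup Q) (Fin k → ℂ)) (g : eichGroup Q), τ g ≠ 1 := by
  obtain ⟨g, hg⟩ := Deg.exists_ne_one ρ hρ hk
  let e := (MulEquiv.subgroupCongr (G_eq hn h5)).trans (omegaEquiv Q).symm
  exact ⟨ρ.comp e.toMonoidHom, e.symm g, by simpa using hg⟩

theorem div_le_of_int {a q k : ℕ} {b : ℤ} (hq : 1 ≤ q) (h1 : (a : ℤ) = b) (h : b ≤ ((q : ℤ) ^ 2 - 1) * k) :
    a / (q ^ 2 - 1) ≤ k := by
  refine Nat.div_le_of_le_mul ?_
  zify [Nat.one_le_pow 2 q hq]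
  rwa [h1]

end Cfsg.Agent.MinD
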