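import Cfsg.Agent.MinD.Tw3
import Cfsg.Agent.Chev.TwD4

/-! Minimal degree of the triality group: the lower bound. -/

set_option autoImplicit false
set_option linter.unusedSectionVars false

namespace Cfsg.Agent.MinD

open Module Cfsg.Lie Cfsg.Agent.Chev Cfsg.Agent.Mult Cfsg.Agent.ChAut

/-- Roots of `D₄` by number. -/
abbrev rD (n : Fin 24) : Rt chevD4 := n

/-- The roots below the long ones. -/
abbrev TD : Set (Rt chevD4) := {s | 15 ≤ s.1 ∧ s.1 ≠ 18 ∧ s.1 ≠ 22}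

variable {K : Type*} [Field K] [Fintype K] {H : Type*} [Group H] [Finite H] {X : Sys chevD4 K H}
  {α : X.Aut symD4} {φ : K →+* K} {M : Type*} [AddCommGroup M] [Module ℂ M] [FiniteDimensional ℂ M]
  {ρ : Representation ℂ α.fix M}

theorem d4_conj (hl : ∀ r s : Rt chevD4, ln r = ln s) : ∃ ε : ℤ, ε * ε = 1 ∧ ∀ t1 t2 t3 u : K, ∃ m ∈ X.U TD,
    X.x (rD 14) u * (X.x (rD 18) t1 * (X.x (rD 13) t2 * X.x (rD 12) t3)) =
      X.x (rD 18) t1 * (X.x (rD 13) t2 * X.x (rD 12) t3) * (X.x (rD 14) u * (m *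
        X.x (rD 22) (ε * (t1 * t2 * t3) * u))) := by
  have f : ∀ a b c : Fin 24, A (rD a) (rD b) = -1 ∧ add (rD a) (rD b) = rD c → ∃ ε : ℤ, (ε = 1 ∨ ε = -1) ∧
      ∀ t u g, X.x (rD a) t * (X.x (rD b) u * g) = X.x (rD b) u * (X.x (rD a) t * (X.x (rD c) (ε * u * t) * g)) :=
    fun a b c e => by
      obtain ⟨ε, h1, h2⟩ := x_lc' (X := X) hl e.1
      exact ⟨ε, h1, fun t u g => by rw [← mul_assoc, h2, refl_eq e]; simp only [mul_assoc]⟩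
  obtain ⟨ε1, a1, e1⟩ := f 14 18 19 (by decide +kernel)
  obtain ⟨ε2, a2, e2⟩ := f 19 13 21 (by decide +kernel)
  obtain ⟨ε3, a3, e3⟩ := f 21 12 22 (by decide +kernel)
  obtain ⟨ε4, -, e4⟩ := f 14 13 16 (by decide +kernel)
  obtain ⟨ε5, -, e5⟩ := f 19 12 20 (by decide +kernel)
  obtain ⟨ε6, -, e6⟩ := f 16 12 17 (by decide +kernel)
  obtain ⟨ε7, -, e7⟩ := f 14 12 15 (by decide +kernel)
  refine ⟨ε1 * ε2 * ε3, by rcases a1 with rfl | rfl <;> rcases a2 with rfl | rfl <;> rcases a3 with rfl | rfl <;> rfl,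
    fun t1 t2 t3 u => ⟨X.x (rD 15) (ε7 * t3 * u) * (X.x (rD 16) (ε4 * t2 * u) * (X.x (rD 17) (ε6 * t3 * (ε4 * t2 * u)) *
      (X.x (rD 19) (ε1 * t1 * u) * (X.x (rD 20) (ε5 * t3 * (ε1 * t1 * u)) * X.x (rD 21) (ε2 * t2 * (ε1 * t1 * u)))))),
      by repeat (first | exact X.x_mem_U (by decide) _ | apply Subgroup.mul_mem), ?_⟩⟩
  rw [← mul_one (X.x (rD 12) t3), e1, e2, e4, e3, e5, e6, e7]
  simp only [mul_assoc, mul_one]
  congr 11
  push_cast; ring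

theorem ne_one3 (h2 : ∀ t, φ (φ (φ t)) = t) {t : K} (h : t * φ t * φ (φ t) = 1) (h1 : t ≠ 1) :
    t * (φ t * (φ (φ t))⁻¹) ≠ 1 := fun e => by
  have h0 : φ (φ t) ≠ 0 := fun e => by simp [e] at h
  rw [← mul_assoc, mul_inv_eq_one₀ h0] at e
  have e1 := congrArg φ (e ▸ h)
  rw [map_mul, h2, map_one] at e1
  have e2 : t = -1 := (mul_self_eq_one_iff.1 e1).resolve_left h1
  rw [e2] at h h1
  simp at h
  exact h1 h

theorem d4_bound {q : ℕ} (hφ : ∀ t, φ t = t ^ q) (hq : 1 < q) (hK : Nat.card K = q ^ 3) (h : TwH α φ)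
    (h2 : ∀ t, φ (φ (φ t)) = t) (o3 : ∀ r t, α.σ (α.σ (α.σ (X.x r t))) = X.x r t)
    (ha : ∀ t, α.a (rD 18) t = φ t ∧ α.a (rD 13) t = φ t)
    (ht : ∀ t, X.h (rD 18) t * (X.h (rD 13) (φ t) * X.h (rD 12) (φ (φ t))) ∈ α.fix)
    (h0 : ¬ ⊤ ≤ Eg ρ (zz α φ (rD 23)) 0) : (q - 1) * (q + 1) * q ^ 3 + (q - 1) ≤ finrank ℂ M := by
  classical
  have f6 : refl (rD 19) (rD 5) = rD 14 := refl_eq (by decide +kernel)
  obtain ⟨f1, f2, f3, f4, f5, f7⟩ : symD4.ρ (rD 23) = rD 23 ∧ symD4.ρ (rD 14) = rD 14 ∧ symD4.ρ (rD 22) = rD 22 ∧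
    symD4.ρ (rD 18) = rD 13 ∧ symD4.ρ (rD 13) = rD 12 ∧
    ∀ r, htF chevD4 (rtv (symD4.ρ r)) = htF chevD4 (rtv r) := by simp only [htF_rtv]; decide +kernel
  have cF : Fintype.card (fixF φ) = q := Fintype.card_eq_nat_card.trans (card_fixF hφ hq hK)
  obtain ⟨s0, hs0⟩ := exists_not_fix hφ hq (by omega) hK
  obtain ⟨d, d1, d2, d3⟩ := h.a2z (ρ := ρ) f1 f2 (by decide +kernel) (sta_top _) (sta_top _) (sta_top _) (sta_top _)
  obtain ⟨d', d4, d5, -⟩ := h.a2z (ρ := ρ) f1 f3 (by decide +kernel) (sta_top _) (sta_top _) (sta_top _) (sta_top _)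
  rw [cF] at d1 d2 d4 d5
  obtain rfl : d = d' := Nat.eq_of_mul_eq_mul_left (by omega : 0 < q)
    (Nat.eq_of_mul_eq_mul_left (by omega) (Nat.add_left_cancel (d1.symm.trans d4)))
  have d0 : d ≠ 0 := fun e => h0 (inf_eq_left.1 (Submodule.eq_of_le_of_finrank_eq inf_le_left (by
    rw [d1, e]; simp)))
  obtain ⟨χ, hχ⟩ := exists_char_ne (fixF φ)
  have zθ := h.zz_mem f1
  have zb := h.zz_mem f2
  have zc := h.zz_mem f3
  have ym := h.y3_mem o3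
  have r1 := h.y3_lc o3 h2 (a := rD 19) (b := rD 5) (by decide +kernel) (by rw [f6, f2]) (by decide +kernel)
    (by decide +kernel)
  rw [f6] at r1
  have k1 := heis_tr (ρ := ρ) (τ3_surj h2 hs0) (h.y3_add o3 _) r1 hχ (N := ⊤ ⊓ Eg ρ (zz α φ (rD 23)) 0 ⊓ _) inf_le_right
    (((sta_top _).inf (h.sta_comm zθ (ym _) (by decide +kernel) _)).inf (h.sta_comm zb (ym _) (by decide +kernel) _))
    (((sta_top _).inf (h.sta_comm zθ (ym _) (by decide +kernel) _)).inf (h.sta_comm zb (ym _) (by decide +kernel) _))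
  rw [d3 χ hχ, Fintype.card_eq_nat_card, hK] at k1
  set N := ⊤ ⊓ Eg ρ (zz α φ (rD 23)) 0 ⊓ Eg ρ (zz α φ (rD 14)) χ ⊓ Eg ρ (y3 α (rD 19)) 0 with hN
  rw [finrank_top, d2] at d1
  obtain ⟨x, rfl⟩ := Nat.exists_eq_add_of_lt hq
  rw [Nat.add_sub_cancel] at *
  by_cases h1 : 2 ≤ finrank ℂ N
  · have := Nat.mul_le_mul_left ((1 + x + 1) ^ 3) h1
    rw [← k1] at this
    rw [d1]
    nlinarith [Nat.mul_le_mul_left ((1 + x) * (1 + x + 1 + 1)) this, Nat.zero_le (x ^ 2), Nat.zero_le (x ^ 3),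
      Nat.zero_le (x ^ 4), Nat.zero_le (x ^ 5)]
  have n0 : N ≠ ⊥ := fun e => d0 (by rw [k1, e, finrank_bot, mul_zero])
  have sb : ∀ {χ} u, ∀ v ∈ Eg ρ (zz α φ (rD 23)) 0, v ∈ Eg ρ (zz α φ (rD 14)) χ →
      ρ (zz α φ (rD 22) u) v ∈ Eg ρ (zz α φ (rD 14)) χ := fun u v h1 h2 =>
    h.eg_step f2 (zc u) (T := {rD 23}) (by simp +contextual only [refl_add]; decide +kernel) ((h.FS_single f1).ge h1) h2
  have sc := h.sta_comm (ρ := ρ) zθ zc (by decide +kernel) 0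
  have s1 : Sta ρ N (zz α φ (rD 22)) := fun u v hv => ⟨⟨⟨trivial, sc u v hv.1.1.2⟩, sb u v hv.1.1.2 hv.1.2⟩,
    h.sta_comm (ym _) zc (by decide +kernel) _ u v hv.2⟩
  have w1 : ¬ ⊤ ⊓ Eg ρ (zz α φ (rD 23)) 0 ⊓ Eg ρ (zz α φ (rD 14)) 0 ≤ Eg ρ (zz α φ (rD 22)) 0 := fun hle => by
    have k2 := Submodule.eq_of_le_of_finrank_eq (le_inf inf_le_left hle) (by omega)
    by_cases h3 : N ≤ Eg ρ (zz α φ (rD 22)) 0
    · obtain ⟨v, hv, hv0⟩ := Submodule.exists_mem_ne_zero_of_ne_bot n0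
      exact hχ (eq_zero_of_Eg hv0 hv.1.2 (k2.ge ⟨hv.1.1, h3 hv⟩).2)
    obtain ⟨μ, hμ, h4⟩ := exists_Eg (h.zz_add f3) s1 h3
    obtain ⟨v, ⟨hv, hvμ⟩, hv0⟩ := Submodule.exists_mem_ne_zero_of_ne_bot h4
    have s00 : φ s0 ≠ 0 := fun e => hs0 (by rw [e, (map_eq_zero φ).1 e])
    obtain ⟨t, t1, t2⟩ : ∃ t : K, t * φ t * φ (φ t) = 1 ∧ t ≠ 1 := ⟨s0 / φ s0, by
      have := (map_ne_zero φ).1 s00
      have := (map_ne_zero φ).2 s00
      simp only [map_div₀, h2]; field_simp, fun e => hs0 ((div_eq_one_iff_eq s00).1 e).symm⟩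
    have t0 : t ≠ 0 := fun e => by simp [e] at t1
    have t3 := (map_ne_zero φ).2 t0
    have t4 := (map_ne_zero φ).2 t3
    set g : α.fix := ⟨_, ht t⟩
    have eg : ∀ r u, g.1 * X.x r u = X.x r (t ^ A (rD 18) r * (φ t ^ A (rD 13) r * φ (φ t) ^ A (rD 12) r) * u) * g.1 :=
      fun r u => by
        rw [mul_assoc (t ^ _), mul_assoc (φ t ^ _), ← X.h_conj _ _ t0, ← X.h_conj _ _ t3, ← X.h_conj _ _ t4]
        simp only [g]; group
    have eg' : ∀ {r χ}, symD4.ρ r = r → t ^ A (rD 18) r * (φ t ^ A (rD 13) r * φ (φ t) ^ A (rD 12) r) = 1 →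
        Sta ρ (Eg ρ (zz α φ r) χ) fun _ : Unit => g := fun hr e => sta_Eg (fun u _ => Subtype.ext (by
      simp only [Subgroup.coe_mul, h.coe_zz hr, eg, e, one_mul])) _
    obtain ⟨a1, a2, a3, a4, a5, a6, a7, a8, a9⟩ : A (rD 18) (rD 23) = 0 ∧ A (rD 13) (rD 23) = 0 ∧ A (rD 12) (rD 23) = 0 ∧
      A (rD 18) (rD 14) = -1 ∧ A (rD 13) (rD 14) = -1 ∧ A (rD 12) (rD 14) = -1 ∧ A (rD 18) (rD 21) = 1 ∧
      A (rD 13) (rD 21) = 1 ∧ A (rD 12) (rD 21) = -1 := by decide +kernel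
    have g1 : ∀ v ∈ N, ρ g v ∈ N := fun v hv => ⟨⟨⟨trivial, eg' f1 (by simp [a1, a2, a3]) () v hv.1.1.2⟩,
      eg' f2 (by rw [a4, a5, a6, ← mul_zpow, ← mul_zpow, ← mul_assoc, t1, one_zpow]) () v hv.1.2⟩,
      mem_Eg_zero.2 fun u => by
        rw [← mul_inv_cancel_left₀ (mul_ne_zero (zpow_ne_zero (A (rD 18) (rD 19)) t0) (mul_ne_zero
          (zpow_ne_zero (A (rD 13) (rD 19)) t3) (zpow_ne_zero (A (rD 12) (rD 19)) t4))) u, ← rho_mul,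
          ← h.y3_conj o3 (eg _ _), rho_mul, mem_Eg_zero.1 hv.2]⟩
    have g2 : Sta ρ N (y3 α (rD 21)) := fun u v hv => ⟨⟨⟨trivial, h.sta_comm zθ (ym _) (by decide +kernel) _ u v hv.1.1.2⟩,
      h.sta_comm zb (ym _) (by decide +kernel) _ u v hv.1.2⟩, mem_Eg_zero.2 fun w => by
        rw [← rho_mul, show y3 α (rD 19) w * y3 α (rD 21) u = y3 α (rD 21) u * (y3 α (rD 19) w *
          ((y3 α (rD 19) w)⁻¹ * ((y3 α (rD 21) u)⁻¹ * y3 α (rD 19) w * y3 α (rD 21) u))) by group, rho_mul, rho_mul,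
          (h.FS_single f1).ge hv.1.1.2 _ (comm_UU h.hl (by simp +contextual only [refl_add]; decide +kernel)
            (by simp +contextual only [refl_add]; decide +kernel) (ym _ _) (ym _ _)), mem_Eg_zero.1 hv.2]⟩
    have g3 : v ∈ Eg ρ (y3 α (rD 21)) 0 := mem_Eg_zero.2 fun u => by
      have e := fun u => h.y3_conj o3 (eg (rD 21) u)
      rw [a7, a8, a9, zpow_one, zpow_one, zpow_neg_one] at e
      have l := sub_ne_zero.2 (ne_one3 h2 t1 t2).symm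
      refine fix_of_rel (by omega) (g2 (t * (φ t * (φ (φ t))⁻¹) * ((1 - t * (φ t * (φ (φ t))⁻¹))⁻¹ * u))) g1 ?_ hv
      rw [← e, mul_assoc, ← h.y3_add o3]
      congr 2
      rw [← sub_eq_iff_eq_add', ← one_sub_mul, mul_inv_cancel_left₀ l]
    have g4 : v ∈ FS ρ TD := h.mem_FS f7 (nilp_of h.hl (by simp only [htF_rtv]; decide +kernel)
      (by simp +contextual only [refl_add]; decide +kernel)) (by decide +kernel) fun s hs => by
        rcases (by revert s; decide +kernel : s = rD 23 ∨ s ∈ Ob symD4 (rD 19) ∨ s ∈ Ob symD4 (rD 21)) with e | e | e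
        · rw [e, Ob_fix f1, h.FS_single f1]; exact hv.1.1.2
        · exact FS_anti (h.Ob_sub (fun _ => h.ρ_mem_Ob.2) e) (h.y3_le o3 f7 (by rw [htF_rtv]; decide +kernel)
            (by decide +kernel) (by decide +kernel) hv.2)
        · exact FS_anti (h.Ob_sub (fun _ => h.ρ_mem_Ob.2) e) (h.y3_le o3 f7 (by rw [htF_rtv]; decide +kernel)
            (by decide +kernel) (by decide +kernel) g3)
    obtain ⟨ε, ε1, e⟩ := d4_conj (X := X) h.hl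
    obtain ⟨c, -, hc⟩ := exists_mulShift hμ (neg_ne_zero.2 hχ)
    obtain ⟨w, hw⟩ := exists_norm3 hφ hq hK (ε * c)
    have cy : (y3 α (rD 18) w).1 = X.x (rD 18) w * (X.x (rD 13) (φ w) * X.x (rD 12) (φ (φ w))) := by
      rw [h.coe_y3 o3, α.σ_x, α.σ_x, f4, f5, (ha _).1, (ha _).2]
    refine hμ (eq_zero_of_Eg (v := ρ (y3 α (rD 18) w) v) (fun e => hv0 (rho_inj ρ _ (e.trans (map_zero _).symm)))
      (h.sta_comm zc (ym _) (by decide +kernel) _ w v hvμ) (hle ⟨⟨trivial,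
        h.sta_comm zθ (ym _) (by decide +kernel) _ w v hv.1.1.2⟩, mem_Eg_zero.2 fun u => ?_⟩))
    obtain ⟨m, hm, e⟩ := e w (φ w) (φ (φ w)) u
    rw [hw, show (ε : K) * ((ε * c : fixF φ) : K) * u = (c * u : fixF φ) by
      push_cast; rw [← mul_assoc, ← Int.cast_mul, ε1]; simp, ← cy, ← h.coe_zz f2, ← h.coe_zz f3] at e
    have hm' : m ∈ α.fix := by
      rw [show m = (((zz α φ (rD 14) u)⁻¹ * ((y3 α (rD 18) w)⁻¹ * (zz α φ (rD 14) u * y3 α (rD 18) w))) *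
        (zz α φ (rD 22) (c * u))⁻¹ : α.fix) by simp only [Subgroup.coe_mul, Subgroup.coe_inv, e]; group]
      exact Subtype.prop _
    rw [← rho_mul, show zz α φ (rD 14) u * y3 α (rD 18) w = y3 α (rD 18) w * (zz α φ (rD 14) u * (⟨m, hm'⟩ *
      zz α φ (rD 22) (c * u))) from Subtype.ext e, rho_mul, rho_mul, rho_mul, hvμ, map_smul, g4 _ hm, map_smul, hv.1.2,
      smul_smul, ← AddChar.mulShift_apply, hc, ← AddChar.add_apply, neg_add_cancel, AddChar.zero_apply, one_smul]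
  have s2 : Sta ρ (⊤ ⊓ Eg ρ (zz α φ (rD 23)) 0 ⊓ Eg ρ (zz α φ (rD 14)) 0) (zz α φ (rD 22)) := fun u v hv =>
    ⟨⟨trivial, sc u v hv.1.2⟩, sb u v hv.1.2 hv.2⟩
  obtain ⟨χ0, h4, hb⟩ := exists_Eg (h.zz_add f3) s2 w1
  have k3 := add_mul_le_finrank (h.zz_add f3) s2 (d := 1) fun χ hχ => by
    obtain ⟨c, hc, e'⟩ := exists_mulShift hχ h4
    obtain ⟨y, -, y2⟩ := h.exists_h (ρ := ρ) f1 hc
    exact Nat.pos_of_ne_zero fun e => ne_bot_of_rho (ρ := ρ) y (fun v hv => by exact ⟨⟨⟨trivial, y2 _ f1 0 v fun t => by rw [hv.1.1.2 t]; rfl⟩, y2 _ f2 0 v fun t => by rw [hv.1.2 t]; rfl⟩,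
      y2 _ f3 χ v (by rw [show A (rD 23) (rD 22) = 1 by decide +kernel, zpow_one, e']; exact hv.2)⟩) hb
      (Submodule.finrank_eq_zero.1 e)
  rw [cF, Nat.add_sub_cancel] at k3
  have k4 : finrank ℂ N ≠ 0 := fun e => d0 (by rw [k1, e, mul_zero])
  rw [show finrank ℂ N = 1 by omega] at k1
  rw [d1, k1]
  nlinarith

end Cfsg.Agent.MinD
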